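import Cfsg.Agent.H74.DihForm

/-!
# Order formula for groups with dihedral Sylow `2`-subgroups and one class of involutions, II
-/

set_option autoImplicit false
set_option linter.unusedSectionVars false
set_option linter.style.haveILetI false

universe u v

namespace Cfsg.Agent.H74

open scoped ComplexConjugate BigOperators
open Cfsg Cfsg.Agent.CharBase Cfsg.Agent.Blk Cfsg.Agent.H4 Cfsg.Agent.BlkC

section gens
variable {G : Type u} [Group G] [Finite G]

theorem dihBlk_of_gens {M : Ideal AlgInt} (hM : IsPModular 2 M) (n : ℕ) (hn : 3 ≤ n)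
    (P : Sylow 2 G) (σ τ : G) (hσ : σ ∈ (P : Subgroup G)) (hτ : τ ∈ (P : Subgroup G))
    (hσo : orderOf σ = 2 ^ (n - 1)) (hτo : orderOf τ = 2) (hrel : τ * σ * τ⁻¹ = σ⁻¹)
    (hgen : Subgroup.closure ({σ, τ} : Set G) = (P : Subgroup G)) :
    ∃ V, DihBlk M P σ τ (σ ^ (2 ^ (n - 2))) (2 ^ (n - 2)) V := by
  have h2m : 2 ^ (n - 1) = 2 * 2 ^ (n - 2) := by
    rw [← pow_succ']; congr 1; omega
  have hm2 : 2 ≤ 2 ^ (n - 2) := by
    have : 2 ^ 1 ≤ 2 ^ (n - 2) := Nat.pow_le_pow_right (by norm_num) (by omega)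
    simpa using this
  have hττ : τ * τ = 1 := by rw [← pow_two, ← hτo]; exact pow_orderOf_eq_one τ
  have hτi : τ⁻¹ = τ := inv_eq_of_mul_eq_one_left hττ
  have h4 : orderOf σ ≠ 2 := by rw [hσo, h2m]; omega
  have hσσ : σ * σ ≠ 1 := by
    intro h
    rw [← pow_two] at h
    have h1 := orderOf_dvd_of_pow_eq_one h
    rw [hσo, h2m] at h1
    exact absurd (Nat.le_of_dvd (by norm_num) h1) (by omega)
  have hy : orderOf (τ * σ) = 2 := by
    apply orderOf_eq_prime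
    · rw [pow_two]
      have : τ * σ * (τ * σ) = (τ * σ * τ⁻¹) * σ := by rw [hτi]; group
      rw [this, hrel, inv_mul_cancel]
    · intro h
      have : σ = τ⁻¹ := eq_inv_of_mul_eq_one_right h
      rw [hτi] at this
      rw [this] at h4
      exact h4 hτo
  have hcl : Subgroup.closure ({τ, τ * σ} : Set G) = (P : Subgroup G) := by
    rw [← hgen]
    apply le_antisymm
    · rw [Subgroup.closure_le]
      rintro x (rfl | rfl)
      · exact Subgroup.subset_closure (by simp)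
      · exact Subgroup.mul_mem _ (Subgroup.subset_closure (by simp))
          (Subgroup.subset_closure (by simp))
    · rw [Subgroup.closure_le]
      rintro x (rfl | rfl)
      · have h5 : τ * (τ * x) ∈ Subgroup.closure ({τ, τ * x} : Set G) :=
          Subgroup.mul_mem _ (Subgroup.subset_closure (by simp))
            (Subgroup.subset_closure (by simp))
        rw [← mul_assoc, hττ, one_mul] at h5
        exact h5
      · exact Subgroup.subset_closure (by simp)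
  obtain ⟨e⟩ := nonempty_dihedralEquiv hτo hy
  rw [← mul_assoc, hττ, one_mul, hσo] at e
  rw [hcl] at e
  obtain ⟨s, V, h⟩ := exists_dihBlk hM n hn P ⟨e⟩ σ hσ hσo
  have hτC : τ ∉ Subgroup.zpowers σ := by
    intro hc
    have h1 := h.dih.comm_C hc (Subgroup.mem_zpowers σ)
    rw [h1, mul_inv_cancel_right] at hrel
    apply hσσ
    nth_rewrite 2 [hrel]
    exact mul_inv_cancel σ
  refine ⟨V, h.hM, ⟨h.dih.r_mem, hτ, h.dih.orderOf_r, hττ, hrel, hτC, ?_, h.dih.two_group,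
    h.dih.two_le⟩, h.two_le, h.even, h.vp, h.J_mem, h.J_uniq⟩
  intro x hx
  by_cases hxC : x ∈ Subgroup.zpowers σ
  · exact Or.inl hxC
  · exact Or.inr (h.dih.mul_mem_C hτ hτC hx hxC)

end gens

section grp
variable {G : Type u} [Group G] [Finite G] {M : Ideal AlgInt} {P : Sylow 2 G} {σ s J : G} {m : ℕ}
  {V : Subgroup G}

namespace DihBlk

theorem isConj_all (h : DihBlk M P σ s J m V) (h1 : IsConj J s) (h2 : IsConj J (σ * s)) (t : G)
    (htt : t * t = 1) (ht1 : t ≠ 1) : IsConj J t := by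
  haveI : Fact (Nat.Prime 2) := ⟨Nat.prime_two⟩
  have hto : t ^ (2 ^ 1) = 1 := by rw [pow_one, pow_two]; exact htt
  obtain ⟨g, hg⟩ := exists_conj_mem_sylow P hto
  have hc : IsConj t (g * t * g⁻¹) := isConj_iff.2 ⟨g, rfl⟩
  set x := g * t * g⁻¹ with hx
  have hxx : x * x = 1 := by
    rw [hx]
    have : g * t * g⁻¹ * (g * t * g⁻¹) = g * (t * t) * g⁻¹ := by group
    rw [this, htt, mul_one, mul_inv_cancel]
  have hx1 : x ≠ 1 := by
    intro h3
    apply ht1
    have : t = g⁻¹ * x * g := by rw [hx]; group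
    rw [this, h3]; group
  refine IsConj.trans ?_ hc.symm
  by_cases hxC : x ∈ Subgroup.zpowers σ
  · rcases h.J_uniq x hxC hxx with h3 | h3
    · exact absurd h3 hx1
    · rw [h3]
  · obtain ⟨c, hc1, hxc⟩ := h.dih.exists_eq hg hxC
    rw [← mem_powers_iff_mem_zpowers] at hc1
    obtain ⟨k, hk⟩ := hc1
    simp only at hk
    rcases Nat.even_or_odd' k with ⟨i, hi | hi⟩
    · have h3 : IsConj s x := by
        rw [isConj_iff]
        refine ⟨(σ ^ i)⁻¹, ?_⟩
        rw [inv_inv, h.inv_mul_s (Subgroup.pow_mem _ (Subgroup.mem_zpowers σ) i), hxc, ← hk, hi,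
          two_mul, pow_add, mul_assoc]
      exact h1.trans h3
    · have h3 : IsConj (σ * s) x := by
        rw [isConj_iff]
        refine ⟨(σ ^ (i + 1))⁻¹, ?_⟩
        have h4 : (σ ^ (i + 1))⁻¹ * (σ * s) = (σ ^ i)⁻¹ * s := by
          rw [pow_succ', mul_inv_rev, mul_assoc, inv_mul_cancel_left]
        rw [inv_inv, h4, h.inv_mul_s (Subgroup.pow_mem _ (Subgroup.mem_zpowers σ) i), hxc, ← hk, hi,
          mul_assoc, ← pow_add]
        congr 2
        ring
      exact h2.trans h3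

end DihBlk

end grp

section sums
variable {ζ : ℂ} {m : ℕ}

theorem sum_neg_one_pow (hm : 1 ≤ m) (hev : Even m) :
    ∑ j ∈ Finset.Ico 1 m, (-1 : ℂ) ^ j = -1 := by
  obtain ⟨t, rfl⟩ := hev
  obtain ⟨u, rfl⟩ : ∃ u, t = u + 1 := ⟨t - 1, by omega⟩
  clear hm
  induction u with
  | zero => simp
  | succ u ih =>
    rw [show u + 1 + 1 + (u + 1 + 1) = u + 1 + (u + 1) + 1 + 1 by ring,
      Finset.sum_Ico_succ_top (by omega), Finset.sum_Ico_succ_top (by omega), ih]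
    have h1 : (-1 : ℂ) ^ (u + 1 + (u + 1)) = 1 := Even.neg_one_pow ⟨u + 1, rfl⟩
    rw [pow_succ, h1]
    ring

theorem sum_zeta (hm : 1 ≤ m) (hζ : IsPrimitiveRoot ζ (2 * m)) :
    ∑ j ∈ Finset.Ico 1 m, (ζ ^ j + (ζ ^ j)⁻¹) = 0 := by
  have h0 : ∑ j ∈ Finset.range (2 * m), ζ ^ j = 0 := hζ.geom_sum_eq_zero (by omega)
  have hζ1 : ζ ^ (2 * m) = 1 := hζ.pow_eq_one
  have hζ0 : ζ ≠ 0 := hζ.ne_zero (by omega)
  have hm1 : ζ ^ m = -1 := by
    have h1 : ζ ^ m * ζ ^ m = 1 := by rw [← pow_add, ← two_mul, hζ1]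
    rcases mul_self_eq_one_iff.1 h1 with h2 | h2
    · exfalso
      exact hζ.pow_ne_one_of_pos_of_lt (by omega) (by omega) h2
    · exact h2
  rw [Finset.sum_add_distrib]
  have h2 : ∑ j ∈ Finset.Ico 1 m, (ζ ^ j)⁻¹ = ∑ j ∈ Finset.Ico (m + 1) (2 * m), ζ ^ j := by
    refine Finset.sum_bij' (fun j _ => 2 * m - j) (fun j _ => 2 * m - j) ?_ ?_ ?_ ?_ ?_
    · intro j hj
      rw [Finset.mem_Ico] at hj ⊢
      omega
    · intro j hj
      rw [Finset.mem_Ico] at hj ⊢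
      omega
    · intro j hj
      rw [Finset.mem_Ico] at hj
      omega
    · intro j hj
      rw [Finset.mem_Ico] at hj
      omega
    · intro j hj
      rw [Finset.mem_Ico] at hj
      apply inv_eq_of_mul_eq_one_left
      rw [← pow_add, show 2 * m - j + j = 2 * m by omega, hζ1]
  rw [h2]
  have h3 : ∑ j ∈ Finset.range (2 * m), ζ ^ j = ζ ^ 0 + ∑ j ∈ Finset.Ico 1 m, ζ ^ j + ζ ^ m +
      ∑ j ∈ Finset.Ico (m + 1) (2 * m), ζ ^ j := by
    rw [Finset.range_eq_Ico, ← Finset.sum_Ico_consecutive (fun j => ζ ^ j) (Nat.zero_le (m + 1))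
      (by omega), Finset.sum_Ico_succ_top (Nat.zero_le m), ← Finset.sum_Ico_consecutive
      (fun j => ζ ^ j) (Nat.zero_le 1) hm]
    simp
  rw [h0, hm1, pow_zero] at h3
  linear_combination -h3

end sums

section fin
variable {G : Type u} [Group G] [Fintype G] {M : Ideal AlgInt} {P : Sylow 2 G} {σ s J : G} {m : ℕ}
  {V : Subgroup G} {ζ : ℂ} {c1 c2 c3 : IrrCharacter G} {e : ℕ → IrrCharacter G} {δ1 δ2 δ3 : ℤ}

theorem DihOut.sum_eq (h : DihBlk M P σ s J m V) (o : DihOut M σ m ζ c1 c2 c3 e δ1 δ2 δ3)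
    [Fintype (IrrCharacter G)] [DecidablePred (· ∈ principalBlock M G)]
    (f : IrrCharacter G → ℂ) :
    ∑ χ : IrrCharacter G, (if χ ∈ principalBlock M G then f χ else 0) =
      f (oneIrr G) + f c1 + f c2 + f c3 + ∑ j ∈ Finset.Ico 1 m, f (e j) := by
  classical
  have hm2 := h.two_le
  have hfil : (Finset.univ : Finset (IrrCharacter G)).filter (· ∈ principalBlock M G) =
      ({oneIrr G, c1, c2, c3} : Finset (IrrCharacter G)) ∪ (Finset.Ico 1 m).image e := by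
    ext χ
    simp only [Finset.mem_filter, Finset.mem_univ, true_and, o.mem, Finset.mem_union,
      Finset.mem_insert, Finset.mem_singleton, Finset.mem_image, Finset.mem_Ico]
    constructor
    · rintro (h | h | h | h | ⟨j, h1, h2, h3⟩)
      · exact Or.inl (Or.inl h)
      · exact Or.inl (Or.inr (Or.inl h))
      · exact Or.inl (Or.inr (Or.inr (Or.inl h)))
      · exact Or.inl (Or.inr (Or.inr (Or.inr h)))
      · exact Or.inr ⟨j, ⟨h1, h2⟩, h3.symm⟩
    · rintro ((h | h | h | h) | ⟨j, ⟨h1, h2⟩, h3⟩)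
      · exact Or.inl h
      · exact Or.inr (Or.inl h)
      · exact Or.inr (Or.inr (Or.inl h))
      · exact Or.inr (Or.inr (Or.inr (Or.inl h)))
      · exact Or.inr (Or.inr (Or.inr (Or.inr ⟨j, h1, h2, h3.symm⟩)))
  have hinj : ∀ i ∈ Finset.Ico 1 m, ∀ j ∈ Finset.Ico 1 m, e i = e j → i = j := by
    intro i hi j hj hij
    rw [Finset.mem_Ico] at hi hj
    exact o.einj i j hi.1 hi.2 hj.1 hj.2 hij
  rw [← Finset.sum_filter, hfil, Finset.sum_union, Finset.sum_image hinj,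
    Finset.sum_insert, Finset.sum_insert, Finset.sum_insert, Finset.sum_singleton]
  · ring
  · simpa using o.c23
  · simp only [Finset.mem_insert, Finset.mem_singleton, not_or]; exact ⟨o.c12, o.c13⟩
  · simp only [Finset.mem_insert, Finset.mem_singleton, not_or]
    exact ⟨Ne.symm o.c1o, Ne.symm o.c2o, Ne.symm o.c3o⟩
  · rw [Finset.disjoint_left]
    intro χ hχ hχ'
    rw [Finset.mem_image] at hχ'
    obtain ⟨j, hj, rfl⟩ := hχ'
    rw [Finset.mem_Ico] at hj
    simp only [Finset.mem_insert, Finset.mem_singleton] at hχ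
    obtain ⟨a, b, c, d⟩ := o.en j hj.1 hj.2
    rcases hχ with h | h | h | h
    · exact a h
    · exact b h
    · exact c h
    · exact d h

theorem DihOut.deg_e (o : DihOut M σ m ζ c1 c2 c3 e δ1 δ2 δ3) {j : ℕ} (hj : 1 ≤ j) (hj' : j < m) :
    ((e j : G → ℂ) 1) = (c1 : G → ℂ) 1 + δ1 := by
  have h1 := o.rege 1 (by rw [orderOf_one]; exact odd_one) j hj hj'
  rcases o.s1 with h2 | h2
  · rw [h2] at h1 ⊢; push_cast at h1 ⊢; linear_combination -h1
  · rw [h2] at h1 ⊢; push_cast at h1 ⊢; linear_combination h1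

theorem DihOut.zeta_pow (hζ : IsPrimitiveRoot ζ (2 * m)) (hm : 1 ≤ m) (j : ℕ) :
    ζ ^ (j * m) = (-1) ^ j := by
  have hm1 : ζ ^ m = -1 := by
    have h1 : ζ ^ m * ζ ^ m = 1 := by rw [← pow_add, ← two_mul, hζ.pow_eq_one]
    rcases mul_self_eq_one_iff.1 h1 with h2 | h2
    · exfalso
      exact hζ.pow_ne_one_of_pos_of_lt (by omega) (by omega) h2
    · exact h2
  rw [mul_comm, pow_mul, hm1]

/-- the block sum -/
theorem DihOut.block_sum (h : DihBlk M P σ s J m V) (hζ : IsPrimitiveRoot ζ (2 * m))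
    (o : DihOut M σ m ζ c1 c2 c3 e δ1 δ2 δ3)
    [Fintype (IrrCharacter G)] [DecidablePred (· ∈ principalBlock M G)] :
    (∑ χ : IrrCharacter G, (if χ ∈ principalBlock M G then
      (χ : G → ℂ) J * (χ : G → ℂ) J * conj ((χ : G → ℂ) J) / (χ : G → ℂ) 1 else 0)) +
    (∑ χ : IrrCharacter G, (if χ ∈ principalBlock M G then
      (χ : G → ℂ) J * (χ : G → ℂ) J * conj ((χ : G → ℂ) σ) / (χ : G → ℂ) 1 else 0)) =
    2 + 2 * δ1 / (c1 : G → ℂ) 1 - 8 * δ1 / ((c1 : G → ℂ) 1 + δ1) := by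
  have hm2 := h.two_le
  have hev := h.even
  rw [o.sum_eq h, o.sum_eq h]
  have hc : ∀ z : ℤ, conj (z : ℂ) = z := fun z => by
    rw [map_intCast]
  have hJ := h.J_eq
  have hσ : σ = σ ^ 1 := (pow_one σ).symm
  have v1J : (c1 : G → ℂ) J = δ1 := by rw [hJ]; exact o.val1 m (by omega) (by omega)
  have v1σ : (c1 : G → ℂ) σ = δ1 := by
    have := o.val1 1 (by omega) (by omega)
    rwa [pow_one] at this
  have v2J : (c2 : G → ℂ) J = -δ2 := by
    rw [hJ, o.val2 m (by omega) (by omega), pow_succ, hev.neg_one_pow]; ring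
  have v2σ : (c2 : G → ℂ) σ = δ2 := by
    have := o.val2 1 (by omega) (by omega)
    rw [pow_one] at this
    rw [this]; norm_num
  have v3J : (c3 : G → ℂ) J = -δ3 := by
    rw [hJ, o.val3 m (by omega) (by omega), pow_succ, hev.neg_one_pow]; ring
  have v3σ : (c3 : G → ℂ) σ = δ3 := by
    have := o.val3 1 (by omega) (by omega)
    rw [pow_one] at this
    rw [this]; norm_num
  have veJ : ∀ j ∈ Finset.Ico 1 m, (e j : G → ℂ) J = 2 * δ1 * (-1) ^ j := by
    intro j hj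
    rw [Finset.mem_Ico] at hj
    rw [hJ, o.vale m (by omega) (by omega) j hj.1 hj.2, DihOut.zeta_pow hζ (by omega)]
    have : ((-1 : ℂ) ^ j)⁻¹ = (-1) ^ j := by
      rw [← inv_pow]; norm_num
    rw [this]; ring
  have veσ : ∀ j ∈ Finset.Ico 1 m, (e j : G → ℂ) σ = δ1 * (ζ ^ j + (ζ ^ j)⁻¹) := by
    intro j hj
    rw [Finset.mem_Ico] at hj
    have := o.vale 1 (by omega) (by omega) j hj.1 hj.2
    rw [pow_one, mul_one] at this
    exact this
  have hsq : ∀ z : ℤ, (z = 1 ∨ z = -1) → (z : ℂ) * z = 1 := by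
    rintro z (rfl | rfl) <;> norm_num
  have hpc : ∀ j : ℕ, ((-1 : ℂ) ^ j) * (-1) ^ j = 1 := fun j => by
    rw [← mul_pow]; norm_num
  have hζa : ∀ j, conj (ζ ^ j) = (ζ ^ j)⁻¹ := by
    intro j
    have h1 : ‖ζ ^ j‖ = 1 := by
      rw [norm_pow, hζ.norm'_eq_one (by omega), one_pow]
    rw [← Complex.inv_eq_conj h1]
  have eJ : ∀ j ∈ Finset.Ico 1 m, (e j : G → ℂ) J * (e j : G → ℂ) J * conj ((e j : G → ℂ) J) /
      (e j : G → ℂ) 1 = 8 * δ1 / ((c1 : G → ℂ) 1 + δ1) * (-1) ^ j := by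
    intro j hj
    have hj' := Finset.mem_Ico.1 hj
    rw [veJ j hj, o.deg_e hj'.1 hj'.2]
    simp only [map_mul, map_pow, map_neg, map_one, hc]
    have : conj (2 : ℂ) = 2 := by norm_num [Complex.ext_iff]
    rw [this]
    have h1 := hsq δ1 o.s1
    have h2 := hpc j
    rw [show 2 * (δ1 : ℂ) * (-1) ^ j * (2 * (δ1 : ℂ) * (-1) ^ j) * (2 * (δ1 : ℂ) * (-1) ^ j) =
      8 * ((δ1 : ℂ) * δ1) * δ1 * (((-1 : ℂ) ^ j) * (-1) ^ j) * (-1) ^ j by ring, h1, h2]
    ring
  have eσ : ∀ j ∈ Finset.Ico 1 m, (e j : G → ℂ) J * (e j : G → ℂ) J * conj ((e j : G → ℂ) σ) /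
      (e j : G → ℂ) 1 = 4 * δ1 / ((c1 : G → ℂ) 1 + δ1) * (ζ ^ j + (ζ ^ j)⁻¹) := by
    intro j hj
    have hj' := Finset.mem_Ico.1 hj
    rw [veJ j hj, veσ j hj, o.deg_e hj'.1 hj'.2]
    have hci : conj ((ζ ^ j)⁻¹) = ζ ^ j := by rw [map_inv₀, hζa, inv_inv]
    rw [map_mul, map_add, hζa, hci, hc]
    have h1 := hsq δ1 o.s1
    have h2 := hpc j
    rw [show 2 * (δ1 : ℂ) * (-1) ^ j * (2 * (δ1 : ℂ) * (-1) ^ j) * (δ1 * ((ζ ^ j)⁻¹ + ζ ^ j)) =
      4 * ((δ1 : ℂ) * δ1) * δ1 * (((-1 : ℂ) ^ j) * (-1) ^ j) * (ζ ^ j + (ζ ^ j)⁻¹) by ring, h1, h2]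
    ring
  rw [Finset.sum_congr rfl eJ, Finset.sum_congr rfl eσ, ← Finset.mul_sum, ← Finset.mul_sum,
    sum_neg_one_pow (by omega) hev, sum_zeta (by omega) hζ, v1J, v1σ, v2J, v2σ, v3J, v3σ,
    oneIrr_apply, oneIrr_apply, oneIrr_apply]
  simp only [map_neg, hc, map_one]
  have h1 := hsq δ1 o.s1
  have h2 := hsq δ2 o.s2
  have h3 := hsq δ3 o.s3
  rw [h1]
  rw [show -(δ2 : ℂ) * -(δ2 : ℂ) = 1 by rw [neg_mul_neg]; exact h2,
    show -(δ3 : ℂ) * -(δ3 : ℂ) = 1 by rw [neg_mul_neg]; exact h3]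
  ring

/-- the order formula -/
theorem dih_formula (h : DihBlk M P σ s J m V) (hζ : IsPrimitiveRoot ζ (2 * m))
    (o : DihOut M σ m ζ c1 c2 c3 e δ1 δ2 δ3) (h1 : IsConj J s) (h2 : IsConj J (σ * s)) :
    (charDegree (c1 : G → ℂ) : ℤ) ≠ δ1 ∧
    (Nat.card G : ℚ) * ((charDegree (c1 : G → ℂ) : ℚ) - δ1) ^ 2 =
      2 * (charDegree (c1 : G → ℂ) : ℚ) * ((charDegree (c1 : G → ℂ) : ℚ) + δ1) *
      (Nat.card (Subgroup.centralizer ({J} : Set G)) : ℚ) ^ 3 *
      (1 / (Nat.card (Subgroup.centralizer ({J, s} : Set G)) : ℚ) +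
        1 / (Nat.card (Subgroup.centralizer ({J, σ * s} : Set G)) : ℚ)) ^ 2 := by
  classical
  haveI : Fintype (IrrCharacter G) := Fintype.ofFinite _
  haveI : Fintype (P : Subgroup G) := Fintype.ofFinite _
  have hm2 := h.two_le
  have hconj := h.isConj_all h1 h2
  obtain ⟨k, hk⟩ := h.exists_orderOf (h.C_le (Subgroup.mem_zpowers σ))
  have hσ1 : σ ≠ 1 := by
    intro h3
    have := h.dih.orderOf_r
    rw [h3, orderOf_one] at this
    omega
  have mJ := h.vp.main h.hM hconj h.vp.J_mem (Subgroup.mem_zpowers J) (k := 1)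
    (by rw [h.orderOf_J]; norm_num)
  have mσ := h.vp.main h.hM hconj (h.C_le (Subgroup.mem_zpowers σ))
    (h.J_mem_zpowers (Subgroup.mem_zpowers σ) hσ1) hk
  rw [h.sum_ninv_J] at mJ
  rw [h.sum_ninv_σ] at mσ
  have hS := o.block_sum h hζ
  set SJ : ℂ := ∑ χ : IrrCharacter G, (if χ ∈ principalBlock M G then
      (χ : G → ℂ) J * (χ : G → ℂ) J * conj ((χ : G → ℂ) J) / (χ : G → ℂ) 1 else 0) with hSJ
  set Sσ : ℂ := ∑ χ : IrrCharacter G, (if χ ∈ principalBlock M G then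
      (χ : G → ℂ) J * (χ : G → ℂ) J * conj ((χ : G → ℂ) σ) / (χ : G → ℂ) 1 else 0) with hSσ
  have hsC : s ∉ Subgroup.zpowers σ := h.dih.s_notMem
  have hσs : σ * s ∈ (P : Subgroup G) := (P : Subgroup G).mul_mem h.dih.r_mem h.dih.s_mem
  have hσsC : σ * s ∉ Subgroup.zpowers σ := by
    intro h3
    apply hsC
    have h4 := (Subgroup.zpowers σ).mul_mem ((Subgroup.zpowers σ).inv_mem (Subgroup.mem_zpowers σ)) h3
    rwa [inv_mul_cancel_left] at h4
  have r0 := h.ninv_refl h.dih.s_mem hsC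
  have r1 := h.ninv_refl hσs hσsC
  have hf1 : ninv V (σ * s) = ninv V (s * σ) := by
    have h3 := h.s_mul_ninv (c := σ) (u := σ⁻¹) (Subgroup.mem_zpowers σ)
      (Subgroup.inv_mem _ (Subgroup.mem_zpowers σ))
    rw [mul_inv_cancel_left] at h3
    rw [← h3]
    congr 1
    have h4 := h.inv_mul_s (c := σ⁻¹) (Subgroup.inv_mem _ (Subgroup.mem_zpowers σ))
    rw [inv_inv] at h4
    exact h4
  rw [hf1] at r1
  have hcJ := h.card_cJ
  -- to rational numbers
  have hx1s := charDegree_spec c1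
  have hdeg1 : (0 : ℤ) < (charDegree (c1 : G → ℂ) : ℤ) := by
    exact_mod_cast Cfsg.Agent.H79.irr_degree_pos c1
  have hdege : (charDegree (e 1 : G → ℂ) : ℤ) = (charDegree (c1 : G → ℂ) : ℤ) + δ1 := by
    have h3 := o.deg_e (j := 1) le_rfl (by omega)
    rw [charDegree_spec, charDegree_spec] at h3
    exact_mod_cast h3
  have hdege0 : (0 : ℤ) < (charDegree (c1 : G → ℂ) : ℤ) + δ1 := by
    rw [← hdege]; exact_mod_cast Cfsg.Agent.H79.irr_degree_pos (e 1)
  rw [hx1s] at hS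
  set X : ℕ := charDegree (c1 : G → ℂ) with hX
  set g := Nat.card G with hg
  set v := Nat.card V with hv
  set a := ninv V s with ha
  set b := ninv V (s * σ) with hb
  set cs := Nat.card (Subgroup.centralizer ({J, s} : Set G)) with hcs
  set ct := Nat.card (Subgroup.centralizer ({J, σ * s} : Set G)) with hct
  set c := Nat.card (Subgroup.centralizer ({J} : Set G)) with hc
  have hg0 : (0 : ℚ) < g := by rw [hg]; exact_mod_cast Nat.card_pos
  have hv0 : (0 : ℚ) < v := by rw [hv]; exact_mod_cast Nat.card_pos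
  have hcs0 : (0 : ℚ) < cs := by rw [hcs]; exact_mod_cast Nat.card_pos
  have hct0 : (0 : ℚ) < ct := by rw [hct]; exact_mod_cast Nat.card_pos
  have hc0 : (0 : ℚ) < c := by rw [hc]; exact_mod_cast Nat.card_pos
  have hm0 : (0 : ℚ) < m := by exact_mod_cast (by omega : 0 < m)
  have hX0 : (0 : ℚ) < X := by exact_mod_cast hdeg1
  have hXd : (0 : ℚ) < (X : ℚ) + δ1 := by exact_mod_cast hdege0
  have r0q : (a : ℚ) * cs = 4 * v := by exact_mod_cast r0
  have r1q : (b : ℚ) * ct = 4 * v := by exact_mod_cast r1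
  have hcq : (c : ℚ) = 4 * m * v := by exact_mod_cast hcJ
  have hd2 : (δ1 : ℚ) ^ 2 = 1 := by
    rcases o.s1 with h3 | h3 <;> rw [h3] <;> norm_num
  have key : (c : ℚ) ^ 2 * (m * ((a : ℚ) + b) ^ 2) =
      g * v * (2 + 2 * δ1 / X - 8 * δ1 / (X + δ1)) := by
    have h3 : (((c : ℚ) ^ 2 * (m * ((a : ℚ) + b) ^ 2) : ℚ) : ℂ) =
        ((g * v * (2 + 2 * δ1 / X - 8 * δ1 / (X + δ1)) : ℚ) : ℂ) := by
      push_cast
      rw [← hS]
      linear_combination mJ + mσ
    exact_mod_cast h3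
  have hbr : (2 + 2 * (δ1 : ℚ) / X - 8 * δ1 / (X + δ1)) * (X * (X + δ1)) =
      2 * (X - δ1) ^ 2 := by
    field_simp
    linear_combination (0 : ℚ) * hd2
  have ha0 : (a : ℚ) = 4 * v / cs := by rw [eq_div_iff hcs0.ne']; exact r0q
  have hb0 : (b : ℚ) = 4 * v / ct := by rw [eq_div_iff hct0.ne']; exact r1q
  have key2 : (c : ℚ) ^ 2 * (m * ((a : ℚ) + b) ^ 2) * (X * (X + δ1)) =
      g * v * (2 * (X - δ1) ^ 2) := by
    rw [key, ← hbr]; ring
  constructor
  · intro h3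
    have h4 : (X : ℚ) = δ1 := by exact_mod_cast h3
    rw [h4, sub_self] at key2
    have h5 : (0 : ℚ) < (c : ℚ) ^ 2 * (m * ((a : ℚ) + b) ^ 2) * (X * (X + δ1)) := by
      rw [ha0, hb0]
      positivity
    rw [h4] at h5
    rw [key2] at h5
    norm_num at h5
  · have hmq : (m : ℚ) = c / (4 * v) := by
      rw [eq_div_iff (by positivity)]; rw [hcq]; ring
    rw [ha0, hb0, hmq] at key2
    have h6 : (4 * (v : ℚ) / cs + 4 * v / ct) = 4 * v * (1 / cs + 1 / ct) := by ring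
    rw [h6] at key2
    set w : ℚ := 1 / (cs : ℚ) + 1 / ct
    have h7 : (c : ℚ) ^ 2 * (c / (4 * v) * (4 * v * w) ^ 2) = v * (4 * c ^ 3 * w ^ 2) := by
      field_simp
    rw [h7] at key2
    have h8 : (v : ℚ) * ((4 * c ^ 3 * w ^ 2) * (X * (X + δ1))) = v * (g * (2 * (X - δ1) ^ 2)) := by
      linear_combination key2
    have h9 := mul_left_cancel₀ hv0.ne' h8
    linear_combination (-1 / 2 : ℚ) * h9

end fin

end Cfsg.Agent.H74
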