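import Cfsg.Agent.H74.DihComb
import Cfsg.Agent.H74.NpcPair
import Cfsg.Agent.H74.AbChar
import Cfsg.Agent.DihSyl.Basic
import Cfsg.Agent.BlkC.PrincipalSum

/-!
# The principal `2`-block of a group with dihedral Sylow `2`-subgroups
-/

set_option autoImplicit false
set_option linter.unusedSectionVars false
set_option linter.style.haveILetI false

universe u v

namespace Cfsg.Agent.H74

open scoped ComplexConjugate BigOperators
open Cfsg Cfsg.Agent.CharBase Cfsg.Agent.Blk Cfsg.Agent.H4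

variable {G : Type u} [Group G] [Finite G]

structure DihBlk (M : Ideal AlgInt) (P : Sylow 2 G) (σ s J : G) (m : ℕ) (V : Subgroup G) :
    Prop where
  hM : IsPModular 2 M
  dih : DihSyl.DihData (P : Subgroup G) σ s (2 * m)
  two_le : 2 ≤ m
  even : Even m
  vp : VP J V (P : Subgroup G)
  J_mem : J ∈ Subgroup.zpowers σ
  J_uniq : ∀ y ∈ Subgroup.zpowers σ, y * y = 1 → y = 1 ∨ y = J

theorem exists_dihBlk {M : Ideal AlgInt} (hM : IsPModular 2 M) (n : ℕ) (hn : 3 ≤ n)
    (P : Sylow 2 G) (hP : Nonempty ((P : Subgroup G) ≃* DihedralGroup (2 ^ (n - 1)))) (σ : G)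
    (hσ : σ ∈ (P : Subgroup G)) (hσo : orderOf σ = 2 ^ (n - 1)) :
    ∃ s V, DihBlk M P σ s (σ ^ (2 ^ (n - 2))) (2 ^ (n - 2)) V := by
  have h2m : 2 ^ (n - 1) = 2 * 2 ^ (n - 2) := by
    rw [← pow_succ']; congr 1; omega
  have hm2 : 2 ≤ 2 ^ (n - 2) := by
    have : 2 ^ 1 ≤ 2 ^ (n - 2) := Nat.pow_le_pow_right (by norm_num) (by omega)
    simpa using this
  have hmev : Even (2 ^ (n - 2)) := (Nat.even_pow).mpr ⟨even_two, by omega⟩
  obtain ⟨e⟩ := hP
  obtain ⟨r, s, h⟩ := DihSyl.exists_dihData (S := (P : Subgroup G)) P.2 (by rw [h2m]; omega) e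
  -- `σ ∈ ⟨r⟩`
  have hσr : σ ∈ Subgroup.zpowers r := by
    by_contra hc
    have := h.orderOf_eq_two hσ hc
    rw [hσo, h2m] at this
    omega
  have hzp : Subgroup.zpowers σ = Subgroup.zpowers r := by
    apply Subgroup.eq_of_le_of_card_ge (Subgroup.zpowers_le.2 hσr)
    rw [Nat.card_zpowers, Nat.card_zpowers, hσo, h.orderOf_r]
  have h' : DihSyl.DihData (P : Subgroup G) σ s (2 * 2 ^ (n - 2)) :=
    ⟨hσ, h.s_mem, by rw [hσo, h2m], h.s_sq, h.conj_zpow hσr, by rw [hzp]; exact h.s_notMem,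
      by rw [hzp]; exact h.cases, h.two_group, by omega⟩
  obtain ⟨z, hz1, hz2, hz3, hz4⟩ := h'.exists_z
  have hzJ : z = σ ^ (2 ^ (n - 2)) := by
    have h1 : σ ^ (2 ^ (n - 2)) * σ ^ (2 ^ (n - 2)) = 1 := by
      rw [← pow_add, ← two_mul, ← h2m, ← hσo, pow_orderOf_eq_one]
    rcases hz3 _ (Subgroup.pow_mem _ (Subgroup.mem_zpowers σ) _) h1 with h2 | h2
    · exfalso
      have h3 := orderOf_dvd_of_pow_eq_one h2
      rw [hσo, h2m] at h3
      have := Nat.le_of_dvd (by positivity) h3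
      omega
    · exact h2.symm
  subst hzJ
  refine ⟨s, _, hM, h', hm2, hmev, VP.of_sylow P (h'.C_le hz1) hz2 hz4 ?_, hz1, hz3⟩
  exact H9.hasNPC_centralizer_of_dihedral_sylow P (2 ^ (n - 1)) (by positivity) ⟨e⟩ _ hz2

namespace DihBlk

variable {M : Ideal AlgInt} {P : Sylow 2 G} {σ s J : G} {m : ℕ} {V : Subgroup G}

theorem card_C (h : DihBlk M P σ s J m V) : Nat.card (Subgroup.zpowers σ) = 2 * m := by
  rw [Nat.card_zpowers, h.dih.orderOf_r]

theorem C_le (h : DihBlk M P σ s J m V) : Subgroup.zpowers σ ≤ (P : Subgroup G) := h.dih.C_le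

theorem orderOf_J (h : DihBlk M P σ s J m V) : orderOf J = 2 :=
  orderOf_eq_prime (by rw [pow_two]; exact h.vp.J_sq) h.vp.J_ne

theorem exists_orderOf (h : DihBlk M P σ s J m V) {x : G} (hx : x ∈ (P : Subgroup G)) :
    ∃ k, orderOf x = 2 ^ k := by
  obtain ⟨k, hk⟩ := IsPGroup.iff_orderOf.1 P.2 ⟨x, hx⟩
  exact ⟨k, by rwa [Subgroup.orderOf_mk] at hk⟩

theorem J_mem_zpowers (h : DihBlk M P σ s J m V) {x : G} (hx : x ∈ Subgroup.zpowers σ)
    (hx1 : x ≠ 1) : J ∈ Subgroup.zpowers x := by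
  obtain ⟨k, hk⟩ := h.exists_orderOf (h.C_le hx)
  rcases k with _ | k
  · rw [pow_zero] at hk; exact absurd (orderOf_eq_one_iff.1 hk) hx1
  · have h1 : x ^ (2 ^ k) * x ^ (2 ^ k) = 1 := by
      rw [← pow_add, ← two_mul, ← pow_succ', ← hk, pow_orderOf_eq_one]
    rcases h.J_uniq _ (Subgroup.pow_mem _ hx _) h1 with h2 | h2
    · exfalso
      have h3 := orderOf_dvd_of_pow_eq_one h2
      rw [hk] at h3
      have := Nat.le_of_dvd (by positivity) h3
      rw [pow_succ] at this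
      have : 0 < 2 ^ k := by positivity
      omega
    · rw [← h2]; exact Subgroup.pow_mem _ (Subgroup.mem_zpowers x) _

/-- fusion inside `⟨σ⟩` -/
theorem conj_iff (h : DihBlk M P σ s J m V) {x y : G} (hx : x ∈ Subgroup.zpowers σ)
    (hy : y ∈ Subgroup.zpowers σ) (hx1 : x ≠ 1) (hc : IsConj x y) : y = x ∨ y = x⁻¹ := by
  obtain ⟨g, hg⟩ := isConj_iff.1 hc
  have hJx := h.J_mem_zpowers hx hx1
  obtain ⟨a, ha⟩ := Subgroup.mem_zpowers_iff.1 hJx
  have hgJ : g * J * g⁻¹ = J := by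
    have h1 : g * J * g⁻¹ = y ^ a := by rw [← ha, ← hg, conj_zpow]
    have h2 : y ^ a ∈ Subgroup.zpowers σ := Subgroup.zpow_mem _ hy a
    have h3 : y ^ a * y ^ a = 1 := by
      rw [← h1]
      have : g * J * g⁻¹ * (g * J * g⁻¹) = g * (J * J) * g⁻¹ := by group
      rw [this, h.vp.J_sq]; group
    rcases h.J_uniq _ h2 h3 with h4 | h4
    · exfalso
      rw [← h1] at h4
      apply h.vp.J_ne
      have : J = g⁻¹ * (g * J * g⁻¹) * g := by group
      rw [this, h4]; group
    · rw [h1, h4]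
  have hgC : g ∈ Subgroup.centralizer ({J} : Set G) :=
    Subgroup.mem_centralizer_singleton_iff.2 (mul_inv_eq_iff_eq_mul.1 hgJ)
  obtain ⟨v, hv, t, ht, rfl⟩ := h.vp.exists_mul g hgC
  have key : ∀ x' ∈ Subgroup.zpowers σ, t * x * t⁻¹ = x' → y = x' := by
    intro x' hx' h1
    have h2 : v * x' * v⁻¹ = y := by
      rw [← h1, ← hg]; group
    have h3 : v * x' * v⁻¹ * x'⁻¹ ∈ V ⊓ (P : Subgroup G) := by
      refine ⟨?_, ?_⟩
      · have h4 : x' * v⁻¹ * x'⁻¹ ∈ V := h.vp.normal x' (h.vp.P_le (h.C_le hx')) _ (V.inv_mem hv)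
        have h5 := V.mul_mem hv h4
        have h6 : v * (x' * v⁻¹ * x'⁻¹) = v * x' * v⁻¹ * x'⁻¹ := by group
        rwa [h6] at h5
      · rw [h2]
        exact (P : Subgroup G).mul_mem (h.C_le hy) ((P : Subgroup G).inv_mem (h.C_le hx'))
    rw [h.vp.inf, Subgroup.mem_bot, h2] at h3
    exact mul_inv_eq_one.1 h3
  by_cases htC : t ∈ Subgroup.zpowers σ
  · left
    apply key x hx
    rw [h.dih.comm_C htC hx]; group
  · right
    exact key x⁻¹ (Subgroup.inv_mem _ hx) (h.dih.conj_C ht htC hx)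

/-- the centralizers in `P` -/
theorem inf_centralizer (h : DihBlk M P σ s J m V) {x : G} (hx : x ∈ Subgroup.zpowers σ)
    (hx1 : x ≠ 1) (hxJ : x ≠ J) :
    (P : Subgroup G) ⊓ Subgroup.centralizer ({x} : Set G) = Subgroup.zpowers σ := by
  ext g
  rw [Subgroup.mem_inf, Subgroup.mem_centralizer_singleton_iff]
  constructor
  · rintro ⟨h1, h2⟩
    by_contra hg
    have h3 := h.dih.conj_C h1 hg hx
    have h4 : g * x * g⁻¹ = x := by rw [h2]; group
    rw [h4] at h3
    have h5 : x * x = 1 := by nth_rewrite 2 [h3]; exact mul_inv_cancel x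
    rcases h.J_uniq x hx h5 with h6 | h6
    · exact hx1 h6
    · exact hxJ h6
  · intro hg
    exact ⟨h.C_le hg, h.dih.comm_C hg hx⟩

theorem card_P (h : DihBlk M P σ s J m V) : Nat.card (P : Subgroup G) = 4 * m := by
  have h1 : (Subgroup.zpowers σ).relIndex (P : Subgroup G) = 2 := by
    rw [Subgroup.relIndex]
    apply Subgroup.index_eq_two_iff.2
    refine ⟨⟨s, h.dih.s_mem⟩, fun b => ?_⟩
    rw [Subgroup.mem_subgroupOf, Subgroup.mem_subgroupOf]
    have hb : (b : G) ∈ (P : Subgroup G) := b.2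
    by_cases hbC : (b : G) ∈ Subgroup.zpowers σ
    · right
      refine ⟨hbC, ?_⟩
      intro hc
      apply h.dih.s_notMem
      have : (b : G) * s * 1 ∈ Subgroup.zpowers σ := by simpa using hc
      have h2 := Subgroup.mul_mem _ (Subgroup.inv_mem _ hbC) hc
      simpa using h2
    · left
      exact ⟨h.dih.mul_mem_C hb hbC h.dih.s_mem h.dih.s_notMem, hbC⟩
  have h2 := Subgroup.relIndex_mul_relIndex ⊥ (Subgroup.zpowers σ) (P : Subgroup G) bot_le h.C_le
  rw [Subgroup.relIndex_bot_left, Subgroup.relIndex_bot_left, h1, h.card_C] at h2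
  omega

theorem two_pow_factorization (h : DihBlk M P σ s J m V) [DecidableEq G] {x : G} (hx : x ∈ Subgroup.zpowers σ)
    (hx1 : x ≠ 1) : 2 ^ (Nat.card (Subgroup.centralizer ({x} : Set G))).factorization 2 =
      if x = J then 4 * m else 2 * m := by
  have h1 := h.vp.card_centralizer' (h.C_le hx) (h.J_mem_zpowers hx hx1)
  have hodd : ¬ 2 ∣ Nat.card (V ⊓ Subgroup.centralizer ({x} : Set G) : Subgroup G) := by
    intro hd
    have h2 : Nat.card (V ⊓ Subgroup.centralizer ({x} : Set G) : Subgroup G) ∣ Nat.card V :=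
      Subgroup.card_dvd_of_le inf_le_left
    have h3 := (Nat.not_even_iff_odd.2 h.vp.V_odd)
    exact h3 (even_iff_two_dvd.2 (hd.trans h2))
  have hcardP : Nat.card ((P : Subgroup G) ⊓ Subgroup.centralizer ({x} : Set G) : Subgroup G) =
      if x = J then 4 * m else 2 * m := by
    split_ifs with hxJ
    · have h4 : (P : Subgroup G) ⊓ Subgroup.centralizer ({x} : Set G) = (P : Subgroup G) := by
        rw [hxJ]; exact inf_eq_left.2 h.vp.P_le
      rw [h4, h.card_P]
    · rw [h.inf_centralizer hx hx1 hxJ, h.card_C]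
  have hpow : ∃ k, Nat.card ((P : Subgroup G) ⊓ Subgroup.centralizer ({x} : Set G) : Subgroup G) =
      2 ^ k := by
    have : IsPGroup 2 ((P : Subgroup G) ⊓ Subgroup.centralizer ({x} : Set G) : Subgroup G) :=
      P.2.to_le inf_le_left
    exact IsPGroup.iff_card.1 this
  obtain ⟨k, hk⟩ := hpow
  rw [← hcardP, h1, hk, Nat.factorization_mul Nat.card_pos.ne' (by positivity), Finsupp.add_apply,
    Nat.factorization_eq_zero_of_not_dvd hodd, Nat.prime_two.factorization_pow]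
  simp

/-- **the orthogonality relations on `⟨σ⟩`** -/
theorem sum_block (h : DihBlk M P σ s J m V) [Fintype (IrrCharacter G)] [DecidableEq G]
    [DecidablePred (· ∈ principalBlock M G)] {x y : G} (hx : x ∈ Subgroup.zpowers σ)
    (hy : y ∈ Subgroup.zpowers σ) (hx1 : x ≠ 1) (hy1 : y ≠ 1) :
    ∑ χ : IrrCharacter G, (if χ ∈ principalBlock M G then
      (χ : G → ℂ) x * conj ((χ : G → ℂ) y) else 0) =
      (2 * m : ℕ) * ((if x = y then 1 else 0) + (if x = y⁻¹ then 1 else 0)) := by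
  haveI : Fact (Nat.Prime 2) := ⟨Nat.prime_two⟩
  haveI := Fintype.ofFinite G
  obtain ⟨kx, hkx⟩ := h.exists_orderOf (h.C_le hx)
  obtain ⟨ky, hky⟩ := h.exists_orderOf (h.C_le hy)
  by_cases hxy : x = y ∨ x = y⁻¹
  · have h1 : ∑ χ : IrrCharacter G, (if χ ∈ principalBlock M G then
      (χ : G → ℂ) x * conj ((χ : G → ℂ) y) else 0) = ∑ χ : IrrCharacter G,
        (if χ ∈ principalBlock M G then (χ : G → ℂ) x * conj ((χ : G → ℂ) x) else 0) := by
      refine Finset.sum_congr rfl fun χ _ => ?_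
      have h2 : (χ : G → ℂ) y = (χ : G → ℂ) x := by
        rcases hxy with h3 | h3
        · rw [h3]
        · have h4 : x = s * y * s⁻¹ := by rw [h.dih.conj_zpow hy, h3]
          rw [h4]
          exact (irr_isClassFunction χ _ _).symm
      rw [h2]
    rw [h1, sum_principal_norm (p := 2) h.hM hx1 ⟨kx, hkx⟩ (h.vp.npc_of (h.J_mem_zpowers hx hx1)),
      h.two_pow_factorization hx hx1]
    by_cases hxJ : x = J
    · have hyJ : y = J := by
        rcases hxy with h3 | h3
        · rw [← h3, hxJ]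
        · have : y = x⁻¹ := by rw [h3, inv_inv]
          rw [this, hxJ]; exact inv_eq_of_mul_eq_one_left h.vp.J_sq
      have hJi : J⁻¹ = J := inv_eq_of_mul_eq_one_left h.vp.J_sq
      rw [if_pos hxJ, hxJ, hyJ, hJi, if_pos rfl]
      push_cast; ring
    · rw [if_neg hxJ]
      have hxx : x ≠ x⁻¹ := by
        intro h5
        have h6 : x * x = 1 := by nth_rewrite 2 [h5]; exact mul_inv_cancel x
        rcases h.J_uniq x hx h6 with h7 | h7
        · exact hx1 h7
        · exact hxJ h7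
      rcases hxy with h3 | h3
      · rw [if_pos h3, ← h3, if_neg hxx]; ring
      · have h4 : x ≠ y := by
          intro h5
          rw [← h5] at h3
          exact hxx h3
        rw [if_neg h4, if_pos h3]; ring
  · push Not at hxy
    rw [if_neg hxy.1, if_neg hxy.2]
    rw [sum_principal_orth (p := 2) h.hM (isPPart_self' ⟨kx, hkx⟩) (isPPart_self' ⟨ky, hky⟩)]
    · ring
    · intro hc
      rcases h.conj_iff hx hy hx1 hc with h3 | h3
      · exact hxy.1 h3.symm
      · exact hxy.2 (by rw [h3, inv_inv])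

end DihBlk

end Cfsg.Agent.H74
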