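import Mathlib.Data.Int.Basic
import Mathlib.Algebra.BigOperators.Group.Finset.Basic
import Mathlib.Algebra.Order.BigOperators.Group.Finset
import Mathlib.Data.Fintype.Card
import Mathlib.Algebra.BigOperators.Ring.Finset
import Mathlib.Tactic

/-!
# The combinatorics of the principal block with a dihedral Sylow `2`-subgroup
-/

set_option autoImplicit false

namespace Cfsg.Agent.H74

open Finset

section
variable {ι : Type*} [Fintype ι] [DecidableEq ι]

/-- support off `o` -/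
def suppOff (o : ι) (f : ι → ℤ) : Finset ι := univ.filter fun χ => χ ≠ o ∧ f χ ≠ 0

theorem mem_suppOff {o : ι} {f : ι → ℤ} {χ : ι} : χ ∈ suppOff o f ↔ χ ≠ o ∧ f χ ≠ 0 := by
  simp [suppOff]

theorem sum_split_o (o : ι) (f : ι → ℤ) (F : ι → ℤ) (hF : ∀ χ, f χ = 0 → F χ = 0) :
    ∑ χ, F χ = F o + ∑ χ ∈ suppOff o f, F χ := by
  rw [← Finset.add_sum_erase _ _ (mem_univ o)]
  congr 1
  symm
  apply Finset.sum_subset
  · intro χ hχ
    rw [mem_suppOff] at hχ
    exact mem_erase.2 ⟨hχ.1, mem_univ _⟩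
  · intro χ hχ hχ'
    rw [mem_suppOff, not_and, not_not] at hχ'
    exact hF χ (hχ' (mem_erase.1 hχ).1)

/-- small vectors -/
theorem small_vec (o : ι) (f : ι → ℤ) (k : ℕ) (hk : k ≤ 3) (ho : f o = 1)
    (h : ∑ χ, f χ * f χ = 1 + k) :
    (∀ χ ∈ suppOff o f, f χ = 1 ∨ f χ = -1) ∧ (suppOff o f).card = k := by
  rw [sum_split_o o f (fun χ => f χ * f χ) (fun χ h => by rw [h, mul_zero]), ho] at h
  have h1 : ∑ χ ∈ suppOff o f, f χ * f χ = k := by linarith
  have h2 : ∀ χ ∈ suppOff o f, f χ = 1 ∨ f χ = -1 := by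
    intro χ hχ
    have h3 : f χ * f χ ≤ ∑ χ ∈ suppOff o f, f χ * f χ :=
      Finset.single_le_sum (f := fun χ => f χ * f χ) (fun i _ => mul_self_nonneg _) hχ
    rw [h1] at h3
    have h4 : f χ * f χ ≤ 3 := h3.trans (by exact_mod_cast hk)
    have h5 : f χ ≠ 0 := (mem_suppOff.1 hχ).2
    have h6 : f χ < 2 := by nlinarith
    have h7 : -2 < f χ := by nlinarith
    omega
  refine ⟨h2, ?_⟩
  have h3 : ∑ χ ∈ suppOff o f, f χ * f χ = ∑ χ ∈ suppOff o f, (1 : ℤ) := by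
    refine Finset.sum_congr rfl fun χ hχ => ?_
    rcases h2 χ hχ with h | h <;> rw [h] <;> norm_num
  rw [h3, Finset.sum_const, nsmul_eq_mul, mul_one] at h1
  exact_mod_cast h1

theorem inter_one (o : ι) (f g : ι → ℤ) (hof : f o = 1) (hog : g o = 1)
    (hf : ∀ χ ∈ suppOff o f, f χ = 1 ∨ f χ = -1) (hfc : (suppOff o f).card = 2)
    (hg : ∀ χ ∈ suppOff o g, g χ = 1 ∨ g χ = -1) (h : ∑ χ, f χ * g χ = 2) :
    ∃ c, c ≠ o ∧ f c = g c ∧ f c ≠ 0 ∧ ∀ χ, χ ≠ o → f χ ≠ 0 → g χ ≠ 0 → χ = c := by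
  rw [sum_split_o o f (fun χ => f χ * g χ) (fun χ h => by rw [h, zero_mul]), hof, hog] at h
  have h1 : ∑ χ ∈ suppOff o f, f χ * g χ = 1 := by linarith
  obtain ⟨a, b, hab, hS⟩ := Finset.card_eq_two.1 hfc
  rw [hS, Finset.sum_pair hab] at h1
  have ha : a ∈ suppOff o f := by rw [hS]; simp
  have hb : b ∈ suppOff o f := by rw [hS]; simp
  have hmem : ∀ χ, χ ≠ o → f χ ≠ 0 → χ = a ∨ χ = b := by
    intro χ h1 h2
    have : χ ∈ suppOff o f := mem_suppOff.2 ⟨h1, h2⟩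
    rw [hS] at this
    simpa using this
  have hga : g a = 0 ∨ g a = 1 ∨ g a = -1 := by
    by_cases h : g a = 0
    · left; exact h
    · right; exact hg a (mem_suppOff.2 ⟨(mem_suppOff.1 ha).1, h⟩)
  have hgb : g b = 0 ∨ g b = 1 ∨ g b = -1 := by
    by_cases h : g b = 0
    · left; exact h
    · right; exact hg b (mem_suppOff.2 ⟨(mem_suppOff.1 hb).1, h⟩)
  have hao := (mem_suppOff.1 ha).1
  have hbo := (mem_suppOff.1 hb).1
  have key : (g b = 0 ∧ f a = g a) ∨ (g a = 0 ∧ f b = g b) := by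
    rcases hf a ha with h2 | h2 <;> rcases hf b hb with h3 | h3 <;> rcases hga with h4 | h4 | h4 <;>
      rcases hgb with h5 | h5 | h5 <;> rw [h2, h3, h4, h5] at h1 ⊢ <;> omega
  rcases key with ⟨h2, h3⟩ | ⟨h2, h3⟩
  · refine ⟨a, hao, h3, (mem_suppOff.1 ha).2, fun χ hχ hf' hg' => ?_⟩
    rcases hmem χ hχ hf' with h | h
    · exact h
    · rw [h] at hg'; exact absurd h2 hg'
  · refine ⟨b, hbo, h3, (mem_suppOff.1 hb).2, fun χ hχ hf' hg' => ?_⟩
    rcases hmem χ hχ hf' with h | h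
    · rw [h] at hg'; exact absurd h2 hg'
    · exact h

theorem dih_comb (o : ι) (m : ℕ) (hm : 2 ≤ m) (hev : Even m)
    (D : ℕ → ι → ℤ) (d : ι → ℤ)
    (hG : ∀ i j, 1 ≤ i → i ≤ m → 1 ≤ j → j ≤ m → ∑ χ, D i χ * D j χ =
      2 + (if i = j then 1 else 0) + (if i = m ∧ j = m then 1 else 0))
    (ho : ∀ j, 1 ≤ j → j ≤ m → D j o = 1) (hd : ∀ χ, 0 < d χ) (hdo : d o = 1)
    (hreg : ∀ j, 1 ≤ j → j ≤ m → ∑ χ, D j χ * d χ = 0) :
    ∃ (c1 c2 c3 : ι) (e : ℕ → ι) (δ1 δ2 δ3 : ℤ), (δ1 = 1 ∨ δ1 = -1) ∧ (δ2 = 1 ∨ δ2 = -1) ∧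
      (δ3 = 1 ∨ δ3 = -1) ∧ c1 ≠ o ∧ c2 ≠ o ∧ c3 ≠ o ∧ c1 ≠ c2 ∧ c1 ≠ c3 ∧ c2 ≠ c3 ∧
      (∀ j, 1 ≤ j → j < m → e j ≠ o ∧ e j ≠ c1 ∧ e j ≠ c2 ∧ e j ≠ c3) ∧
      (∀ i j, 1 ≤ i → i < m → 1 ≤ j → j < m → e i = e j → i = j) ∧
      (D m c1 = δ1 ∧ D m c2 = δ2 ∧ D m c3 = δ3 ∧
        ∀ χ, χ ≠ o → χ ≠ c1 → χ ≠ c2 → χ ≠ c3 → D m χ = 0) ∧
      (∀ j, 1 ≤ j → j < m → D j c1 = δ1 ∧ D j (e j) = -δ1 ∧
        ∀ χ, χ ≠ o → χ ≠ c1 → χ ≠ e j → D j χ = 0) := by
  classical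
  have hm1 : 1 ≤ m := by omega
  -- supports
  have hsm : ∀ j, 1 ≤ j → j < m → (∀ χ ∈ suppOff o (D j), D j χ = 1 ∨ D j χ = -1) ∧
      (suppOff o (D j)).card = 2 := by
    intro j h1 h2
    apply small_vec o (D j) 2 (by norm_num) (ho j h1 h2.le)
    rw [hG j j h1 h2.le h1 h2.le, if_pos rfl, if_neg (by omega)]
    norm_num
  have hsM : (∀ χ ∈ suppOff o (D m), D m χ = 1 ∨ D m χ = -1) ∧ (suppOff o (D m)).card = 3 := by
    apply small_vec o (D m) 3 le_rfl (ho m hm1 le_rfl)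
    rw [hG m m hm1 le_rfl hm1 le_rfl, if_pos rfl, if_pos ⟨rfl, rfl⟩]
    norm_num
  -- intersections
  have hint : ∀ i j, 1 ≤ i → i < m → 1 ≤ j → j ≤ m → i ≠ j →
      ∃ c, c ≠ o ∧ D i c = D j c ∧ D i c ≠ 0 ∧ ∀ χ, χ ≠ o → D i χ ≠ 0 → D j χ ≠ 0 → χ = c := by
    intro i j h1 h2 h3 h4 hij
    apply inter_one o (D i) (D j) (ho i h1 h2.le) (ho j h3 h4) (hsm i h1 h2).1 (hsm i h1 h2).2
    · rcases lt_or_eq_of_le h4 with h | h
      · exact (hsm j h3 h).1
      · rw [h]; exact hsM.1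
    · rw [hG i j h1 h2.le h3 h4, if_neg hij, if_neg (by omega)]
      norm_num
  -- `s j` and `e j`
  have hsj : ∀ j, 1 ≤ j → j < m → ∃ s e : ι, s ≠ o ∧ e ≠ o ∧ s ≠ e ∧ D j s = D m s ∧ D j s ≠ 0 ∧
      D j e ≠ 0 ∧ D m e = 0 ∧ (∀ χ, χ ≠ o → χ ≠ s → χ ≠ e → D j χ = 0) := by
    intro j h1 h2
    obtain ⟨s, hs1, hs2, hs3, hs4⟩ := hint j m h1 h2 hm1 le_rfl (by omega)
    obtain ⟨a, b, hab, hS⟩ := Finset.card_eq_two.1 (hsm j h1 h2).2
    have ha : a ∈ suppOff o (D j) := by rw [hS]; simp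
    have hb : b ∈ suppOff o (D j) := by rw [hS]; simp
    have hs : s ∈ suppOff o (D j) := mem_suppOff.2 ⟨hs1, hs3⟩
    have hmem : ∀ χ, χ ≠ o → χ ≠ a → χ ≠ b → D j χ = 0 := by
      intro χ h1 h2 h3
      by_contra h4
      have : χ ∈ suppOff o (D j) := mem_suppOff.2 ⟨h1, h4⟩
      rw [hS] at this
      simp only [mem_insert, mem_singleton] at this
      tauto
    rw [hS] at hs
    simp only [mem_insert, mem_singleton] at hs
    rcases hs with rfl | rfl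
    · refine ⟨s, b, hs1, (mem_suppOff.1 hb).1, hab, hs2, hs3, (mem_suppOff.1 hb).2, ?_, hmem⟩
      by_contra h
      exact hab (hs4 b (mem_suppOff.1 hb).1 (mem_suppOff.1 hb).2 h).symm
    · refine ⟨s, a, hs1, (mem_suppOff.1 ha).1, hab.symm, hs2, hs3, (mem_suppOff.1 ha).2, ?_,
        fun χ h1 h2 h3 => hmem χ h1 h3 h2⟩
      by_contra h
      exact hab (hs4 a (mem_suppOff.1 ha).1 (mem_suppOff.1 ha).2 h)
  haveI : Nonempty ι := ⟨o⟩
  choose! s e hs using hsj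
  -- sums over the support
  have hdj : ∀ j, 1 ≤ j → j < m → 1 + D j (s j) * d (s j) + D j (e j) * d (e j) = 0 := by
    intro j h1 h2
    obtain ⟨hs1, hs2, hs3, -, hs5, hs6, -, hs8⟩ := hs j h1 h2
    have h3 := hreg j h1 h2.le
    rw [sum_split_o o (D j) (fun χ => D j χ * d χ) (fun χ h => by rw [h, zero_mul]),
      ho j h1 h2.le, hdo] at h3
    have h4 : suppOff o (D j) = {s j, e j} := by
      ext χ
      rw [mem_suppOff, mem_insert, mem_singleton]
      constructor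
      · rintro ⟨h5, h6⟩
        by_contra h7
        push Not at h7
        exact h6 (hs8 χ h5 h7.1 h7.2)
      · rintro (rfl | rfl)
        · exact ⟨hs1, hs5⟩
        · exact ⟨hs2, hs6⟩
    rw [h4, Finset.sum_pair hs3] at h3
    linarith
  -- the `s j` agree
  have hkey : ∀ i j, 1 ≤ i → i < m → 1 ≤ j → j < m → s i ≠ s j →
      e i = e j ∧ D i (e i) = D j (e j) ∧ D m (s i) * d (s i) = D m (s j) * d (s j) := by
    intro i j hi hi' hj hj' hne
    have hij : i ≠ j := by rintro rfl; exact hne rfl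
    obtain ⟨c, hc1, hc2, hc3, hc4⟩ := hint i j hi hi' hj hj'.le hij
    obtain ⟨hi1, hi2, hi3, hi4, hi5, hi6, hi7, hi8⟩ := hs i hi hi'
    obtain ⟨hj1, hj2, hj3, hj4, hj5, hj6, hj7, hj8⟩ := hs j hj hj'
    have hci : c = s i ∨ c = e i := by
      by_contra h
      push Not at h
      exact hc3 (hi8 c hc1 h.1 h.2)
    have hcj : c = s j ∨ c = e j := by
      by_contra h
      push Not at h
      rw [hc2] at hc3
      exact hc3 (hj8 c hc1 h.1 h.2)
    have hce : c = e i ∧ c = e j := by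
      rcases hci with h | h <;> rcases hcj with h' | h'
      · exact absurd (h.symm.trans h') hne
      · exfalso
        have : D m (s i) ≠ 0 := by rw [← hi4]; exact hi5
        rw [← h, h'] at this
        exact this hj7
      · exfalso
        have : D m (s j) ≠ 0 := by rw [← hj4]; exact hj5
        rw [← h', h] at this
        exact this hi7
      · exact ⟨h, h'⟩
    have h1 := hdj i hi hi'
    have h2 := hdj j hj hj'
    have h3 : D i (e i) = D j (e j) := by rw [← hce.1, ← hce.2]; exact hc2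
    have h4 : e i = e j := hce.1.symm.trans hce.2
    refine ⟨h4, h3, ?_⟩
    rw [← hi4, ← hj4]
    rw [h3, h4] at h1
    linarith
  have hse : ∀ i j, 1 ≤ i → i < m → 1 ≤ j → j < m → i ≠ j → s i = s j → e i ≠ e j := by
    intro i j hi hi' hj hj' hij h1 h2
    obtain ⟨c, hc1, hc2, hc3, hc4⟩ := hint i j hi hi' hj hj'.le hij
    obtain ⟨hi1, hi2, hi3, hi4, hi5, hi6, hi7, hi8⟩ := hs i hi hi'
    obtain ⟨hj1, hj2, hj3, hj4, hj5, hj6, hj7, hj8⟩ := hs j hj hj'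
    have e1 : s i = c := hc4 (s i) hi1 hi5 (by rw [h1]; exact hj5)
    have e2 : e i = c := hc4 (e i) hi2 hi6 (by rw [h2]; exact hj6)
    exact hi3 (e1.trans e2.symm)
  have hconst : ∀ i j, 1 ≤ i → i < m → 1 ≤ j → j < m → s i = s j := by
    intro i j hi hi' hj hj'
    by_contra hne
    have hij : i ≠ j := by rintro rfl; exact hne rfl
    -- a third index
    obtain ⟨k, hk1, hk2, hki, hkj⟩ : ∃ k, 1 ≤ k ∧ k < m ∧ k ≠ i ∧ k ≠ j := by
      have hm4 : 4 ≤ m := by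
        obtain ⟨t, ht⟩ := hev
        omega
      by_cases h1 : i ≠ 1 ∧ j ≠ 1
      · exact ⟨1, le_rfl, by omega, by omega, by omega⟩
      · by_cases h2 : i ≠ 2 ∧ j ≠ 2
        · exact ⟨2, by omega, by omega, by omega, by omega⟩
        · exact ⟨3, by omega, by omega, by omega, by omega⟩
    obtain ⟨a1, a2, a3⟩ := hkey i j hi hi' hj hj' hne
    have hsk : s k ≠ s i := by
      intro h
      have h2 : s k ≠ s j := by rw [h]; exact hne
      have b1 := (hkey k j hk1 hk2 hj hj' h2).1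
      exact hse k i hk1 hk2 hi hi' hki h (b1.trans a1.symm)
    have hsk' : s k ≠ s j := by
      intro h
      have h2 : s k ≠ s i := hsk
      have b1 := (hkey k i hk1 hk2 hi hi' h2).1
      exact hse k j hk1 hk2 hj hj' hkj h (b1.trans a1)
    have a4 := (hkey k i hk1 hk2 hi hi' hsk).2.2
    -- the support of `D m`
    have hmem : ∀ l, 1 ≤ l → l < m → s l ∈ suppOff o (D m) := by
      intro l h1 h2
      obtain ⟨hl1, -, -, hl4, hl5, -⟩ := hs l h1 h2
      rw [mem_suppOff, ← hl4]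
      exact ⟨hl1, hl5⟩
    have hS : suppOff o (D m) = {s i, s j, s k} := by
      symm
      apply Finset.eq_of_subset_of_card_le
      · intro χ hχ
        simp only [mem_insert, mem_singleton] at hχ
        rcases hχ with rfl | rfl | rfl
        · exact hmem i hi hi'
        · exact hmem j hj hj'
        · exact hmem k hk1 hk2
      · rw [hsM.2, Finset.card_insert_of_notMem, Finset.card_insert_of_notMem,
          Finset.card_singleton]
        · simp only [mem_singleton]; exact fun h => hsk' h.symm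
        · simp only [mem_insert, mem_singleton, not_or]
          exact ⟨hne, fun h => hsk h.symm⟩
    have h3 := hreg m hm1 le_rfl
    rw [sum_split_o o (D m) (fun χ => D m χ * d χ) (fun χ h => by rw [h, zero_mul]),
      ho m hm1 le_rfl, hdo, hS, Finset.sum_insert, Finset.sum_insert, Finset.sum_singleton,
      a4, ← a3] at h3
    · omega
    · simp only [mem_singleton]; exact fun h => hsk' h.symm
    · simp only [mem_insert, mem_singleton, not_or]
      exact ⟨hne, fun h => hsk h.symm⟩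
  -- conclusion
  have h11 : 1 < m := by omega
  obtain ⟨h1o, -, -, h1m, h1n, -⟩ := hs 1 le_rfl h11
  have hc1 : s 1 ∈ suppOff o (D m) := by
    rw [mem_suppOff, ← h1m]; exact ⟨h1o, h1n⟩
  have hcard : ((suppOff o (D m)).erase (s 1)).card = 2 := by
    rw [Finset.card_erase_of_mem hc1, hsM.2]
  obtain ⟨c2, c3, h23, hS⟩ := Finset.card_eq_two.1 hcard
  have hc2 : c2 ∈ (suppOff o (D m)).erase (s 1) := by rw [hS]; simp
  have hc3 : c3 ∈ (suppOff o (D m)).erase (s 1) := by rw [hS]; simp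
  rw [mem_erase] at hc2 hc3
  have hout : ∀ χ, χ ≠ o → χ ≠ s 1 → χ ≠ c2 → χ ≠ c3 → D m χ = 0 := by
    intro χ h1 h2 h3 h4
    by_contra h5
    have : χ ∈ (suppOff o (D m)).erase (s 1) := mem_erase.2 ⟨h2, mem_suppOff.2 ⟨h1, h5⟩⟩
    rw [hS] at this
    simp only [mem_insert, mem_singleton] at this
    tauto
  refine ⟨s 1, c2, c3, e, D m (s 1), D m c2, D m c3, hsM.1 _ hc1, hsM.1 _ hc2.2, hsM.1 _ hc3.2,
    h1o, (mem_suppOff.1 hc2.2).1, (mem_suppOff.1 hc3.2).1, Ne.symm hc2.1, Ne.symm hc3.1, h23,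
    ?_, ?_, ⟨rfl, rfl, rfl, hout⟩, ?_⟩
  · intro j hj hj'
    obtain ⟨hj1, hj2, hj3, hj4, hj5, hj6, hj7, hj8⟩ := hs j hj hj'
    refine ⟨hj2, ?_, ?_, ?_⟩
    · intro h
      apply (mem_suppOff.1 hc1).2
      rw [← h]; exact hj7
    · intro h
      apply (mem_suppOff.1 hc2.2).2
      rw [← h]; exact hj7
    · intro h
      apply (mem_suppOff.1 hc3.2).2
      rw [← h]; exact hj7
  · intro i j hi hi' hj hj' h
    by_contra hij
    exact hse i j hi hi' hj hj' hij (hconst i j hi hi' hj hj') h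
  · intro j hj hj'
    obtain ⟨hj1, hj2, hj3, hj4, hj5, hj6, hj7, hj8⟩ := hs j hj hj'
    have hs1 : s 1 = s j := hconst 1 j le_rfl h11 hj hj'
    rw [hs1]
    refine ⟨hj4, ?_, hj8⟩
    have h1 := hdj j hj hj'
    have h2 := hd (s j)
    have h3 := hd (e j)
    have h4 := (hsm j hj hj').1 (s j) (mem_suppOff.2 ⟨hj1, hj5⟩)
    have h5 := (hsm j hj hj').1 (e j) (mem_suppOff.2 ⟨hj2, hj6⟩)
    rw [← hj4]
    rcases h4 with h4 | h4 <;> rcases h5 with h5 | h5 <;> rw [h4, h5] at h1 ⊢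
    · exfalso; linarith
    · norm_num
    · exfalso; linarith

end

end Cfsg.Agent.H74
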