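import Cfsg.Agent.H74.DihStruct

/-!
# Order formula for groups with dihedral Sylow `2`-subgroups and one class of involutions
-/

set_option autoImplicit false
set_option linter.unusedSectionVars false
set_option linter.style.haveILetI false

universe u v

namespace Cfsg.Agent.H74

open scoped ComplexConjugate BigOperators
open Cfsg Cfsg.Agent.CharBase Cfsg.Agent.Blk Cfsg.Agent.H4 Cfsg.Agent.BlkC

theorem sum_parity {R : Type*} [CommRing R] (F : ℕ → R) (a b : R) (h0 : ∀ i, F (2 * i) = a)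
    (h1 : ∀ i, F (2 * i + 1) = b) (m : ℕ) :
    ∑ k ∈ Finset.range (2 * m), F k = m * (a + b) := by
  induction m with
  | zero => simp
  | succ m ih =>
    rw [show 2 * (m + 1) = 2 * m + 1 + 1 by ring, Finset.sum_range_succ, Finset.sum_range_succ, ih,
      h0, h1]
    push_cast; ring

section grp
variable {G : Type u} [Group G] [Finite G] {M : Ideal AlgInt} {P : Sylow 2 G} {σ s J : G} {m : ℕ}
  {V : Subgroup G}

namespace DihBlk

theorem J_eq (h : DihBlk M P σ s J m V) : J = σ ^ m := by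
  have hm2 := h.two_le
  have h1 : σ ^ m * σ ^ m = 1 := by
    rw [← pow_add, ← two_mul, ← h.dih.orderOf_r, pow_orderOf_eq_one]
  rcases h.J_uniq _ (Subgroup.pow_mem _ (Subgroup.mem_zpowers σ) _) h1 with h2 | h2
  · exfalso
    have h3 := orderOf_dvd_of_pow_eq_one h2
    rw [h.dih.orderOf_r] at h3
    exact absurd (Nat.le_of_dvd (by omega) h3) (by omega)
  · exact h2.symm

theorem inv_mul_s (h : DihBlk M P σ s J m V) {c : G} (hc : c ∈ Subgroup.zpowers σ) :
    c⁻¹ * s = s * c := by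
  have h1 := h.dih.conj_zpow hc
  have h2 : s * c = c⁻¹ * s := by rw [← h1]; group
  exact h2.symm

theorem s_mul_ninv (h : DihBlk M P σ s J m V) {c u : G} (hc : c ∈ Subgroup.zpowers σ)
    (hu : u ∈ Subgroup.zpowers σ) : ninv V (s * (c * (u * u))) = ninv V (s * c) := by
  have h1 : s * (c * (u * u)) = u⁻¹ * (s * c) * u⁻¹⁻¹ := by
    rw [inv_inv, ← mul_assoc u⁻¹ s c, h.inv_mul_s hu, mul_assoc s u c, h.dih.comm_C hu hc]
    simp only [mul_assoc]
  rw [h1]
  exact h.vp.ninv_conj (inv_mem (h.vp.P_le (h.C_le hu))) _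

theorem g_even (h : DihBlk M P σ s J m V) (i : ℕ) : ninv V (s * σ ^ (2 * i)) = ninv V s := by
  have h1 := h.s_mul_ninv (c := 1) (u := σ ^ i) (one_mem _)
    (Subgroup.pow_mem _ (Subgroup.mem_zpowers σ) _)
  rw [one_mul, mul_one, ← pow_add, ← two_mul] at h1
  exact h1

theorem g_odd (h : DihBlk M P σ s J m V) (i : ℕ) :
    ninv V (s * σ ^ (2 * i + 1)) = ninv V (s * σ) := by
  have h1 := h.s_mul_ninv (c := σ) (u := σ ^ i) (Subgroup.mem_zpowers σ)
    (Subgroup.pow_mem _ (Subgroup.mem_zpowers σ) _)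
  rw [← pow_add, ← two_mul, ← pow_succ'] at h1
  exact h1

theorem sum_P (h : DihBlk M P σ s J m V) [Fintype (P : Subgroup G)] (F : G → ℂ) :
    ∑ x : (P : Subgroup G), F x = ∑ k ∈ Finset.range (2 * m), F (σ ^ k) +
      ∑ k ∈ Finset.range (2 * m), F (s * σ ^ k) := by
  classical
  have hN : 0 < 2 * m := by have := h.two_le; omega
  have hinj : Set.InjOn (fun k : ℕ => σ ^ k) (Finset.range (2 * m) : Set ℕ) := by
    intro i hi j hj hij
    rw [Finset.mem_coe, Finset.mem_range] at hi hj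
    have h1 := pow_inj_mod.1 hij
    rw [h.dih.orderOf_r, Nat.mod_eq_of_lt hi, Nat.mod_eq_of_lt hj] at h1
    exact h1
  have hmem : ∀ x : G, x ∈ Subgroup.zpowers σ ↔ ∃ k ∈ Finset.range (2 * m), σ ^ k = x := by
    intro x
    constructor
    · intro hx
      rw [← mem_powers_iff_mem_zpowers] at hx
      obtain ⟨k, rfl⟩ := hx
      refine ⟨k % (2 * m), Finset.mem_range.2 (Nat.mod_lt _ hN), ?_⟩
      show σ ^ (k % (2 * m)) = σ ^ k
      rw [← h.dih.orderOf_r, pow_mod_orderOf]
    · rintro ⟨k, -, rfl⟩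
      exact Subgroup.pow_mem _ (Subgroup.mem_zpowers σ) _
  rw [← Finset.sum_image (f := F) (s := Finset.range (2 * m)) (g := fun k => σ ^ k)
      (fun i hi j hj hij => hinj hi hj hij),
    ← Finset.sum_image (f := F) (s := Finset.range (2 * m)) (g := fun k => s * σ ^ k)
      (fun i hi j hj hij => hinj hi hj (mul_left_cancel hij)),
    ← Finset.sum_union]
  · have h1 : ∑ x : (P : Subgroup G), F x =
        ∑ x ∈ (Finset.univ : Finset (P : Subgroup G)).map ⟨Subtype.val, Subtype.val_injective⟩, F x := by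
      rw [Finset.sum_map]; rfl
    rw [h1]
    refine Finset.sum_congr ?_ fun _ _ => rfl
    ext x
    simp only [Finset.mem_map, Finset.mem_univ, true_and, Function.Embedding.coeFn_mk,
      Finset.mem_union, Finset.mem_image]
    constructor
    · rintro ⟨y, rfl⟩
      by_cases hy : (y : G) ∈ Subgroup.zpowers σ
      · left; exact (hmem _).1 hy
      · right
        obtain ⟨c, hc, hyc⟩ := h.dih.exists_eq y.2 hy
        obtain ⟨k, hk, hkc⟩ := (hmem c).1 hc
        exact ⟨k, hk, by rw [hkc, ← hyc]⟩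
    · rintro (⟨k, hk, rfl⟩ | ⟨k, hk, rfl⟩)
      · exact ⟨⟨σ ^ k, h.C_le (Subgroup.pow_mem _ (Subgroup.mem_zpowers σ) _)⟩, rfl⟩
      · exact ⟨⟨s * σ ^ k, (P : Subgroup G).mul_mem h.dih.s_mem
          (h.C_le (Subgroup.pow_mem _ (Subgroup.mem_zpowers σ) _))⟩, rfl⟩
  · rw [Finset.disjoint_left]
    intro x hx hx'
    rw [Finset.mem_image] at hx hx'
    obtain ⟨i, -, rfl⟩ := hx
    obtain ⟨j, -, hj⟩ := hx'
    apply h.dih.mul_notMem (Subgroup.pow_mem _ (Subgroup.mem_zpowers σ) j)
    rw [hj]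
    exact Subgroup.pow_mem _ (Subgroup.mem_zpowers σ) _

/-- the pair sums -/
theorem sum_ninv (h : DihBlk M P σ s J m V) [Fintype (P : Subgroup G)] {z : G}
    (hz : z ∈ Subgroup.zpowers σ) (hzJ : z = J ∨ z * z ≠ 1) :
    ((∑ x : (P : Subgroup G), ninv V (x : G) * ninv V ((x : G)⁻¹ * z) : ℕ) : ℂ) =
      ∑ k ∈ Finset.range (2 * m), (ninv V (s * σ ^ k) : ℂ) * (ninv V (s * (σ ^ k * z)) : ℂ) := by
  push_cast
  rw [h.sum_P (fun x => (ninv V x : ℂ) * (ninv V (x⁻¹ * z) : ℂ))]
  have h0 : ∑ k ∈ Finset.range (2 * m), (ninv V (σ ^ k) : ℂ) * (ninv V ((σ ^ k)⁻¹ * z) : ℂ) = 0 := by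
    refine Finset.sum_eq_zero fun k _ => ?_
    have hk : σ ^ k ∈ Subgroup.zpowers σ := Subgroup.pow_mem _ (Subgroup.mem_zpowers σ) _
    generalize σ ^ k = c at hk
    by_cases h1 : c * c = 1
    · rcases h.J_uniq c hk h1 with h2 | h2
      · rw [h2, h.vp.ninv_one]; simp
      · rw [h2]
        have hJi : J⁻¹ = J := inv_eq_of_mul_eq_one_left h.vp.J_sq
        rcases hzJ with h3 | h3
        · rw [h3, inv_mul_cancel, h.vp.ninv_one]; simp
        · have h4 : ninv V (J⁻¹ * z) = 0 := by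
            apply h.vp.ninv_eq_zero_of_sq
            · exact (P : Subgroup G).mul_mem ((P : Subgroup G).inv_mem h.vp.J_mem) (h.C_le hz)
            · intro h5
              apply h3
              have h6 : J⁻¹ * z * (J⁻¹ * z) = (J * J)⁻¹ * (z * z) := by
                have h7 : z * J⁻¹ = J⁻¹ * z :=
                  h.dih.comm_C hz (Subgroup.inv_mem _ h.J_mem)
                calc J⁻¹ * z * (J⁻¹ * z) = J⁻¹ * (z * J⁻¹) * z := by group
                  _ = J⁻¹ * (J⁻¹ * z) * z := by rw [h7]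
                  _ = _ := by group
              rw [h6, h.vp.J_sq, inv_one, one_mul] at h5
              exact h5
          rw [h4]; simp
    · rw [h.vp.ninv_eq_zero_of_sq (h.C_le hk) h1]; simp
  rw [h0, zero_add]
  refine Finset.sum_congr rfl fun k _ => ?_
  have hk : σ ^ k ∈ Subgroup.zpowers σ := Subgroup.pow_mem _ (Subgroup.mem_zpowers σ) _
  congr 3
  rw [mul_inv_rev, h.dih.s_inv, h.inv_mul_s hk, mul_assoc]

theorem sum_ninv_J (h : DihBlk M P σ s J m V) [Fintype (P : Subgroup G)] :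
    ((∑ x : (P : Subgroup G), ninv V (x : G) * ninv V ((x : G)⁻¹ * J) : ℕ) : ℂ) =
      m * ((ninv V s : ℂ) ^ 2 + (ninv V (s * σ) : ℂ) ^ 2) := by
  rw [h.sum_ninv h.J_mem (Or.inl rfl)]
  obtain ⟨t, ht⟩ := h.even
  have hJ2 : ∀ k, ninv V (s * (σ ^ k * J)) = ninv V (s * σ ^ k) := by
    intro k
    have h1 : J = σ ^ t * σ ^ t := by rw [h.J_eq, ht, pow_add]
    rw [h1]
    exact h.s_mul_ninv (Subgroup.pow_mem _ (Subgroup.mem_zpowers σ) _)
      (Subgroup.pow_mem _ (Subgroup.mem_zpowers σ) _)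
  simp only [hJ2]
  rw [sum_parity _ ((ninv V s : ℂ) * ninv V s) ((ninv V (s * σ) : ℂ) * ninv V (s * σ))]
  · ring
  · intro i; rw [h.g_even]
  · intro i; rw [h.g_odd]

theorem sum_ninv_σ (h : DihBlk M P σ s J m V) [Fintype (P : Subgroup G)] :
    ((∑ x : (P : Subgroup G), ninv V (x : G) * ninv V ((x : G)⁻¹ * σ) : ℕ) : ℂ) =
      m * (2 * (ninv V s : ℂ) * (ninv V (s * σ) : ℂ)) := by
  have hm2 := h.two_le
  rw [h.sum_ninv (Subgroup.mem_zpowers σ) (Or.inr ?_)]
  · have hs : ∀ k, s * (σ ^ k * σ) = s * σ ^ (k + 1) := fun k => by rw [pow_succ]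
    simp only [hs]
    rw [sum_parity _ ((ninv V s : ℂ) * ninv V (s * σ)) ((ninv V (s * σ) : ℂ) * ninv V s)]
    · ring
    · intro i; rw [h.g_even, h.g_odd]
    · intro i
      rw [h.g_odd, show 2 * i + 1 + 1 = 2 * (i + 1) by ring, h.g_even]
  · intro h1
    rw [← pow_two] at h1
    have h2 := orderOf_dvd_of_pow_eq_one h1
    rw [h.dih.orderOf_r] at h2
    exact absurd (Nat.le_of_dvd (by norm_num) h2) (by omega)

/-- centralizers of reflections -/
theorem card_refl (h : DihBlk M P σ s J m V) {t : G} (ht : t ∈ (P : Subgroup G))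
    (htC : t ∉ Subgroup.zpowers σ) :
    Nat.card ((P : Subgroup G) ⊓ Subgroup.centralizer ({t} : Set G) : Subgroup G) = 4 := by
  classical
  have hJt : J * t = t * J := (h.vp.commute_J ht).symm
  have hJ1 := h.vp.J_ne
  have ht1 : t ≠ 1 := h.dih.ne_one htC
  have htJ : t ≠ J := fun h1 => htC (h1 ▸ h.J_mem)
  have hJt1 : J * t ≠ 1 := fun h1 => htJ (by
    have : t = J⁻¹ := eq_inv_of_mul_eq_one_right h1
    rw [this]; exact inv_eq_of_mul_eq_one_left h.vp.J_sq)
  have hset : ∀ x, x ∈ ((P : Subgroup G) ⊓ Subgroup.centralizer ({t} : Set G) : Subgroup G) ↔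
      x ∈ ({1, J, t, J * t} : Finset G) := by
    intro x
    rw [Subgroup.mem_inf, Subgroup.mem_centralizer_singleton_iff]
    simp only [Finset.mem_insert, Finset.mem_singleton]
    constructor
    · rintro ⟨hx, hxt⟩
      have key : ∀ c ∈ Subgroup.zpowers σ, c * t = t * c → c = 1 ∨ c = J := by
        intro c hc hct
        apply h.J_uniq c hc
        have h1 := h.dih.conj_C ht htC hc
        have h2 : t * c * t⁻¹ = c := by rw [← hct]; group
        rw [h2] at h1
        nth_rewrite 2 [h1]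
        exact mul_inv_cancel c
      by_cases hxC : x ∈ Subgroup.zpowers σ
      · rcases key x hxC hxt with h1 | h1
        · left; exact h1
        · right; left; exact h1
      · have h1 := h.dih.mul_mem_C hx hxC ht htC
        have h2 : x * t * t = t * (x * t) := by rw [hxt]; simp only [mul_assoc]; rw [hxt]
        have htt : t * t = 1 := h.dih.sq_eq_one ht htC
        rcases key _ h1 h2 with h3 | h3
        · right; right; left
          have : x = t⁻¹ := eq_inv_of_mul_eq_one_left h3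
          rw [this]; exact inv_eq_of_mul_eq_one_left htt
        · right; right; right
          rw [← h3, mul_assoc, htt, mul_one]
    · rintro (rfl | rfl | rfl | rfl)
      · exact ⟨one_mem _, by simp⟩
      · exact ⟨h.vp.J_mem, hJt⟩
      · exact ⟨ht, rfl⟩
      · exact ⟨(P : Subgroup G).mul_mem h.vp.J_mem ht, by rw [mul_assoc, ← mul_assoc t J t, ← hJt, mul_assoc]⟩
  have h1 : Nat.card ((P : Subgroup G) ⊓ Subgroup.centralizer ({t} : Set G) : Subgroup G) =
      ({1, J, t, J * t} : Finset G).card := by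
    rw [← Fintype.card_coe, ← Nat.card_eq_fintype_card]
    exact Nat.card_congr (Equiv.subtypeEquivRight hset)
  rw [h1, Finset.card_insert_of_notMem, Finset.card_insert_of_notMem, Finset.card_insert_of_notMem,
    Finset.card_singleton]
  · simp only [Finset.mem_singleton]; intro h2; exact hJ1 (by simpa using h2.symm)
  · simp only [Finset.mem_insert, Finset.mem_singleton, not_or]
    exact ⟨fun h2 => htJ h2.symm, fun h2 => ht1 (by simpa using h2.symm)⟩
  · simp only [Finset.mem_insert, Finset.mem_singleton, not_or]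
    exact ⟨Ne.symm hJ1, Ne.symm ht1, Ne.symm hJt1⟩

theorem ninv_refl (h : DihBlk M P σ s J m V) {t : G} (ht : t ∈ (P : Subgroup G))
    (htC : t ∉ Subgroup.zpowers σ) :
    ninv V t * Nat.card (Subgroup.centralizer ({J, t} : Set G)) = 4 * Nat.card V := by
  rw [centralizer_pair, h.vp.card_centralizer ht, h.card_refl ht htC, ← mul_assoc,
    h.vp.ninv_mul ht (h.dih.sq_eq_one ht htC) (h.dih.ne_one htC)]
  ring

theorem card_cJ (h : DihBlk M P σ s J m V) :
    Nat.card (Subgroup.centralizer ({J} : Set G)) = 4 * m * Nat.card V := by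
  rw [h.vp.card_J, h.card_P]; ring

end DihBlk

end grp

end Cfsg.Agent.H74
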