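import Cfsg.Agent.H74.DihBlock
import Cfsg.Agent.Char.Linear

/-!
# The principal `2`-block of a group with dihedral Sylow `2`-subgroups: the vectors `D j`
-/

set_option autoImplicit false
set_option linter.unusedSectionVars false
set_option linter.style.haveILetI false

universe u v

namespace Cfsg.Agent.H74

open scoped ComplexConjugate BigOperators
open Cfsg Cfsg.Agent.CharBase Cfsg.Agent.Blk Cfsg.Agent.H4 Cfsg.Agent.BlkC

section hom
variable {G : Type u} [Group G] [Finite G]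

theorem exists_hom (σ : G) (w : ℂ) (hw : w ^ orderOf σ = 1) :
    ∃ F : Subgroup.zpowers σ →* ℂ, ∀ (x : Subgroup.zpowers σ) (k : ℕ), σ ^ k = x → F x = w ^ k := by
  have hex : ∀ x : Subgroup.zpowers σ, ∃ k : ℕ, σ ^ k = x := by
    intro x
    have h := x.2
    rw [← mem_powers_iff_mem_zpowers] at h
    exact h
  choose K hK using hex
  have key : ∀ a b : ℕ, σ ^ a = σ ^ b → w ^ a = w ^ b := by
    intro a b h
    rw [pow_eq_pow_iff_modEq] at h
    have h1 : ∀ a : ℕ, w ^ a = w ^ (a % orderOf σ) := by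
      intro a
      conv_lhs => rw [← Nat.div_add_mod a (orderOf σ), pow_add, pow_mul, hw, one_pow, one_mul]
    rw [h1 a, h1 b, h]
  refine ⟨{ toFun := fun x => w ^ K x, map_one' := ?_, map_mul' := ?_ }, ?_⟩
  · rw [← pow_zero w]
    apply key
    rw [hK, pow_zero]; rfl
  · intro x y
    rw [← pow_add]
    apply key
    rw [hK, pow_add, hK, hK]; rfl
  · intro x k h
    exact key _ _ (by rw [hK, h])

variable {σ : G} {N : ℕ} {ζ : ℂ}

/-- a faithful linear character of `⟨σ⟩` -/
structure LinData (σ : G) (N : ℕ) (ζ : ℂ) (F : Subgroup.zpowers σ →* ℂ) : Prop where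
  ord : orderOf σ = N
  prim : IsPrimitiveRoot ζ N
  apply : ∀ (x : Subgroup.zpowers σ) (k : ℕ), σ ^ k = x → F x = ζ ^ k

theorem exists_linData (hN : orderOf σ = N) (hζ : IsPrimitiveRoot ζ N) :
    ∃ F : Subgroup.zpowers σ →* ℂ, LinData σ N ζ F := by
  obtain ⟨F, hF⟩ := exists_hom σ ζ (by rw [hN]; exact hζ.pow_eq_one)
  exact ⟨F, hN, hζ, hF⟩

namespace LinData
variable {F : Subgroup.zpowers σ →* ℂ}

theorem N_pos (L : LinData σ N ζ F) : 0 < N := by rw [← L.ord]; exact orderOf_pos σ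

theorem pow_N (L : LinData σ N ζ F) (x : Subgroup.zpowers σ) : F x ^ N = 1 := by
  have h := x.2
  rw [← mem_powers_iff_mem_zpowers] at h
  obtain ⟨k, hk⟩ := h
  rw [L.apply x k hk, ← pow_mul, mul_comm, pow_mul, L.prim.pow_eq_one, one_pow]

theorem ne_zero (L : LinData σ N ζ F) (x : Subgroup.zpowers σ) : F x ≠ 0 := by
  intro h
  have := L.pow_N x
  rw [h, zero_pow L.N_pos.ne'] at this
  exact zero_ne_one this

theorem conj_eq (L : LinData σ N ζ F) (x : Subgroup.zpowers σ) : conj (F x) = F x ^ (N - 1) := by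
  have h1 : ‖F x‖ = 1 := Complex.norm_eq_one_of_pow_eq_one (L.pow_N x) L.N_pos.ne'
  have h2 : F x * conj (F x) = 1 := by
    rw [Complex.mul_conj, Complex.normSq_eq_norm_sq, h1]; norm_num
  have h3 : F x * F x ^ (N - 1) = 1 := by
    rw [← pow_succ', Nat.sub_add_cancel L.N_pos, L.pow_N]
  exact mul_left_cancel₀ (L.ne_zero x) (h2.trans h3.symm)

theorem map_inv (L : LinData σ N ζ F) (x : Subgroup.zpowers σ) : F x⁻¹ = conj (F x) := by
  have h2 : F x * F x⁻¹ = 1 := by rw [← map_mul, mul_inv_cancel, map_one]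
  have h3 : F x * conj (F x) = 1 := by
    rw [L.conj_eq, ← pow_succ', Nat.sub_add_cancel L.N_pos, L.pow_N]
  exact mul_left_cancel₀ (L.ne_zero x) (h2.trans h3.symm)

/-- geometric sums -/
theorem sum_pow (L : LinData σ N ζ F) [Fintype (Subgroup.zpowers σ)] (k : ℕ) :
    ∑ x : Subgroup.zpowers σ, F x ^ k = if N ∣ k then (N : ℂ) else 0 := by
  split_ifs with h
  · obtain ⟨j, rfl⟩ := h
    rw [Finset.sum_congr rfl (g := fun _ => (1 : ℂ)) (fun x _ => by
      rw [pow_mul, L.pow_N, one_pow])]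
    rw [Finset.sum_const, Finset.card_univ, ← Nat.card_eq_fintype_card, Nat.card_zpowers, L.ord]
    simp
  · have h1 : F ⟨σ, Subgroup.mem_zpowers σ⟩ ^ k ≠ 1 := by
      rw [L.apply ⟨σ, Subgroup.mem_zpowers σ⟩ 1 (pow_one σ), pow_one]
      intro h2
      exact h ((L.prim.pow_eq_one_iff_dvd k).1 h2)
    have h2 : F ⟨σ, Subgroup.mem_zpowers σ⟩ ^ k * ∑ x : Subgroup.zpowers σ, F x ^ k =
        ∑ x : Subgroup.zpowers σ, F x ^ k := by
      rw [Finset.mul_sum]
      refine Fintype.sum_equiv (Equiv.mulLeft ⟨σ, Subgroup.mem_zpowers σ⟩) _ _ fun x => ?_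
      rw [Equiv.coe_mulLeft, map_mul, mul_pow]
    have h3 : (F ⟨σ, Subgroup.mem_zpowers σ⟩ ^ k - 1) * ∑ x : Subgroup.zpowers σ, F x ^ k = 0 := by
      rw [sub_mul, h2, one_mul, sub_self]
    exact (mul_eq_zero.1 h3).resolve_left (sub_ne_zero.2 h1)

/-- the irreducible characters of `⟨σ⟩` -/
noncomputable def irr (_L : LinData σ N ζ F) (j : ℕ) : IrrCharacter (Subgroup.zpowers σ) :=
  ⟨((F ^ j : Subgroup.zpowers σ →* ℂ) : Subgroup.zpowers σ → ℂ), Char.isIrrCharacter_of_hom _⟩

theorem irr_apply (L : LinData σ N ζ F) (j : ℕ) (x : Subgroup.zpowers σ) :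
    (L.irr j : Subgroup.zpowers σ → ℂ) x = F x ^ j := rfl

theorem irr_inj (L : LinData σ N ζ F) {i j : ℕ} (hi : i < N) (hj : j < N) (h : L.irr i = L.irr j) :
    i = j := by
  have h1 := congrArg (fun χ : IrrCharacter (Subgroup.zpowers σ) =>
    (χ : Subgroup.zpowers σ → ℂ) ⟨σ, Subgroup.mem_zpowers σ⟩) h
  simp only [irr_apply] at h1
  rw [L.apply ⟨σ, Subgroup.mem_zpowers σ⟩ 1 (pow_one σ), pow_one] at h1
  exact L.prim.pow_inj hi hj h1

theorem sum_irr (L : LinData σ N ζ F) [Fintype (Subgroup.zpowers σ)]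
    [Fintype (IrrCharacter (Subgroup.zpowers σ))]
    (f : IrrCharacter (Subgroup.zpowers σ) → ℂ) :
    ∑ ξ, f ξ = ∑ j ∈ Finset.range N, f (L.irr j) := by
  classical
  have hinj : Set.InjOn L.irr (Finset.range N : Set ℕ) := by
    intro i hi j hj h
    rw [Finset.mem_coe, Finset.mem_range] at hi hj
    exact L.irr_inj hi hj h
  have h1 : (Finset.range N).image L.irr = Finset.univ := by
    apply Finset.eq_univ_of_card
    rw [Finset.card_image_of_injOn hinj, Finset.card_range, ab_card, Nat.card_zpowers, L.ord]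
    intro a b
    exact (Subgroup.zpowers_isMulCommutative σ).is_comm.comm a b
  rw [← h1, Finset.sum_image (fun i hi j hj h => hinj hi hj h)]

end LinData

end hom

section main
variable {G : Type u} [Group G] [Fintype G] {M : Ideal AlgInt} {P : Sylow 2 G} {σ s J : G} {m : ℕ}
  {V : Subgroup G} {ζ : ℂ} {F : Subgroup.zpowers σ →* ℂ}

open Classical in
/-- the vectors `D j` -/
noncomputable def Dv (M : Ideal AlgInt) [Fintype (Subgroup.zpowers σ)]
    (L : LinData σ (2 * m) ζ F) (j : ℕ) (χ : IrrCharacter G) : ℤ :=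
  if χ ∈ principalBlock M G then
    (mult (Subgroup.zpowers σ) χ (L.irr 0) : ℤ) - mult (Subgroup.zpowers σ) χ (L.irr j) else 0

theorem Dv_of_notMem [Fintype (Subgroup.zpowers σ)] (L : LinData σ (2 * m) ζ F) (j : ℕ) {χ : IrrCharacter G}
    (hχ : χ ∉ principalBlock M G) : Dv M L j χ = 0 := by
  rw [Dv, if_neg hχ]

theorem Dv_eq (L : LinData σ (2 * m) ζ F) [Fintype (Subgroup.zpowers σ)] (j : ℕ)
    {χ : IrrCharacter G} (hχ : χ ∈ principalBlock M G) :
    (Dv M L j χ : ℂ) = ((2 * m : ℕ) : ℂ)⁻¹ * ∑ x : Subgroup.zpowers σ,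
      (χ : G → ℂ) x * (1 - conj (F x) ^ j) := by
  rw [Dv, if_pos hχ, Int.cast_sub, Int.cast_natCast, Int.cast_natCast, ← mult_spec, ← mult_spec,
    classInner, classInner, Nat.card_zpowers, L.ord, ← mul_sub, ← Finset.sum_sub_distrib]
  congr 1
  refine Finset.sum_congr rfl fun x _ => ?_
  rw [L.irr_apply, L.irr_apply, pow_zero, map_one, map_pow]
  ring

theorem Dv_one [Fintype (Subgroup.zpowers σ)] (L : LinData σ (2 * m) ζ F) {j : ℕ} (hj : 0 < j) (hj' : j < 2 * m)
    (hM : IsPModular 2 M) : Dv M L j (oneIrr G) = 1 := by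
  haveI := isPrime_of_isPModular hM
  have hmem : oneIrr G ∈ principalBlock M G := oneIrr_mem_principalBlock
  have h1 := Dv_eq L j hmem
  have hN : ((2 * m : ℕ) : ℂ) ≠ 0 := Nat.cast_ne_zero.2 L.N_pos.ne'
  have h2 : ∑ x : Subgroup.zpowers σ, ((oneIrr G : IrrCharacter G) : G → ℂ) x *
      (1 - conj (F x) ^ j) = (2 * m : ℕ) := by
    simp only [oneIrr_apply, one_mul]
    rw [Finset.sum_sub_distrib]
    have h3 : ∑ x : Subgroup.zpowers σ, conj (F x) ^ j = 0 := by
      have h4 := congrArg conj (L.sum_pow j)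
      rw [if_neg (Nat.not_dvd_of_pos_of_lt hj hj'), map_zero, map_sum] at h4
      simpa only [map_pow] using h4
    rw [h3, sub_zero, Finset.sum_const, Finset.card_univ, ← Nat.card_eq_fintype_card,
      Nat.card_zpowers, L.ord]
    simp
  rw [h2, inv_mul_cancel₀ hN] at h1
  exact_mod_cast h1

theorem Dv_symm (h : DihBlk M P σ s J m V) [Fintype (Subgroup.zpowers σ)] (L : LinData σ (2 * m) ζ F) {j : ℕ}
    (hj' : j ≤ 2 * m) (χ : IrrCharacter G) : Dv M L (2 * m - j) χ = Dv M L j χ := by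
  by_cases hχ : χ ∈ principalBlock M G
  · have h1 := Dv_eq L j hχ
    have h2 := Dv_eq L (2 * m - j) hχ
    have h3 : ∑ x : Subgroup.zpowers σ, (χ : G → ℂ) x * (1 - conj (F x) ^ (2 * m - j)) =
        ∑ x : Subgroup.zpowers σ, (χ : G → ℂ) x * (1 - conj (F x) ^ j) := by
      refine Fintype.sum_equiv (Equiv.inv _) _ _ fun x => ?_
      rw [Equiv.inv_apply, L.map_inv, Complex.conj_conj]
      have h4 : (χ : G → ℂ) ((x⁻¹ : Subgroup.zpowers σ) : G) = (χ : G → ℂ) x := by
        have h5 : ((x⁻¹ : Subgroup.zpowers σ) : G) = s * x * s⁻¹ := by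
          rw [h.dih.conj_zpow x.2]; rfl
        rw [h5]
        exact irr_isClassFunction χ _ _
      rw [h4]
      congr 2
      have h6 : conj (F x) ^ (2 * m - j) * conj (F x) ^ j = F x ^ j * conj (F x) ^ j := by
        rw [← pow_add, Nat.sub_add_cancel hj', ← map_pow, L.pow_N, map_one, ← mul_pow, L.conj_eq,
          ← pow_succ', Nat.sub_add_cancel L.N_pos, L.pow_N, one_pow]
      have h7 : conj (F x) ^ j ≠ 0 := by
        apply pow_ne_zero
        rw [ne_eq, map_eq_zero]
        exact L.ne_zero x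
      exact mul_right_cancel₀ h7 h6
    rw [h3, ← h1] at h2
    exact_mod_cast h2
  · rw [Dv_of_notMem L _ hχ, Dv_of_notMem L _ hχ]

/-- **the Gram matrix** -/
theorem Dv_gram (h : DihBlk M P σ s J m V) (L : LinData σ (2 * m) ζ F)
    [Fintype (IrrCharacter G)] [Fintype (Subgroup.zpowers σ)] {i j : ℕ} (hi : 1 ≤ i) (hi' : i ≤ m) (hj : 1 ≤ j) (hj' : j ≤ m) :
    ∑ χ : IrrCharacter G, Dv M L i χ * Dv M L j χ =
      2 + (if i = j then 1 else 0) + (if i = m ∧ j = m then 1 else 0) := by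
  classical
  have hN : ((2 * m : ℕ) : ℂ) ≠ 0 := Nat.cast_ne_zero.2 L.N_pos.ne'
  have hm2 := h.two_le
  -- as a double sum
  have h1 : ((∑ χ : IrrCharacter G, Dv M L i χ * Dv M L j χ : ℤ) : ℂ) =
      (((2 * m : ℕ) : ℂ)⁻¹ * ((2 * m : ℕ) : ℂ)⁻¹) * ∑ x : Subgroup.zpowers σ,
        ∑ y : Subgroup.zpowers σ, (1 - conj (F x) ^ i) * (1 - F y ^ j) *
        ∑ χ : IrrCharacter G, (if χ ∈ principalBlock M G then
          (χ : G → ℂ) x * conj ((χ : G → ℂ) y) else 0) := by
    rw [Int.cast_sum]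
    simp only [Int.cast_mul]
    have h2 : ∀ x y : Subgroup.zpowers σ, (1 - conj (F x) ^ i) * (1 - F y ^ j) *
        ∑ χ : IrrCharacter G, (if χ ∈ principalBlock M G then
          (χ : G → ℂ) x * conj ((χ : G → ℂ) y) else 0) =
        ∑ χ : IrrCharacter G, (if χ ∈ principalBlock M G then
          ((χ : G → ℂ) x * (1 - conj (F x) ^ i)) * (conj ((χ : G → ℂ) y) * (1 - F y ^ j))
            else 0) := by
      intro x y
      rw [Finset.mul_sum]
      refine Finset.sum_congr rfl fun χ _ => ?_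
      split_ifs <;> ring
    simp only [h2]
    have hswap : ∀ T : Subgroup.zpowers σ → Subgroup.zpowers σ → IrrCharacter G → ℂ,
        ∑ x, ∑ y, ∑ χ, T x y χ = ∑ χ, ∑ x, ∑ y, T x y χ := by
      intro T
      rw [Finset.sum_congr rfl fun x _ => Finset.sum_comm (f := fun y χ => T x y χ),
        Finset.sum_comm]
    rw [hswap, Finset.mul_sum]
    refine Finset.sum_congr rfl fun χ _ => ?_
    by_cases hχ : χ ∈ principalBlock M G
    · simp only [if_pos hχ]
      have h3 := Dv_eq L i hχ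
      have h4 := congrArg conj (Dv_eq L j hχ)
      rw [map_mul, map_inv₀, Complex.conj_natCast, map_sum] at h4
      have h5 : conj ((Dv M L j χ : ℤ) : ℂ) = ((Dv M L j χ : ℤ) : ℂ) := map_intCast _ _
      rw [h5] at h4
      simp only [map_mul, map_sub, map_one, map_pow, Complex.conj_conj] at h4
      rw [h3, h4]
      have h6 : ∑ x : Subgroup.zpowers σ, ∑ y : Subgroup.zpowers σ,
          ((χ : G → ℂ) x * (1 - conj (F x) ^ i)) * (conj ((χ : G → ℂ) y) * (1 - F y ^ j)) =
          (∑ x : Subgroup.zpowers σ, (χ : G → ℂ) x * (1 - conj (F x) ^ i)) *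
          (∑ y : Subgroup.zpowers σ, conj ((χ : G → ℂ) y) * (1 - F y ^ j)) := by
        rw [Finset.sum_mul_sum]
      rw [h6]
      ring
    · simp only [if_neg hχ, Dv_of_notMem L _ hχ]
      simp
  -- evaluate
  have h2 : ∑ x : Subgroup.zpowers σ,
        ∑ y : Subgroup.zpowers σ, (1 - conj (F x) ^ i) * (1 - F y ^ j) *
        ∑ χ : IrrCharacter G, (if χ ∈ principalBlock M G then
          (χ : G → ℂ) x * conj ((χ : G → ℂ) y) else 0) =
      ((2 * m : ℕ) : ℂ) * ∑ x : Subgroup.zpowers σ, (1 - conj (F x) ^ i) *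
        ((1 - F x ^ j) + (1 - conj (F x) ^ j)) := by
    rw [Finset.mul_sum]
    refine Finset.sum_congr rfl fun x _ => ?_
    by_cases hx : x = 1
    · subst hx
      simp
    · have hx1 : (x : G) ≠ 1 := fun h => hx (Subtype.ext h)
      have h3 : ∀ y : Subgroup.zpowers σ, (1 - conj (F x) ^ i) * (1 - F y ^ j) *
          ∑ χ : IrrCharacter G, (if χ ∈ principalBlock M G then
          (χ : G → ℂ) x * conj ((χ : G → ℂ) y) else 0) =
          (1 - conj (F x) ^ i) * (1 - F y ^ j) * ((2 * m : ℕ) *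
            ((if x = y then 1 else 0) + (if x⁻¹ = y then 1 else 0))) := by
        intro y
        by_cases hy : y = 1
        · subst hy
          simp
        · have hy1 : (y : G) ≠ 1 := fun h => hy (Subtype.ext h)
          rw [h.sum_block x.2 y.2 hx1 hy1]
          congr 3
          · simp only [Subtype.ext_iff]
          · have : ((x : G) = (y : G)⁻¹) ↔ (x⁻¹ = y) := by
              rw [Subtype.ext_iff]
              simp only [InvMemClass.coe_inv]
              constructor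
              · intro h; rw [h, inv_inv]
              · intro h; rw [← h, inv_inv]
            simp only [this]
      rw [Finset.sum_congr rfl fun y _ => h3 y]
      have h4 : ∀ y : Subgroup.zpowers σ, (1 - conj (F x) ^ i) * (1 - F y ^ j) * ((2 * m : ℕ) *
            ((if x = y then 1 else 0) + (if x⁻¹ = y then 1 else 0))) =
          (2 * m : ℕ) * (1 - conj (F x) ^ i) * ((if x = y then (1 - F y ^ j) else 0) +
            (if x⁻¹ = y then (1 - F y ^ j) else 0)) := by
        intro y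
        split_ifs <;> ring
      rw [Finset.sum_congr rfl fun y _ => h4 y, ← Finset.mul_sum, Finset.sum_add_distrib,
        Finset.sum_ite_eq, Finset.sum_ite_eq, if_pos (Finset.mem_univ _),
        if_pos (Finset.mem_univ _), L.map_inv]
      ring
  have hconj : ∀ k : ℕ, ∑ x : Subgroup.zpowers σ, conj (F x) ^ k =
      if 2 * m ∣ k then ((2 * m : ℕ) : ℂ) else 0 := by
    intro k
    have h4 := congrArg conj (L.sum_pow k)
    rw [map_sum] at h4
    simp only [map_pow] at h4
    rw [h4]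
    split_ifs
    · exact Complex.conj_natCast _
    · exact map_zero _
  have hmix : ∑ x : Subgroup.zpowers σ, conj (F x) ^ i * F x ^ j =
      if i = j then ((2 * m : ℕ) : ℂ) else 0 := by
    have h5 : ∀ x : Subgroup.zpowers σ, conj (F x) ^ i * F x ^ j = F x ^ ((2 * m - 1) * i + j) := by
      intro x
      rw [L.conj_eq, ← pow_mul, ← pow_add]
    rw [Finset.sum_congr rfl fun x _ => h5 x, L.sum_pow]
    have h6 : (2 * m ∣ (2 * m - 1) * i + j) ↔ i = j := by
      have e1 : (((2 * m - 1) * i + j : ℕ) : ℤ) = (2 * m : ℕ) * i + ((j : ℤ) - i) := by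
        rw [Nat.cast_add, Nat.cast_mul, Nat.cast_sub (by omega)]
        push_cast; ring
      rw [← Int.natCast_dvd_natCast, e1, Int.dvd_add_right (Dvd.intro _ rfl)]
      constructor
      · intro hd
        have h7 := Int.eq_zero_of_abs_lt_dvd hd (by
          rw [abs_lt]
          push_cast
          constructor <;> omega)
        omega
      · rintro rfl
        simp
    simp only [h6]
  have hii : ¬ 2 * m ∣ i := Nat.not_dvd_of_pos_of_lt (by omega) (by omega)
  have hjj : ¬ 2 * m ∣ j := Nat.not_dvd_of_pos_of_lt (by omega) (by omega)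
  have h3 : ∑ x : Subgroup.zpowers σ, (1 - conj (F x) ^ i) *
        ((1 - F x ^ j) + (1 - conj (F x) ^ j)) = ((2 * m : ℕ) : ℂ) *
        (2 + (if i = j then 1 else 0) + (if i = m ∧ j = m then 1 else 0)) := by
    have h4 : ∀ x : Subgroup.zpowers σ, (1 - conj (F x) ^ i) *
        ((1 - F x ^ j) + (1 - conj (F x) ^ j)) = 2 - 2 * conj (F x) ^ i - F x ^ j -
        conj (F x) ^ j + conj (F x) ^ i * F x ^ j + conj (F x) ^ (i + j) := by
      intro x
      rw [pow_add]; ring
    rw [Finset.sum_congr rfl fun x _ => h4 x]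
    rw [Finset.sum_add_distrib, Finset.sum_add_distrib, Finset.sum_sub_distrib,
      Finset.sum_sub_distrib, Finset.sum_sub_distrib, ← Finset.mul_sum, hconj, hconj, hconj, hmix,
      L.sum_pow, if_neg hii, if_neg hjj, Finset.sum_const, Finset.card_univ,
      ← Nat.card_eq_fintype_card, Nat.card_zpowers, L.ord]
    have h5 : (2 * m ∣ i + j) ↔ (i = m ∧ j = m) := by
      constructor
      · intro hd
        have := Nat.le_of_dvd (by omega) hd
        omega
      · rintro ⟨rfl, rfl⟩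
        exact ⟨1, by ring⟩
    simp only [h5]
    split_ifs <;> (simp; try ring)
  have h4 : ((∑ χ : IrrCharacter G, Dv M L i χ * Dv M L j χ : ℤ) : ℂ) =
      ((2 + (if i = j then 1 else 0) + (if i = m ∧ j = m then 1 else 0) : ℤ) : ℂ) := by
    rw [h1, h2, h3]
    generalize ((2 * m : ℕ) : ℂ) = N at hN ⊢
    push_cast
    field_simp
  exact_mod_cast h4

/-- the `2`-regular relations -/
theorem Dv_reg (h : DihBlk M P σ s J m V) (L : LinData σ (2 * m) ζ F)
    [Fintype (IrrCharacter G)] [Fintype (Subgroup.zpowers σ)] (j : ℕ) {ρ : G}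
    (hρ : Odd (orderOf ρ)) :
    ∑ χ : IrrCharacter G, (Dv M L j χ : ℂ) * (χ : G → ℂ) ρ = 0 := by
  classical
  haveI : Fact (Nat.Prime 2) := ⟨Nat.prime_two⟩
  have hρ2 : ¬ 2 ∣ orderOf ρ := by
    rw [← even_iff_two_dvd]; exact Nat.not_even_iff_odd.2 hρ
  have h1 : ∑ χ : IrrCharacter G, (Dv M L j χ : ℂ) * conj ((χ : G → ℂ) ρ) =
      ((2 * m : ℕ) : ℂ)⁻¹ * ∑ x : Subgroup.zpowers σ, (1 - conj (F x) ^ j) *
        ∑ χ : IrrCharacter G, (if χ ∈ principalBlock M G then
          (χ : G → ℂ) x * conj ((χ : G → ℂ) ρ) else 0) := by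
    simp only [Finset.mul_sum]
    rw [Finset.sum_comm]
    refine Finset.sum_congr rfl fun χ _ => ?_
    by_cases hχ : χ ∈ principalBlock M G
    · simp only [if_pos hχ]
      rw [Dv_eq L j hχ, Finset.mul_sum, Finset.sum_mul]
      refine Finset.sum_congr rfl fun x _ => ?_
      ring
    · simp only [if_neg hχ, Dv_of_notMem L _ hχ]
      simp
  have h2 : ∑ x : Subgroup.zpowers σ, (1 - conj (F x) ^ j) *
        ∑ χ : IrrCharacter G, (if χ ∈ principalBlock M G then
          (χ : G → ℂ) x * conj ((χ : G → ℂ) ρ) else 0) = 0 := by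
    refine Finset.sum_eq_zero fun x _ => ?_
    by_cases hx : x = 1
    · subst hx
      simp
    · have hx1 : (x : G) ≠ 1 := fun h => hx (Subtype.ext h)
      obtain ⟨kx, hkx⟩ := h.exists_orderOf (h.C_le x.2)
      rw [sum_principal_orth (p := 2) h.hM (isPPart_self' ⟨kx, hkx⟩) (isPPart_one hρ2), mul_zero]
      intro hc
      apply hx1
      obtain ⟨g, hg⟩ := isConj_iff.1 hc
      have : (x : G) = g⁻¹ * (g * x * g⁻¹) * g := by group
      rw [this, hg]; group
  rw [h2, mul_zero] at h1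
  have h3 := congrArg conj h1
  rw [map_sum, map_zero] at h3
  refine Eq.trans (Finset.sum_congr rfl fun χ _ => ?_) h3
  rw [map_mul, Complex.conj_conj]
  congr 1
  exact (map_intCast _ _).symm

/-- the values on `⟨σ⟩` -/
theorem value_eq (L : LinData σ (2 * m) ζ F)
    [Fintype (Subgroup.zpowers σ)] {χ : IrrCharacter G} (hχ : χ ∈ principalBlock M G)
    {x : Subgroup.zpowers σ} (hx : x ≠ 1) :
    (χ : G → ℂ) x = - ∑ j ∈ Finset.range (2 * m), (Dv M L j χ : ℂ) * F x ^ j := by
  classical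
  haveI : Fintype (IrrCharacter (Subgroup.zpowers σ)) := Fintype.ofFinite _
  have hcf : IsClassFunction (Subgroup.zpowers σ) (fun c : Subgroup.zpowers σ => (χ : G → ℂ) c) :=
    fun g h => irr_isClassFunction χ (g : G) (h : G)
  have h1 := classFun_apply_eq_sum hcf x
  rw [L.sum_irr] at h1
  simp only [mult_spec, L.irr_apply] at h1
  have hF1 : F x ≠ 1 := by
    intro hF
    have hx2 := x.2
    rw [← mem_powers_iff_mem_zpowers] at hx2
    obtain ⟨k, hk⟩ := hx2
    rw [L.apply x k hk, L.prim.pow_eq_one_iff_dvd] at hF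
    apply hx
    apply Subtype.ext
    rw [← hk]
    exact orderOf_dvd_iff_pow_eq_one.1 (by rw [L.ord]; exact hF)
  have hgeom : ∑ j ∈ Finset.range (2 * m), F x ^ j = 0 := by
    have h2 := mul_neg_geom_sum (F x) (2 * m)
    rw [L.pow_N, sub_self] at h2
    exact (mul_eq_zero.1 h2).resolve_left (sub_ne_zero.2 (Ne.symm hF1))
  rw [h1]
  have h3 : ∀ j, (Dv M L j χ : ℂ) = (mult (Subgroup.zpowers σ) χ (L.irr 0) : ℂ) -
      (mult (Subgroup.zpowers σ) χ (L.irr j) : ℂ) := by
    intro j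
    rw [Dv, if_pos hχ]
    push_cast
    rfl
  simp only [h3, sub_mul]
  rw [Finset.sum_sub_distrib, ← Finset.mul_sum, hgeom, mul_zero, zero_sub, neg_neg]

theorem Dv_zero (L : LinData σ (2 * m) ζ F) [Fintype (Subgroup.zpowers σ)] (χ : IrrCharacter G) :
    Dv M L 0 χ = 0 := by
  rw [Dv]
  split_ifs
  · exact sub_self _
  · rfl

/-- the values on `⟨σ⟩`, folded -/
theorem value_eq' (h : DihBlk M P σ s J m V) (L : LinData σ (2 * m) ζ F)
    [Fintype (Subgroup.zpowers σ)] {χ : IrrCharacter G} (hχ : χ ∈ principalBlock M G)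
    {x : Subgroup.zpowers σ} (hx : x ≠ 1) :
    (χ : G → ℂ) x = - ((Dv M L m χ : ℂ) * F x ^ m +
      ∑ j ∈ Finset.Ico 1 m, (Dv M L j χ : ℂ) * (F x ^ j + (F x ^ j)⁻¹)) := by
  have hm2 := h.two_le
  rw [value_eq L hχ hx]
  congr 1
  set f : ℕ → ℂ := fun j => (Dv M L j χ : ℂ) * F x ^ j with hf
  have h0 : f 0 = 0 := by simp only [hf]; rw [Dv_zero]; simp
  have hinv : ∀ j, j ≤ 2 * m → F x ^ (2 * m - j) = (F x ^ j)⁻¹ := by
    intro j hj
    apply eq_inv_of_mul_eq_one_left
    rw [← pow_add, Nat.sub_add_cancel hj, L.pow_N]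
  have h1 : ∑ j ∈ Finset.range (2 * m), f j = f m + ∑ j ∈ Finset.Ico 1 m, (f j + f (2 * m - j)) := by
    rw [Finset.sum_add_distrib, Finset.sum_Ico_reflect f 1 (by omega : m ≤ 2 * m + 1)]
    have e1 : 2 * m + 1 - m = m + 1 := by omega
    have e2 : 2 * m + 1 - 1 = 2 * m := by omega
    rw [e1, e2, Finset.range_eq_Ico, Finset.sum_eq_sum_Ico_succ_bot (by omega : 0 < 2 * m), h0,
      zero_add, zero_add,
      ← Finset.sum_Ico_consecutive f (by omega : 1 ≤ m) (by omega : m ≤ 2 * m),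
      Finset.sum_eq_sum_Ico_succ_bot (by omega : m < 2 * m)]
    ring
  rw [h1]
  congr 1
  refine Finset.sum_congr rfl fun j hj => ?_
  rw [Finset.mem_Ico] at hj
  simp only [hf]
  rw [Dv_symm h L (by omega) χ, hinv j (by omega)]
  ring

theorem exists_Dv_ne (h : DihBlk M P σ s J m V) (L : LinData σ (2 * m) ζ F)
    [Fintype (Subgroup.zpowers σ)] {χ : IrrCharacter G} (hχ : χ ∈ principalBlock M G) :
    ∃ j, 1 ≤ j ∧ j ≤ m ∧ Dv M L j χ ≠ 0 := by
  haveI : Fact (Nat.Prime 2) := ⟨Nat.prime_two⟩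
  have hm2 := h.two_le
  by_contra hcon
  push Not at hcon
  have h1 : (⟨J, h.J_mem⟩ : Subgroup.zpowers σ) ≠ 1 := fun h' =>
    h.vp.J_ne (congrArg Subtype.val h')
  have h2 := value_eq' h L hχ h1
  rw [hcon m (by omega) le_rfl, Finset.sum_eq_zero (fun j hj => by
    rw [Finset.mem_Ico] at hj
    rw [hcon j hj.1 hj.2.le]; simp)] at h2
  have h3 : (χ : G → ℂ) J = 0 := by
    have : (χ : G → ℂ) ((⟨J, h.J_mem⟩ : Subgroup.zpowers σ) : G) = 0 := by rw [h2]; simp
    exact this
  refine principal_value_ne_zero (p := 2) h.hM ?_ hχ h3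
  intro hd
  have h4 : (Subgroup.centralizer ({J} : Set G)).index ∣ (P : Subgroup G).index :=
    Subgroup.index_dvd_of_le h.vp.P_le
  exact P.not_dvd_index (hd.trans h4)

end main

end Cfsg.Agent.H74
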