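import Cfsg.Agent.H74.DihMain

/-!
# The structure of the principal `2`-block of a group with dihedral Sylow `2`-subgroups
-/

set_option autoImplicit false
set_option linter.unusedSectionVars false
set_option linter.style.haveILetI false

universe u v

namespace Cfsg.Agent.H74

open scoped ComplexConjugate BigOperators
open Cfsg Cfsg.Agent.CharBase Cfsg.Agent.Blk Cfsg.Agent.H4 Cfsg.Agent.BlkC

variable {G : Type u} [Group G] [Fintype G] {M : Ideal AlgInt} {P : Sylow 2 G} {σ s J : G} {m : ℕ}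
  {V : Subgroup G} {ζ : ℂ}

structure DihOut (M : Ideal AlgInt) (σ : G) (m : ℕ) (ζ : ℂ) (c1 c2 c3 : IrrCharacter G)
    (e : ℕ → IrrCharacter G) (δ1 δ2 δ3 : ℤ) : Prop where
  s1 : δ1 = 1 ∨ δ1 = -1
  s2 : δ2 = 1 ∨ δ2 = -1
  s3 : δ3 = 1 ∨ δ3 = -1
  c1o : c1 ≠ oneIrr G
  c2o : c2 ≠ oneIrr G
  c3o : c3 ≠ oneIrr G
  c12 : c1 ≠ c2
  c13 : c1 ≠ c3
  c23 : c2 ≠ c3
  en : ∀ j, 1 ≤ j → j < m → e j ≠ oneIrr G ∧ e j ≠ c1 ∧ e j ≠ c2 ∧ e j ≠ c3
  einj : ∀ i j, 1 ≤ i → i < m → 1 ≤ j → j < m → e i = e j → i = j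
  mem : ∀ χ, χ ∈ principalBlock M G ↔ χ = oneIrr G ∨ χ = c1 ∨ χ = c2 ∨ χ = c3 ∨
    ∃ j, 1 ≤ j ∧ j < m ∧ χ = e j
  val1 : ∀ l, 0 < l → l < 2 * m → (c1 : G → ℂ) (σ ^ l) = δ1
  val2 : ∀ l, 0 < l → l < 2 * m → (c2 : G → ℂ) (σ ^ l) = δ2 * (-1) ^ (l + 1)
  val3 : ∀ l, 0 < l → l < 2 * m → (c3 : G → ℂ) (σ ^ l) = δ3 * (-1) ^ (l + 1)
  vale : ∀ l, 0 < l → l < 2 * m → ∀ j, 1 ≤ j → j < m →
    (e j : G → ℂ) (σ ^ l) = δ1 * (ζ ^ (j * l) + (ζ ^ (j * l))⁻¹)
  reg : ∀ ρ : G, Odd (orderOf ρ) →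
    1 + δ1 * (c1 : G → ℂ) ρ + δ2 * (c2 : G → ℂ) ρ + δ3 * (c3 : G → ℂ) ρ = 0
  rege : ∀ ρ : G, Odd (orderOf ρ) → ∀ j, 1 ≤ j → j < m →
    1 + δ1 * (c1 : G → ℂ) ρ = δ1 * (e j : G → ℂ) ρ

theorem exists_dihOut (h : DihBlk M P σ s J m V) (hζ : IsPrimitiveRoot ζ (2 * m)) :
    ∃ (c1 c2 c3 : IrrCharacter G) (e : ℕ → IrrCharacter G) (δ1 δ2 δ3 : ℤ),
      DihOut M σ m ζ c1 c2 c3 e δ1 δ2 δ3 := by
  classical
  haveI := isPrime_of_isPModular h.hM
  haveI : Fintype (Subgroup.zpowers σ) := Fintype.ofFinite _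
  haveI : Fintype (IrrCharacter G) := Fintype.ofFinite _
  have hm2 := h.two_le
  obtain ⟨F, L⟩ := exists_linData (σ := σ) h.dih.orderOf_r hζ
  have homem : oneIrr G ∈ principalBlock M G := oneIrr_mem_principalBlock
  have hreg1 : ∀ j, ∑ χ : IrrCharacter G, Dv M L j χ * (charDegree (χ : G → ℂ) : ℤ) = 0 := by
    intro j
    have h1 := Dv_reg h L j (ρ := 1) (by rw [orderOf_one]; exact odd_one)
    have h2 : ((∑ χ : IrrCharacter G, Dv M L j χ * (charDegree (χ : G → ℂ) : ℤ) : ℤ) : ℂ) = 0 := by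
      rw [← h1, Int.cast_sum]
      refine Finset.sum_congr rfl fun χ _ => ?_
      rw [charDegree_spec]
      push_cast
      rfl
    exact_mod_cast h2
  have hdo : (charDegree ((oneIrr G : IrrCharacter G) : G → ℂ) : ℤ) = 1 := by
    have h1 := charDegree_spec (oneIrr G)
    rw [oneIrr_apply] at h1
    exact_mod_cast h1.symm
  obtain ⟨c1, c2, c3, e, δ1, δ2, δ3, s1, s2, s3, c1o, c2o, c3o, c12, c13, c23, en, einj,
    ⟨v1, v2, v3, v0⟩, hv⟩ := dih_comb (oneIrr G) m hm2 h.even (fun j χ => Dv M L j χ)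
    (fun χ => (charDegree (χ : G → ℂ) : ℤ))
    (fun i j hi hi' hj hj' => Dv_gram h L hi hi' hj hj')
    (fun j hj hj' => Dv_one L (by omega) (by omega) h.hM)
    (fun χ => by exact_mod_cast H79.irr_degree_pos χ) hdo (fun j _ _ => hreg1 j)
  have hne : ∀ δ : ℤ, (δ = 1 ∨ δ = -1) → δ ≠ 0 := by rintro δ (rfl | rfl) <;> norm_num
  have hmemne : ∀ {j : ℕ} {χ : IrrCharacter G}, Dv M L j χ ≠ 0 → χ ∈ principalBlock M G := by
    intro j χ h1
    by_contra h2
    exact h1 (Dv_of_notMem L j h2)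
  have m1 : c1 ∈ principalBlock M G := hmemne (j := m) (by rw [v1]; exact hne _ s1)
  have m2 : c2 ∈ principalBlock M G := hmemne (j := m) (by rw [v2]; exact hne _ s2)
  have m3 : c3 ∈ principalBlock M G := hmemne (j := m) (by rw [v3]; exact hne _ s3)
  have me : ∀ j, 1 ≤ j → j < m → e j ∈ principalBlock M G := by
    intro j hj hj'
    apply hmemne (j := j)
    rw [(hv j hj hj').2.1, neg_ne_zero]
    exact hne _ s1
  -- power facts
  have hσl : ∀ l, 0 < l → l < 2 * m → ∃ x : Subgroup.zpowers σ, x ≠ 1 ∧ (x : G) = σ ^ l ∧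
      F x = ζ ^ l := by
    intro l hl hl'
    refine ⟨⟨σ ^ l, Subgroup.pow_mem _ (Subgroup.mem_zpowers σ) l⟩, ?_, rfl, L.apply _ l rfl⟩
    intro h1
    have h2 : σ ^ l = 1 := congrArg Subtype.val h1
    have h3 := orderOf_dvd_of_pow_eq_one h2
    rw [L.ord] at h3
    exact absurd (Nat.le_of_dvd hl h3) (by omega)
  have hζm : ζ ^ m = -1 := by
    have h1 : (ζ ^ m) ^ 2 = 1 := by rw [← pow_mul, mul_comm, hζ.pow_eq_one]
    have h1' : (ζ ^ m - 1) * (ζ ^ m + 1) = 0 := by linear_combination h1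
    rcases (mul_eq_zero.1 h1').imp sub_eq_zero.1 eq_neg_of_add_eq_zero_left with h2 | h2
    · exfalso
      have h3 := (hζ.pow_eq_one_iff_dvd m).1 h2
      exact absurd (Nat.le_of_dvd (by omega) h3) (by omega)
    · exact h2
  have hFm : ∀ l, (ζ ^ l) ^ m = (-1) ^ l := by
    intro l
    rw [← pow_mul, mul_comm, pow_mul, hζm]
  refine ⟨c1, c2, c3, e, δ1, δ2, δ3, s1, s2, s3, c1o, c2o, c3o, c12, c13, c23, en, einj, ?_, ?_, ?_,
    ?_, ?_, ?_, ?_⟩
  · intro χ
    constructor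
    · intro hχ
      obtain ⟨j, hj, hj', hne'⟩ := exists_Dv_ne h L hχ
      by_contra hcon
      push Not at hcon
      obtain ⟨a0, a1, a2, a3, a4⟩ := hcon
      apply hne'
      rcases lt_or_eq_of_le hj' with h1 | h1
      · exact (hv j hj h1).2.2 χ a0 a1 (a4 j hj h1)
      · rw [h1]; exact v0 χ a0 a1 a2 a3
    · rintro (rfl | rfl | rfl | rfl | ⟨j, hj, hj', rfl⟩)
      · exact homem
      · exact m1
      · exact m2
      · exact m3
      · exact me j hj hj'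
  · intro l hl hl'
    obtain ⟨x, hx1, hxl, hFx⟩ := hσl l hl hl'
    have h1 := value_eq L m1 hx1
    have hD : ∀ j ∈ Finset.range (2 * m), (Dv M L j c1 : ℂ) * F x ^ j =
        (δ1 : ℂ) * F x ^ j - if j = 0 then (δ1 : ℂ) else 0 := by
      intro j hj
      rw [Finset.mem_range] at hj
      rcases Nat.eq_zero_or_pos j with h0 | h0
      · rw [h0, Dv_zero]; simp
      · rw [if_neg h0.ne', sub_zero]
        congr 2
        by_cases hjm : j ≤ m
        · rcases lt_or_eq_of_le hjm with h2 | h2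
          · exact (hv j h0 h2).1
          · rw [h2]; exact v1
        · have h3 := Dv_symm h L (j := j) (by omega) c1
          rw [← h3]
          exact (hv (2 * m - j) (by omega) (by omega)).1
    rw [Finset.sum_congr rfl hD, Finset.sum_sub_distrib, ← Finset.mul_sum] at h1
    have hgeom : ∑ j ∈ Finset.range (2 * m), F x ^ j = 0 := by
      have h2 := mul_neg_geom_sum (F x) (2 * m)
      rw [L.pow_N, sub_self] at h2
      refine (mul_eq_zero.1 h2).resolve_left (sub_ne_zero.2 ?_)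
      rw [hFx]
      intro h3
      have h4 := (hζ.pow_eq_one_iff_dvd l).1 h3.symm
      exact absurd (Nat.le_of_dvd hl h4) (by omega)
    rw [hgeom, mul_zero, Finset.sum_ite_eq', if_pos (Finset.mem_range.2 (by omega)), zero_sub,
      neg_neg, hxl] at h1
    exact h1
  · intro l hl hl'
    obtain ⟨x, hx1, hxl, hFx⟩ := hσl l hl hl'
    have h1 := value_eq' h L m2 hx1
    rw [Finset.sum_eq_zero (fun j hj => by
      rw [Finset.mem_Ico] at hj
      rw [(hv j hj.1 hj.2).2.2 c2 c2o (Ne.symm c12) (Ne.symm (en j hj.1 hj.2).2.2.1)]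
      simp), v2, add_zero, hFx, hFm, hxl] at h1
    rw [h1, pow_succ]; ring
  · intro l hl hl'
    obtain ⟨x, hx1, hxl, hFx⟩ := hσl l hl hl'
    have h1 := value_eq' h L m3 hx1
    rw [Finset.sum_eq_zero (fun j hj => by
      rw [Finset.mem_Ico] at hj
      rw [(hv j hj.1 hj.2).2.2 c3 c3o (Ne.symm c13) (Ne.symm (en j hj.1 hj.2).2.2.2)]
      simp), v3, add_zero, hFx, hFm, hxl] at h1
    rw [h1, pow_succ]; ring
  · intro l hl hl' i hi hi'
    obtain ⟨x, hx1, hxl, hFx⟩ := hσl l hl hl'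
    have h1 := value_eq' h L (me i hi hi') hx1
    obtain ⟨n0, n1, n2, n3⟩ := en i hi hi'
    rw [Finset.sum_eq_single i (fun j hj hji => by
      rw [Finset.mem_Ico] at hj
      rw [(hv j hj.1 hj.2).2.2 (e i) n0 n1 (fun h2 => hji (einj i j hi hi' hj.1 hj.2 h2).symm)]
      simp) (fun hni => absurd (Finset.mem_Ico.2 ⟨hi, hi'⟩) hni), (hv i hi hi').2.1,
      v0 (e i) n0 n1 n2 n3, hFx, ← pow_mul ζ l i, mul_comm l i, hxl] at h1
    rw [h1]
    push_cast
    ring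
  · intro ρ hρ
    have h1 := Dv_reg h L m hρ
    have h2 : ∑ χ : IrrCharacter G, (Dv M L m χ : ℂ) * (χ : G → ℂ) ρ =
        ∑ χ ∈ ({oneIrr G, c1, c2, c3} : Finset (IrrCharacter G)),
          (Dv M L m χ : ℂ) * (χ : G → ℂ) ρ := by
      symm
      apply Finset.sum_subset (Finset.subset_univ _)
      intro χ _ hχ
      simp only [Finset.mem_insert, Finset.mem_singleton, not_or] at hχ
      rw [v0 χ hχ.1 hχ.2.1 hχ.2.2.1 hχ.2.2.2]
      simp
    rw [h2, Finset.sum_insert, Finset.sum_insert, Finset.sum_insert, Finset.sum_singleton,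
      Dv_one L (by omega) (by omega) h.hM, v1, v2, v3, oneIrr_apply] at h1
    · rw [← h1]; push_cast; ring
    · simpa using c23
    · simp only [Finset.mem_insert, Finset.mem_singleton, not_or]; exact ⟨c12, c13⟩
    · simp only [Finset.mem_insert, Finset.mem_singleton, not_or]
      exact ⟨Ne.symm c1o, Ne.symm c2o, Ne.symm c3o⟩
  · intro ρ hρ j hj hj'
    obtain ⟨n0, n1, n2, n3⟩ := en j hj hj'
    have h1 := Dv_reg h L j hρ
    have h2 : ∑ χ : IrrCharacter G, (Dv M L j χ : ℂ) * (χ : G → ℂ) ρ =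
        ∑ χ ∈ ({oneIrr G, c1, e j} : Finset (IrrCharacter G)),
          (Dv M L j χ : ℂ) * (χ : G → ℂ) ρ := by
      symm
      apply Finset.sum_subset (Finset.subset_univ _)
      intro χ _ hχ
      simp only [Finset.mem_insert, Finset.mem_singleton, not_or] at hχ
      rw [(hv j hj hj').2.2 χ hχ.1 hχ.2.1 hχ.2.2]
      simp
    rw [h2, Finset.sum_insert, Finset.sum_insert, Finset.sum_singleton,
      Dv_one L (by omega) (by omega) h.hM, (hv j hj hj').1, (hv j hj hj').2.1, oneIrr_apply] at h1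
    · push_cast at h1
      linear_combination h1
    · simp only [Finset.mem_singleton]; exact Ne.symm n1
    · simp only [Finset.mem_insert, Finset.mem_singleton, not_or]
      exact ⟨Ne.symm c1o, Ne.symm n0⟩

end Cfsg.Agent.H74
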