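import Cfsg.Agent.H74.NpcPair
import Cfsg.Agent.H74.FSForm
import Cfsg.Agent.H4.KleinBlock
import Cfsg.Agent.H4.KleinFourSylow
import Cfsg.Agent.H17.Klein

/-!
# Groups of order `4 g₀` without a normal `2`-complement: order formulas
-/

set_option autoImplicit false
set_option linter.unusedSectionVars false
set_option linter.style.haveILetI false

universe u v

namespace Cfsg.Agent.H74

open scoped ComplexConjugate BigOperators
open Cfsg Cfsg.Agent.CharBase Cfsg.Agent.Blk Cfsg.Agent.H4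

variable {G : Type u} [Group G] [Finite G]

theorem klein_of_no_complement (g₀ : ℕ) (hg₀ : Odd g₀) (hG : Nat.card G = 4 * g₀)
    (hnc : ¬ ∃ N : Subgroup G, N.Normal ∧ Nat.card N = g₀) (P : Sylow 2 G) :
    IsKleinFour (P : Subgroup G) ∧ ∀ s t : G, orderOf s = 2 → orderOf t = 2 → IsConj s t := by
  haveI : Fact (Nat.Prime 2) := ⟨Nat.prime_two⟩
  have hcard : Nat.card (P : Subgroup G) = 4 := by
    rw [P.card_eq_multiplicity, hG]
    have h2 : ¬ 2 ∣ g₀ := by rw [← even_iff_two_dvd]; exact Nat.not_even_iff_odd.mpr hg₀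
    rw [Nat.factorization_mul (by norm_num) (by rintro rfl; exact h2 (dvd_zero 2))]
    have h3 : (4 : ℕ).factorization 2 = 2 := by
      rw [show (4 : ℕ) = 2 ^ 2 by norm_num, Nat.prime_two.factorization_pow]; simp
    rw [Finsupp.add_apply, h3, Nat.factorization_eq_zero_of_not_dvd h2]
    norm_num
  have hcyc : ¬ IsCyclic (P : Subgroup G) := by
    intro h
    have hmin : (Nat.card G).minFac = 2 := by
      rw [Nat.minFac_eq_two_iff, hG]
      exact ⟨2 * g₀, by ring⟩
    have hc := IsCyclic.isComplement' hmin (P := P) h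
    apply hnc
    refine ⟨(MonoidHom.transferSylow P (IsCyclic.normalizer_le_centralizer hmin h)).ker,
      inferInstance, ?_⟩
    have h1 := hc.card_mul_card
    rw [hcard, hG] at h1
    omega
  have hK := H17.isKleinFour_of_card_four hcard hcyc
  refine ⟨hK, ?_⟩
  have h3 : Nat.card {C : ConjClasses G // ∃ t : G, orderOf t = 2 ∧ ConjClasses.mk t = C} ≠ 3 := by
    intro h
    obtain ⟨N, hN, hc⟩ := (kleinFour_three_iff P hK).1 h
    apply hnc
    refine ⟨N, hN, ?_⟩
    have h1 := hc.card_mul_card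
    rw [hcard, hG] at h1
    omega
  have h1 : Nat.card {C : ConjClasses G // ∃ t : G, orderOf t = 2 ∧ ConjClasses.mk t = C} = 1 := by
    rcases kleinFour_dichotomy P hK with h | h
    · exact absurd h.2 h3
    · exact h.2
  intro s t hs ht
  have hsub := (Nat.card_eq_one_iff_unique.1 h1).1
  have h2 : (⟨ConjClasses.mk s, s, hs, rfl⟩ :
      {C : ConjClasses G // ∃ t : G, orderOf t = 2 ∧ ConjClasses.mk t = C}) =
      ⟨ConjClasses.mk t, t, ht, rfl⟩ := hsub.elim _ _
  exact ConjClasses.mk_eq_mk_iff_isConj.1 (congrArg Subtype.val h2)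

/-- the `VP`-structure for Klein four Sylow subgroups -/
theorem VP.of_klein {P : Sylow 2 G} (hK : IsKleinFour (P : Subgroup G)) {J : G}
    (hJ : J ∈ (P : Subgroup G)) (hJ2 : orderOf J = 2) :
    VP J (centralizerPPrimeCore 2 J) (P : Subgroup G) := by
  haveI : Fact (Nat.Prime 2) := ⟨Nat.prime_two⟩
  apply VP.of_sylow P hJ hJ2 (fun x hx => IsKleinFour.mul_comm' hK hx hJ)
  obtain ⟨k, hk⟩ := centralizer_npc hK hJ2
  exact Transfer.hasNPC_of_normal (N := pPrimeCore 2 (Subgroup.centralizer ({J} : Set G)))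
    inferInstance (Solv.pPrimeCore_card_coprime 2) hk

/-- **the order formula, in `ℂ`** -/
theorem four_formula [Fintype (IrrCharacter G)] {M : Ideal AlgInt} (hM : IsPModular 2 M)
    {P : Sylow 2 G} (hK : IsKleinFour (P : Subgroup G))
    (hone : ∀ s t : G, orderOf s = 2 → orderOf t = 2 → IsConj s t) {J : G}
    (hJ : J ∈ (P : Subgroup G)) (hJ2 : orderOf J = 2)
    [DecidablePred (· ∈ principalBlock M G)] :
    ∃ n : ℕ, n * Nat.card (Subgroup.centralizer ((P : Subgroup G) : Set G)) =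
      Nat.card (Subgroup.centralizer ({J} : Set G)) ∧
    (Nat.card G : ℂ) * (∑ χ : IrrCharacter G, (if χ ∈ principalBlock M G then
      (χ : G → ℂ) J * (χ : G → ℂ) J * conj ((χ : G → ℂ) J) / (χ : G → ℂ) 1 else 0)) =
      8 * (Nat.card (Subgroup.centralizer ({J} : Set G)) : ℂ) * (n : ℂ) ^ 2 := by
  classical
  haveI : Fact (Nat.Prime 2) := ⟨Nat.prime_two⟩
  haveI := Fintype.ofFinite G
  haveI := Fintype.ofFinite (P : Subgroup G)
  set V := centralizerPPrimeCore 2 J with hVdef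
  have h : VP J V (P : Subgroup G) := VP.of_klein hK hJ hJ2
  have hJJ : J * J = 1 := h.J_sq
  have hJ1 : J ≠ 1 := h.J_ne
  have hconj : ∀ s : G, s * s = 1 → s ≠ 1 → IsConj J s := fun s hs hs1 =>
    hone J s hJ2 (orderOf_eq_prime (by rw [pow_two]; exact hs) hs1)
  -- another involution of `P`
  have hPcard : Nat.card (P : Subgroup G) = 4 := hK.card_four
  obtain ⟨s, hsP, hs1, hsJ⟩ : ∃ s ∈ (P : Subgroup G), s ≠ 1 ∧ s ≠ J := by
    by_contra hcon
    push Not at hcon
    have h1 : (P : Subgroup G) ≤ Subgroup.zpowers J := by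
      intro x hx
      by_cases hx1 : x = 1
      · rw [hx1]; exact Subgroup.one_mem _
      · rw [hcon x hx hx1]; exact Subgroup.mem_zpowers J
    have h2 := Nat.card_le_card_of_injective _ (Subgroup.inclusion_injective h1)
    rw [Nat.card_zpowers, hJ2, hPcard] at h2
    omega
  have hss : s * s = 1 := IsKleinFour.mul_self' hK hsP
  have hsJc : s * J = J * s := IsKleinFour.mul_comm' hK hsP hJ
  have huniv : (Finset.univ : Finset (P : Subgroup G)) =
      {(⟨J * s, mul_mem hJ hsP⟩ : (P : Subgroup G)), ⟨J, hJ⟩, ⟨s, hsP⟩, 1} := by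
    haveI := hK
    symm
    exact IsKleinFour.eq_finset_univ (G := (P : Subgroup G)) (x := ⟨J, hJ⟩) (y := ⟨s, hsP⟩)
      (fun h => hJ1 (congrArg Subtype.val h)) (fun h => hs1 (congrArg Subtype.val h))
      (fun h => hsJ (congrArg Subtype.val h).symm)
  have hJs1 : J * s ≠ 1 := fun h => hsJ (by
    have : s = J⁻¹ := eq_inv_of_mul_eq_one_right h
    rw [this]; exact inv_eq_of_mul_eq_one_left hJJ)
  have hJs2 : J * s ≠ J := fun h => hs1 (by simpa using h)
  have hJs3 : J * s ≠ s := fun h => hJ1 (by simpa using h)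
  -- centralizers in `V`
  have hVJs : V ⊓ Subgroup.centralizer ({J * s} : Set G) = V ⊓ Subgroup.centralizer ({s} : Set G) := by
    ext v
    simp only [Subgroup.mem_inf, Subgroup.mem_centralizer_singleton_iff]
    refine and_congr_right fun hv => ?_
    have hvJ : v * J = J * v := Subgroup.mem_centralizer_singleton_iff.1 (h.V_le hv)
    constructor
    · intro h1
      have : J * (v * s) = J * (s * v) := by
        rw [← mul_assoc, ← hvJ, mul_assoc, h1, mul_assoc]
      exact mul_left_cancel this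
    · intro h1
      rw [← mul_assoc, hvJ, mul_assoc, h1, mul_assoc]
  have hn1 := h.ninv_mul hsP hss hs1
  have hn2 := h.ninv_mul (mul_mem hJ hsP) (IsKleinFour.mul_self' hK (mul_mem hJ hsP)) hJs1
  rw [hVJs] at hn2
  set cs := Nat.card (V ⊓ Subgroup.centralizer ({s} : Set G) : Subgroup G) with hcs
  have hcs0 : 0 < cs := Nat.card_pos
  set n := ninv V s with hn
  have hn3 : ninv V (J * s) = n := Nat.eq_of_mul_eq_mul_right hcs0 (hn2.trans hn1.symm)
  have hcJ : Nat.card (Subgroup.centralizer ({J} : Set G)) = Nat.card V * 4 := by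
    rw [h.card_J, hPcard]
  have hcP : Nat.card (Subgroup.centralizer ((P : Subgroup G) : Set G)) = cs * 4 := by
    have h1 : Subgroup.centralizer ((P : Subgroup G) : Set G) =
        Subgroup.centralizer ({J} : Set G) ⊓ Subgroup.centralizer ({s} : Set G) := by
      ext x
      simp only [Subgroup.mem_inf, Subgroup.mem_centralizer_singleton_iff]
      rw [Subgroup.mem_centralizer_iff]
      constructor
      · intro hx; exact ⟨(hx J hJ).symm, (hx s hsP).symm⟩
      · rintro ⟨hx1, hx2⟩ y hy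
        have hy' : (⟨y, hy⟩ : (P : Subgroup G)) ∈ (Finset.univ : Finset (P : Subgroup G)) :=
          Finset.mem_univ _
        rw [huniv] at hy'
        simp only [Finset.mem_insert, Finset.mem_singleton, Subtype.ext_iff] at hy'
        rcases hy' with rfl | rfl | rfl | h3
        · rw [mul_assoc, ← hx2, ← mul_assoc, ← hx1, mul_assoc]
        · exact hx1.symm
        · exact hx2.symm
        · have : y = 1 := h3
          rw [this]; simp
    have h2 : (P : Subgroup G) ⊓ Subgroup.centralizer ({s} : Set G) = (P : Subgroup G) :=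
      inf_eq_left.2 fun x hx =>
        Subgroup.mem_centralizer_singleton_iff.2 (IsKleinFour.mul_comm' hK hx hsP)
    rw [h1, h.card_centralizer hsP, h2, hPcard]
  refine ⟨n, ?_, ?_⟩
  · rw [hcP, hcJ, ← mul_assoc, hn1]
  · have hmain := h.main hM hconj h.J_mem (Subgroup.mem_zpowers J) (k := 1) (by rw [hJ2]; norm_num)
    have hsum : (∑ x : (P : Subgroup G), ninv V (x : G) * ninv V ((x : G)⁻¹ * J)) = 2 * n ^ 2 := by
      rw [huniv]
      have hinv : ∀ x : G, x * x = 1 → x⁻¹ = x := fun x hx => inv_eq_of_mul_eq_one_left hx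
      rw [Finset.sum_insert, Finset.sum_insert, Finset.sum_insert, Finset.sum_singleton]
      · have e1 : (J * s)⁻¹ * J = s := by
          rw [hinv _ (IsKleinFour.mul_self' hK (mul_mem hJ hsP)), mul_assoc, hsJc, ← mul_assoc,
            hJJ, one_mul]
        have e2 : J⁻¹ * J = 1 := inv_mul_cancel J
        have e3 : s⁻¹ * J = J * s := by rw [hinv _ hss, hsJc]
        have e4 : (((1 : (P : Subgroup G)) : G))⁻¹ * J = J := by simp
        simp only [e1, e2, e3, e4]
        rw [hn3, h.ninv_one]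
        have e5 : ninv V (((1 : (P : Subgroup G)) : G)) = 0 := h.ninv_one
        rw [e5]
        ring
      · simp only [Finset.mem_singleton, Subtype.ext_iff]
        exact hs1
      · simp only [Finset.mem_insert, Finset.mem_singleton, Subtype.ext_iff, not_or]
        exact ⟨fun h => hsJ h.symm, hJ1⟩
      · simp only [Finset.mem_insert, Finset.mem_singleton, Subtype.ext_iff, not_or]
        exact ⟨hJs2, hJs3, hJs1⟩
    rw [hsum] at hmain
    have hV0 : (Nat.card V : ℂ) ≠ 0 := Nat.cast_ne_zero.2 Nat.card_pos.ne'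
    apply mul_left_cancel₀ hV0
    rw [← mul_assoc, mul_comm (Nat.card V : ℂ) (Nat.card G : ℂ), ← hmain, hcJ]
    push_cast
    ring

/-- sums over a principal block with four members -/
theorem sum_four [Fintype (IrrCharacter G)] {M : Ideal AlgInt}
    [DecidablePred (· ∈ principalBlock M G)] {χ₁ χ₂ χ₃ : IrrCharacter G}
    (hB : principalBlock M G = {χ : IrrCharacter G | (χ : G → ℂ) = (fun _ => 1) ∨ χ = χ₁ ∨ χ = χ₂ ∨
      χ = χ₃})
    (hdist : (χ₁ : G → ℂ) ≠ (fun _ => 1) ∧ (χ₂ : G → ℂ) ≠ (fun _ => 1) ∧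
      (χ₃ : G → ℂ) ≠ (fun _ => 1) ∧ χ₁ ≠ χ₂ ∧ χ₁ ≠ χ₃ ∧ χ₂ ≠ χ₃) (F : IrrCharacter G → ℂ) :
    ∑ χ : IrrCharacter G, (if χ ∈ principalBlock M G then F χ else 0) =
      F (oneIrr G) + F χ₁ + F χ₂ + F χ₃ := by
  classical
  obtain ⟨h1, h2, h3, h12, h13, h23⟩ := hdist
  have hone' : ∀ χ : IrrCharacter G, (χ : G → ℂ) = (fun _ => 1) ↔ χ = oneIrr G :=
    fun χ => ⟨fun h => Subtype.ext h, fun h => by rw [h]; rfl⟩
  rw [Ne, hone'] at h1 h2 h3
  have hS : Finset.univ.filter (fun χ : IrrCharacter G => χ ∈ principalBlock M G) =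
      {oneIrr G, χ₁, χ₂, χ₃} := by
    ext χ
    simp only [Finset.mem_filter, Finset.mem_univ, true_and, Finset.mem_insert,
      Finset.mem_singleton]
    rw [hB, Set.mem_ofPred_eq, hone']
  rw [← Finset.sum_filter, hS, Finset.sum_insert, Finset.sum_insert, Finset.sum_insert,
    Finset.sum_singleton]
  · ring
  · simpa using h23
  · simp only [Finset.mem_insert, Finset.mem_singleton, not_or]; exact ⟨h12, h13⟩
  · simp only [Finset.mem_insert, Finset.mem_singleton, not_or]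
    exact ⟨Ne.symm h1, Ne.symm h2, Ne.symm h3⟩

/-- **The two basic relations.** -/
theorem four_relations {M : Ideal AlgInt} (hM : IsPModular 2 M)
    {P : Sylow 2 G} (hK : IsKleinFour (P : Subgroup G))
    (hone : ∀ s t : G, orderOf s = 2 → orderOf t = 2 → IsConj s t) {J : G}
    (hJ : J ∈ (P : Subgroup G)) (hJ2 : orderOf J = 2)
    {χ₁ χ₂ χ₃ : IrrCharacter G}
    (hB : principalBlock M G = {χ : IrrCharacter G | (χ : G → ℂ) = (fun _ => 1) ∨ χ = χ₁ ∨ χ = χ₂ ∨
      χ = χ₃})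
    (hdist : (χ₁ : G → ℂ) ≠ (fun _ => 1) ∧ (χ₂ : G → ℂ) ≠ (fun _ => 1) ∧
      (χ₃ : G → ℂ) ≠ (fun _ => 1) ∧ χ₁ ≠ χ₂ ∧ χ₁ ≠ χ₃ ∧ χ₂ ≠ χ₃)
    {ε₁ ε₂ ε₃ : ℤ} (hε : (ε₁ = 1 ∨ ε₁ = -1) ∧ (ε₂ = 1 ∨ ε₂ = -1) ∧ (ε₃ = 1 ∨ ε₃ = -1))
    (hval : (χ₁ : G → ℂ) J = ε₁ ∧ (χ₂ : G → ℂ) J = ε₂ ∧ (χ₃ : G → ℂ) J = ε₃) :
    (1 + ε₁ * (charDegree (χ₁ : G → ℂ) : ℤ) + ε₂ * (charDegree (χ₂ : G → ℂ) : ℤ) +
      ε₃ * (charDegree (χ₃ : G → ℂ) : ℤ) = 0) ∧
    ∃ n : ℕ, n * Nat.card (Subgroup.centralizer ((P : Subgroup G) : Set G)) =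
      Nat.card (Subgroup.centralizer ({J} : Set G)) ∧
      (Nat.card G : ℚ) * (1 + ε₁ / (charDegree (χ₁ : G → ℂ) : ℚ) +
        ε₂ / (charDegree (χ₂ : G → ℂ) : ℚ) + ε₃ / (charDegree (χ₃ : G → ℂ) : ℚ)) =
      8 * (Nat.card (Subgroup.centralizer ({J} : Set G)) : ℚ) * (n : ℚ) ^ 2 := by
  classical
  haveI : Fact (Nat.Prime 2) := ⟨Nat.prime_two⟩
  haveI := Fintype.ofFinite G
  haveI := Fintype.ofFinite (IrrCharacter G)
  obtain ⟨hv1, hv2, hv3⟩ := hval
  obtain ⟨he1, he2, he3⟩ := hε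
  constructor
  · have h1 := sum_principal_orth (p := 2) hM (g := J) (h := 1) (x := J) (y := 1)
      (isPPart_self' ⟨1, by rw [hJ2, pow_one]⟩) (isPPart_one (by rw [orderOf_one]; norm_num))
      (by
        intro h
        have h2 : J = 1 := by
          obtain ⟨c, hc⟩ := isConj_iff.1 h
          have : J = c⁻¹ * (c * J * c⁻¹) * c := by group
          rw [this, hc]; group
        rw [h2, orderOf_one] at hJ2
        exact absurd hJ2 (by norm_num))
    rw [sum_four hB hdist, hv1, hv2, hv3, oneIrr_apply, oneIrr_apply,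
      BlkC.charDegree_spec, BlkC.charDegree_spec, BlkC.charDegree_spec] at h1
    simp only [map_one, Complex.conj_natCast] at h1
    have h2 : ((1 + ε₁ * (charDegree (χ₁ : G → ℂ) : ℤ) + ε₂ * (charDegree (χ₂ : G → ℂ) : ℤ) +
      ε₃ * (charDegree (χ₃ : G → ℂ) : ℤ) : ℤ) : ℂ) = 0 := by
      push_cast
      rw [← h1]; ring
    exact_mod_cast h2
  · obtain ⟨n, hn, hform⟩ := four_formula hM hK hone hJ hJ2
    refine ⟨n, hn, ?_⟩
    rw [sum_four hB hdist, hv1, hv2, hv3, oneIrr_apply, oneIrr_apply,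
      BlkC.charDegree_spec, BlkC.charDegree_spec, BlkC.charDegree_spec] at hform
    have hsq : ∀ e : ℤ, (e = 1 ∨ e = -1) → (e : ℂ) * e * conj (e : ℂ) = (e : ℂ) := by
      rintro e (rfl | rfl) <;> norm_num
    rw [hsq _ he1, hsq _ he2, hsq _ he3] at hform
    have h2 : (((Nat.card G : ℚ) * (1 + ε₁ / (charDegree (χ₁ : G → ℂ) : ℚ) +
        ε₂ / (charDegree (χ₂ : G → ℂ) : ℚ) + ε₃ / (charDegree (χ₃ : G → ℂ) : ℚ)) : ℚ) : ℂ) =
        ((8 * (Nat.card (Subgroup.centralizer ({J} : Set G)) : ℚ) * (n : ℚ) ^ 2 : ℚ) : ℂ) := by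
      push_cast
      rw [← hform]
      simp
    exact_mod_cast h2

end Cfsg.Agent.H74
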