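import Mathlib

/-!
# Jordan sets of finite permutation groups: basic facts
-/

set_option autoImplicit false

namespace Cfsg.Agent.H74.Marg

open Equiv Finset
open scoped Pointwise

universe u

section

variable {α : Type u} [DecidableEq α]

theorem inv_ap (g : Perm α) (x : α) : g⁻¹ (g x) = x := g.symm_apply_apply x

theorem ap_inv (g : Perm α) (x : α) : g (g⁻¹ x) = x := g.apply_symm_apply x

theorem mem_sm {g : Perm α} {B : Finset α} {x : α} : x ∈ g • B ↔ g⁻¹ x ∈ B := by
  rw [← Finset.inv_smul_mem_iff]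
  rfl

theorem ap_mem {g : Perm α} {B : Finset α} {x : α} : g x ∈ g • B ↔ x ∈ B := by
  rw [mem_sm, inv_ap]

theorem card_sm (g : Perm α) (B : Finset α) : (g • B).card = B.card := Finset.card_smul_finset g B

theorem ap_mem' {g : Perm α} {B C : Finset α} (h : g • B = C) {x : α} (hx : x ∈ B) : g x ∈ C := by
  rw [← h]
  exact ap_mem.2 hx

variable [Fintype α]

theorem sm_compl (g : Perm α) (B : Finset α) : g • Bᶜ = (g • B)ᶜ := by
  ext x
  rw [mem_sm, mem_compl, mem_compl, mem_sm]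

end

section

variable {α : Type u} [Fintype α] [DecidableEq α] {G : Subgroup (Perm α)}

/-- Jordan sets. -/
def Jor (G : Subgroup (Perm α)) (Γ : Finset α) : Prop :=
  ∀ x ∈ Γ, ∀ y ∈ Γ, ∃ g ∈ G, g x = y ∧ ∀ z, z ∉ Γ → g z = z

/-- primitivity. -/
def Prim (G : Subgroup (Perm α)) : Prop :=
  (∀ x y, ∃ g ∈ G, g x = y) ∧
    ∀ B : Finset α, 1 < B.card → (∀ g ∈ G, g • B = B ∨ Disjoint (g • B) B) → B = univ

/-- double transitivity. -/
def Two (G : Subgroup (Perm α)) : Prop :=
  ∀ a b c d : α, a ≠ b → c ≠ d → ∃ g ∈ G, g a = c ∧ g b = d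

theorem Jor.smul {Γ : Finset α} (h : Jor G Γ) {g : Perm α} (hg : g ∈ G) : Jor G (g • Γ) := by
  intro x hx y hy
  rw [mem_sm] at hx hy
  obtain ⟨h, hh, h1, h2⟩ := h _ hx _ hy
  refine ⟨g * h * g⁻¹, G.mul_mem (G.mul_mem hg hh) (G.inv_mem hg), ?_, ?_⟩
  · rw [Perm.mul_apply, Perm.mul_apply, h1, ap_inv]
  · intro z hz
    rw [mem_sm] at hz
    rw [Perm.mul_apply, Perm.mul_apply, h2 _ hz, ap_inv]

theorem Jor.union {A B : Finset α} (hA : Jor G A) (hB : Jor G B) {c : α} (hcA : c ∈ A) (hcB : c ∈ B) :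
    Jor G (A ∪ B) := by
  have key : ∀ x ∈ A ∪ B, ∃ g ∈ G, g x = c ∧ ∀ z, z ∉ A ∪ B → g z = z := by
    intro x hx
    rcases mem_union.1 hx with hx | hx
    · obtain ⟨g, hg, h1, h2⟩ := hA x hx c hcA
      exact ⟨g, hg, h1, fun z hz => h2 z (fun h => hz (mem_union_left _ h))⟩
    · obtain ⟨g, hg, h1, h2⟩ := hB x hx c hcB
      exact ⟨g, hg, h1, fun z hz => h2 z (fun h => hz (mem_union_right _ h))⟩
  intro x hx y hy
  obtain ⟨g, hg, h1, h2⟩ := key x hx
  obtain ⟨k, hk, h3, h4⟩ := key y hy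
  refine ⟨k⁻¹ * g, G.mul_mem (G.inv_mem hk) hg, ?_, ?_⟩
  · rw [Perm.mul_apply, h1, ← h3, inv_ap]
  · intro z hz
    rw [Perm.mul_apply, h2 z hz, Perm.inv_eq_iff_eq, h4 z hz]

/-- non-blocks are moved to overlapping sets. -/
theorem Prim.exists_move (hG : Prim G) {B : Finset α} (h1 : 1 < B.card) (h2 : B.card < Fintype.card α) :
    ∃ g ∈ G, g • B ≠ B ∧ ∃ c, c ∈ g • B ∧ c ∈ B := by
  by_contra hc
  push Not at hc
  have := hG.2 B h1 (fun g hg => by
    by_cases h3 : g • B = B
    · exact Or.inl h3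
    · right
      rw [Finset.disjoint_left]
      exact fun c => hc g hg h3 c)
  rw [this, Finset.card_univ] at h2
  omega

/-- **Jordan**. -/
theorem Prim.jor_erase (hG : Prim G) {Γ : Finset α} (hJ : Jor G Γ) (h1 : 1 < Γ.card)
    (h2 : Γ.card < Fintype.card α) (a : α) : Jor G (univ.erase a) := by
  classical
  obtain ⟨U, hU, hmax⟩ := (univ.filter (fun U : Finset α => Jor G U ∧ 1 < U.card ∧ U.card < Fintype.card α)).exists_max_image
    (fun U => U.card) ⟨Γ, by simp only [mem_filter, mem_univ, true_and]; exact ⟨hJ, h1, h2⟩⟩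
  simp only [mem_filter, mem_univ, true_and] at hU hmax
  obtain ⟨hUJ, hU1, hU2⟩ := hU
  have hcc : Uᶜ.card = Fintype.card α - U.card := card_compl U
  have hUc : Uᶜ.card = 1 := by
    by_contra hne
    have hUc1 : 1 < Uᶜ.card := by omega
    obtain ⟨g, hg, hgU, ⟨c, hc1, hc2⟩, d, hd1, hd2⟩ : ∃ g ∈ G, g • U ≠ U ∧ (∃ c, c ∈ g • U ∧ c ∈ U) ∧
        ∃ d, d ∉ g • U ∧ d ∉ U := by
      by_cases h3 : 2 * U.card ≤ Fintype.card α
      · obtain ⟨g, hg, hgU, c, hc1, hc2⟩ := hG.exists_move hU1 hU2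
        refine ⟨g, hg, hgU, ⟨c, hc1, hc2⟩, ?_⟩
        by_contra hd
        push Not at hd
        have h4 : g • U ∪ U = univ := by
          ext d
          simp only [mem_union, mem_univ, iff_true]
          by_cases h : d ∈ g • U
          · exact Or.inl h
          · exact Or.inr (hd d h)
        have h5 := Finset.card_union_add_card_inter (g • U) U
        have h6 : 0 < (g • U ∩ U).card := Finset.card_pos.2 ⟨c, mem_inter.2 ⟨hc1, hc2⟩⟩
        rw [h4, Finset.card_univ, card_sm] at h5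
        omega
      · obtain ⟨g, hg, hgU, d, hd1, hd2⟩ := hG.exists_move hUc1 (by omega)
        rw [sm_compl, mem_compl] at hd1
        rw [mem_compl] at hd2
        refine ⟨g, hg, fun h => hgU (by rw [sm_compl, h]), ?_, d, hd1, hd2⟩
        by_contra hc
        push Not at hc
        have h4 : Disjoint (g • U) U := Finset.disjoint_left.2 hc
        have h5 := Finset.card_union_of_disjoint h4
        have h6 := Finset.card_le_univ (g • U ∪ U)
        rw [card_sm] at h5
        omega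
    have h4 := hmax (g • U ∪ U) ⟨(hUJ.smul hg).union hUJ hc1 hc2, ?_, ?_⟩
    · apply hgU
      have h5 : U = g • U ∪ U := Finset.eq_of_subset_of_card_le subset_union_right h4
      apply Finset.eq_of_subset_of_card_le
      · intro x hx
        rw [h5]
        exact mem_union_left _ hx
      · rw [card_sm]
    · exact lt_of_lt_of_le hU1 (Finset.card_le_card subset_union_right)
    · rw [← Finset.card_univ]
      apply Finset.card_lt_card
      rw [Finset.ssubset_univ_iff]
      intro h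
      have : d ∈ g • U ∪ U := by rw [h]; exact mem_univ d
      rcases mem_union.1 this with h | h
      · exact hd1 h
      · exact hd2 h
  obtain ⟨b, hb⟩ := Finset.card_eq_one.1 hUc
  obtain ⟨g, hg, hgb⟩ := hG.1 b a
  have h3 : g • U = univ.erase a := by
    have h4 : U = {b}ᶜ := by rw [← hb, compl_compl]
    ext x
    rw [mem_sm, h4, mem_compl, mem_singleton, mem_erase, Perm.inv_eq_iff_eq, hgb]
    simp
  rw [← h3]
  exact hUJ.smul hg

theorem Prim.two (hG : Prim G) {Γ : Finset α} (hJ : Jor G Γ) (h1 : 1 < Γ.card)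
    (h2 : Γ.card < Fintype.card α) : Two G := by
  intro a b c d hab hcd
  obtain ⟨g, hg, hga⟩ := hG.1 a c
  obtain ⟨h, hh, h3, h4⟩ := hG.jor_erase hJ h1 h2 c (g b) (by
    rw [mem_erase]
    refine ⟨fun h => hab ?_, mem_univ _⟩
    exact g.injective (hga.trans h.symm)) d (mem_erase.2 ⟨hcd.symm, mem_univ _⟩)
  refine ⟨h * g, G.mul_mem hh hg, ?_, ?_⟩
  · rw [Perm.mul_apply, hga]
    exact h4 c (by simp)
  · rw [Perm.mul_apply, h3]

theorem Two.prim (hG : Two G) (hn : 1 < Fintype.card α) : Prim G := by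
  refine ⟨?_, ?_⟩
  · intro x y
    have : Nontrivial α := Fintype.one_lt_card_iff_nontrivial.1 hn
    obtain ⟨x', hx'⟩ := exists_ne x
    obtain ⟨y', hy'⟩ := exists_ne y
    obtain ⟨g, hg, h1, -⟩ := hG x x' y y' hx'.symm hy'.symm
    exact ⟨g, hg, h1⟩
  · intro B hB h
    obtain ⟨a, ha, b, hb, hab⟩ := Finset.one_lt_card.1 hB
    ext y
    simp only [mem_univ, iff_true]
    by_contra hy
    have hya : a ≠ y := fun h => hy (h ▸ ha)
    obtain ⟨g, hg, h1, h2⟩ := hG a b a y hab hya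
    rcases h g hg with h3 | h3
    · apply hy
      rw [← h3, ← h2]
      exact ap_mem.2 hb
    · exact Finset.disjoint_left.1 h3 (by rw [← h1]; exact ap_mem.2 ha) ha

end

end Cfsg.Agent.H74.Marg
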