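import Mathlib
import Cfsg.Agent.H74.Marg1

/-!
# Jordan sets of size less than half: the point stabilizer is primitive
-/

set_option autoImplicit false

namespace Cfsg.Agent.H74.Marg

open Equiv Finset
open scoped Pointwise

universe u

variable {α : Type u} [Fintype α] [DecidableEq α] {G : Subgroup (Perm α)}

theorem stab_block (h2 : Two G) {Γ : Finset α} (hJ : Jor G Γ) (h1 : 1 < Γ.card)
    (hn : 2 * Γ.card < Fintype.card α) {a : α} {B : Finset α} (haB : a ∉ B) (hB1 : 1 < B.card)
    (hblk : ∀ g ∈ G, g a = a → g • B = B ∨ Disjoint (g • B) B) : B = univ.erase a := by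
  classical
  by_contra hBne
  obtain ⟨b1, hb1a, hb1⟩ : ∃ b, b ≠ a ∧ b ∉ B := by
    by_contra hc
    push Not at hc
    apply hBne
    ext x
    rw [mem_erase]
    exact ⟨fun h => ⟨fun h' => haB (h' ▸ h), mem_univ _⟩, fun h => hc x h.1⟩
  obtain ⟨b0, hb0⟩ : B.Nonempty := Finset.card_pos.1 (by omega)
  have hab0 : a ≠ b0 := fun h => haB (h ▸ hb0)
  set R : α → α → α → Prop := fun a' b c => ∃ g ∈ G, g a = a' ∧ b ∈ g • B ∧ c ∈ g • B with hR
  have R1 : ∀ a' b, a' ≠ b → ∃ g ∈ G, g a = a' ∧ b ∈ g • B := by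
    intro a' b hab
    obtain ⟨g, hg, h3, h4⟩ := h2 a b0 a' b hab0 hab
    exact ⟨g, hg, h3, by rw [← h4]; exact ap_mem.2 hb0⟩
  have R2 : ∀ g ∈ G, ∀ g' ∈ G, g a = g' a → ∀ b, b ∈ g • B → b ∈ g' • B → g • B = g' • B := by
    intro g hg g' hg' hgg b hb hb'
    have h3 : (g⁻¹ * g') a = a := by rw [Perm.mul_apply, ← hgg, inv_ap]
    rcases hblk _ (G.mul_mem (G.inv_mem hg) hg') h3 with h4 | h4
    · calc g • B = g • ((g⁻¹ * g') • B) := by rw [h4]
        _ = g' • B := by rw [smul_smul, mul_inv_cancel_left]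
    · exfalso
      refine Finset.disjoint_left.1 h4 (?_ : g⁻¹ b ∈ _) (mem_sm.1 hb)
      rw [mem_sm, mul_inv_rev, inv_inv, Perm.mul_apply, ap_inv]
      exact mem_sm.1 hb'
  have R3 : ∀ g ∈ G, ∀ b, b ∈ g • B → ∀ c, R (g a) b c ↔ c ∈ g • B := by
    intro g hg b hb c
    constructor
    · rintro ⟨g', hg', h3, h4, h5⟩
      rwa [R2 g hg g' hg' h3.symm b hb h4]
    · intro hc
      exact ⟨g, hg, rfl, hb, hc⟩
  have Rself : ∀ b c, ¬ R b b c := by
    rintro b c ⟨g, hg, h3, h4, -⟩
    apply haB
    rw [← h3] at h4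
    exact ap_mem.1 h4
  have R4 : ∀ b c b' c', b ≠ c → b' ≠ c' →
      (univ.filter (fun a' => R a' b c)).card = (univ.filter (fun a' => R a' b' c')).card := by
    intro b c b' c' hbc hbc'
    obtain ⟨h, hh, h3, h4⟩ := h2 b c b' c' hbc hbc'
    apply Finset.card_bij' (fun x _ => h x) (fun x _ => h⁻¹ x)
    · intro x hx
      rw [mem_filter] at hx ⊢
      obtain ⟨-, g, hg, h5, h6, h7⟩ := hx
      refine ⟨mem_univ _, h * g, G.mul_mem hh hg, by rw [Perm.mul_apply, h5], ?_, ?_⟩
      · rw [← h3, mul_smul]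
        exact ap_mem.2 h6
      · rw [← h4, mul_smul]
        exact ap_mem.2 h7
    · intro x hx
      rw [mem_filter] at hx ⊢
      obtain ⟨-, g, hg, h5, h6, h7⟩ := hx
      refine ⟨mem_univ _, h⁻¹ * g, G.mul_mem (G.inv_mem hh) hg, by rw [Perm.mul_apply, h5], ?_, ?_⟩
      · rw [mul_smul, mem_sm, inv_inv, h3]
        exact h6
      · rw [mul_smul, mem_sm, inv_inv, h4]
        exact h7
    · intro x _
      exact inv_ap h x
    · intro x _
      exact ap_inv h x
  obtain ⟨k, hk⟩ : ∃ k, k + 1 = B.card := ⟨B.card - 1, by omega⟩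
  have hcB : ∀ g : Perm α, ∀ b, b ∈ g • B → ((g • B).erase b).card = k := by
    intro g b hb
    rw [card_erase_of_mem hb, card_sm, ← hk]
    omega
  obtain ⟨b, hb, c0, hc0, hbc0⟩ := Finset.one_lt_card.1 h1
  obtain ⟨l, hl⟩ : ∃ l, l = (univ.filter (fun a' => R a' b c0)).card := ⟨_, rfl⟩
  have hlam : ∀ c, c ≠ b → (univ.filter (fun a' => R a' b c)).card = l := by
    intro c hc
    rw [hl]
    exact R4 b c b c0 hc.symm hbc0
  have hcount : ∀ a', a' ≠ b → ((univ.erase b).filter (fun c => R a' b c)).card = k := by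
    intro a' ha'
    obtain ⟨g, hg, h3, h4⟩ := R1 a' b ha'
    rw [← hcB g b h4]
    congr 1
    ext c
    rw [mem_filter, mem_erase, mem_erase, ← h3, R3 g hg b h4 c]
    simp
  have hl2 : l = k := by
    have h3 := Finset.sum_card_bipartiteAbove_eq_sum_card_bipartiteBelow (r := fun (a' c : α) => R a' b c)
      (s := univ.erase b) (t := univ.erase b)
    have h4 : ∀ a' ∈ univ.erase b, (Finset.bipartiteAbove (fun (a' c : α) => R a' b c) (univ.erase b) a').card = k := by
      intro a' ha'
      exact hcount a' (mem_erase.1 ha').1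
    have h5 : ∀ c ∈ univ.erase b, (Finset.bipartiteBelow (fun (a' c : α) => R a' b c) (univ.erase b) c).card = l := by
      intro c hc
      rw [← hlam c (mem_erase.1 hc).1]
      congr 1
      ext x
      rw [mem_bipartiteBelow, mem_filter, mem_erase]
      constructor
      · intro h
        exact ⟨mem_univ _, h.2⟩
      · intro h
        refine ⟨⟨?_, mem_univ _⟩, h.2⟩
        rintro rfl
        exact Rself _ _ h.2
    rw [Finset.sum_congr rfl h4, Finset.sum_congr rfl h5, Finset.sum_const, Finset.sum_const, smul_eq_mul,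
      smul_eq_mul, card_erase_of_mem (mem_univ b), Finset.card_univ] at h3
    exact (Nat.eq_of_mul_eq_mul_left (by omega) h3).symm
  -- the blocks through `b` seen from outside `Γ`
  have hout : ∀ a' ∉ Γ, ∀ g ∈ G, g a = a' → b ∈ g • B → ¬ g • B ⊆ Γ → Γ ⊆ g • B := by
    intro a' ha' g hg h3 h4 h5 x hx
    obtain ⟨z, hz, hzΓ⟩ := Finset.not_subset.1 h5
    obtain ⟨h, hh, h6, h7⟩ := hJ b hb x hx
    have h8 : (h * g) • B = g • B := by
      apply R2 _ (G.mul_mem hh hg) _ hg (b := z)
      · rw [Perm.mul_apply, h3, h7 _ ha']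
      · rw [mul_smul]
        have := ap_mem (g := h) (B := g • B) (x := z)
        rw [h7 z hzΓ] at this
        exact this.2 hz
      · exact hz
    rw [← h8, mul_smul, ← h6]
    exact ap_mem.2 h4
  have hcompl : (univ \ Γ).card = Fintype.card α - Γ.card := by
    rw [Finset.card_sdiff_of_subset (Finset.subset_univ _), Finset.card_univ]
  by_cases hkm : Γ.card < B.card
  · -- large blocks
    have h3 : Fintype.card α - Γ.card ≤ l := by
      rw [hl, ← hcompl]
      apply Finset.card_le_card
      intro a' ha'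
      rw [mem_sdiff] at ha'
      have hne : a' ≠ b := fun h => ha'.2 (h ▸ hb)
      obtain ⟨g, hg, h3, h4⟩ := R1 a' b hne
      have h5 : ¬ g • B ⊆ Γ := by
        intro h
        have := Finset.card_le_card h
        rw [card_sm] at this
        omega
      rw [mem_filter, ← h3, R3 g hg b h4]
      exact ⟨mem_univ _, hout a' ha'.2 g hg h3 h4 h5 hc0⟩
    obtain ⟨g, hg, h4, h5⟩ := R1 a b1 hb1a.symm
    rcases hblk g hg h4 with h6 | h6
    · exact hb1 (h6 ▸ h5)
    · have h7 := Finset.card_union_of_disjoint h6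
      have h8 : g • B ∪ B ⊆ univ.erase a := by
        intro x hx
        rw [mem_erase]
        refine ⟨?_, mem_univ _⟩
        rintro rfl
        rcases mem_union.1 hx with h | h
        · rw [← h4] at h
          exact haB (ap_mem.1 h)
        · exact haB h
      have h9 := Finset.card_le_card h8
      rw [card_erase_of_mem (mem_univ a), Finset.card_univ, h7, card_sm] at h9
      omega
  · -- small blocks
    have h3 := Finset.sum_card_bipartiteAbove_eq_sum_card_bipartiteBelow (r := fun (a' c : α) => R a' b c)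
      (s := univ \ Γ) (t := Γ.erase b)
    have h4 : ∀ a' ∈ univ \ Γ, (Finset.bipartiteAbove (fun (a' c : α) => R a' b c) (Γ.erase b) a').card = k := by
      intro a' ha'
      rw [mem_sdiff] at ha'
      have hne : a' ≠ b := fun h => ha'.2 (h ▸ hb)
      obtain ⟨g, hg, h3, h4⟩ := R1 a' b hne
      have h5 : g • B ⊆ Γ := by
        by_contra h5
        have h6 := hout a' ha'.2 g hg h3 h4 h5
        have h7 : Γ = g • B := Finset.eq_of_subset_of_card_le h6 (by rw [card_sm]; omega)
        exact h5 h7.symm.subset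
      rw [← hcB g b h4]
      congr 1
      ext c
      rw [mem_bipartiteAbove, mem_erase, mem_erase, ← h3, R3 g hg b h4 c]
      constructor
      · intro h
        exact ⟨h.1.1, h.2⟩
      · intro h
        exact ⟨⟨h.1, h5 h.2⟩, h.2⟩
    have h5 : ∑ c ∈ Γ.erase b, (Finset.bipartiteBelow (fun (a' c : α) => R a' b c) (univ \ Γ) c).card ≤
        ∑ c ∈ Γ.erase b, l := by
      apply Finset.sum_le_sum
      intro c hc
      rw [← hlam c (mem_erase.1 hc).1]
      apply Finset.card_le_card
      intro x hx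
      rw [mem_bipartiteBelow] at hx
      rw [mem_filter]
      exact ⟨mem_univ _, hx.2⟩
    rw [← h3, Finset.sum_congr rfl h4, Finset.sum_const, Finset.sum_const, smul_eq_mul, smul_eq_mul, hcompl,
      card_erase_of_mem hb, hl2] at h5
    have h6 : 0 < k := by omega
    have := Nat.le_of_mul_le_mul_right h5 h6
    omega

end Cfsg.Agent.H74.Marg
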