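import Mathlib
import Cfsg.Agent.H74.Marg2

/-!
# Restriction to invariant subsets; three-cycles
-/

set_option autoImplicit false

namespace Cfsg.Agent.H74.Marg

open Equiv Finset
open scoped Pointwise

universe u

section

variable {α : Type u} [DecidableEq α]

/-- the group induced on `S` by its stabilizer. -/
def res (G : Subgroup (Perm α)) (S : Finset α) : Subgroup (Perm S) where
  carrier := {σ | ∃ g ∈ G, ∀ x : S, g x = σ x}
  one_mem' := ⟨1, G.one_mem, fun _ => rfl⟩
  mul_mem' := by
    rintro σ τ ⟨g, hg, h1⟩ ⟨h, hh, h2⟩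
    refine ⟨g * h, G.mul_mem hg hh, fun x => ?_⟩
    rw [Perm.mul_apply, h2, h1, Perm.mul_apply]
  inv_mem' := by
    rintro σ ⟨g, hg, h1⟩
    refine ⟨g⁻¹, G.inv_mem hg, fun x => ?_⟩
    rw [Perm.inv_eq_iff_eq, h1, ap_inv]

theorem mem_res {G : Subgroup (Perm α)} {S : Finset α} {σ : Perm S} :
    σ ∈ res G S ↔ ∃ g ∈ G, ∀ x : S, g x = σ x := Iff.rfl

theorem exists_res {G : Subgroup (Perm α)} {S : Finset α} {g : Perm α} (hg : g ∈ G) (hS : g • S = S) :
    ∃ σ ∈ res G S, ∀ x : S, (σ x : α) = g x := by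
  refine ⟨Perm.subtypePerm g (fun x => ?_), ⟨g, hg, fun x => rfl⟩, fun x => rfl⟩
  conv_lhs => rw [← hS]
  exact ap_mem

theorem smul_of_res {S : Finset α} {g : Perm α} {σ : Perm S} (h : ∀ x : S, g x = σ x) : g • S = S := by
  ext x
  rw [mem_sm]
  constructor
  · intro hx
    have := h ⟨_, hx⟩
    rw [ap_inv] at this
    rw [this]
    exact (σ _).2
  · intro hx
    have h1 := h (σ⁻¹ ⟨x, hx⟩)
    rw [ap_inv] at h1
    have h2 : g⁻¹ x = (σ⁻¹ ⟨x, hx⟩ : S) := by
      rw [Perm.inv_eq_iff_eq, h1]
    rw [h2]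
    exact (σ⁻¹ _).2

theorem jor_res {G : Subgroup (Perm α)} {S D : Finset α}
    (h : ∀ x ∈ D, ∀ y ∈ D, ∃ g ∈ G, g • S = S ∧ g x = y ∧ ∀ z ∈ S, z ∉ D → g z = z) :
    Jor (res G S) (D.subtype (· ∈ S)) := by
  intro x hx y hy
  rw [mem_subtype] at hx hy
  obtain ⟨g, hg, h1, h2, h3⟩ := h x hx y hy
  obtain ⟨σ, hσ, h4⟩ := exists_res hg h1
  refine ⟨σ, hσ, ?_, ?_⟩
  · apply Subtype.ext
    rw [h4, h2]
  · intro z hz
    rw [mem_subtype] at hz
    apply Subtype.ext
    rw [h4, h3 z z.2 hz]

theorem two_res {G : Subgroup (Perm α)} {S : Finset α}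
    (h : ∀ a ∈ S, ∀ b ∈ S, ∀ c ∈ S, ∀ d ∈ S, a ≠ b → c ≠ d → ∃ g ∈ G, g • S = S ∧ g a = c ∧ g b = d) :
    Two (res G S) := by
  intro a b c d hab hcd
  obtain ⟨g, hg, h1, h2, h3⟩ := h a a.2 b b.2 c c.2 d d.2 (fun h => hab (Subtype.ext h))
    (fun h => hcd (Subtype.ext h))
  obtain ⟨σ, hσ, h4⟩ := exists_res hg h1
  exact ⟨σ, hσ, Subtype.ext (by rw [h4, h2]), Subtype.ext (by rw [h4, h3])⟩

theorem card_sub {S D : Finset α} (h : D ⊆ S) : (D.subtype (· ∈ S)).card = D.card := by
  rw [card_subtype, Finset.filter_true_of_mem (fun x hx => h hx)]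

end

section

variable {α : Type u} [Fintype α] [DecidableEq α] {G : Subgroup (Perm α)}

theorem Prim.isPreprimitive (hG : Prim G) : MulAction.IsPreprimitive G α := by
  classical
  have h1 : MulAction.IsPretransitive G α := by
    constructor
    intro x y
    obtain ⟨g, hg, h⟩ := hG.1 x y
    exact ⟨⟨g, hg⟩, h⟩
  refine { isTrivialBlock_of_isBlock := ?_ }
  intro B hB
  by_cases hs : B.Subsingleton
  · exact Or.inl hs
  · right
    have h2 : B.toFinset = univ := by
      apply hG.2
      · rw [Finset.one_lt_card]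
        rw [Set.not_subsingleton_iff] at hs
        obtain ⟨a, ha, b, hb, hab⟩ := hs
        exact ⟨a, by simpa using ha, b, by simpa using hb, hab⟩
      · intro g hg
        rcases MulAction.isBlock_iff_smul_eq_or_disjoint.1 hB ⟨g, hg⟩ with h3 | h3
        · left
          ext x
          rw [mem_sm, Set.mem_toFinset, Set.mem_toFinset]
          conv_rhs => rw [← h3]
          rw [Set.mem_smul_set_iff_inv_smul_mem]
          rfl
        · right
          rw [Finset.disjoint_left]
          intro x hx hx'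
          rw [mem_sm, Set.mem_toFinset] at hx
          rw [Set.mem_toFinset] at hx'
          refine Set.disjoint_left.1 h3 ?_ hx'
          rw [Set.mem_smul_set_iff_inv_smul_mem]
          exact hx
    ext x
    have := h2 ▸ Finset.mem_univ x
    simpa using this

theorem Prim.of_isPreprimitive (hG : MulAction.IsPreprimitive G α) : Prim G := by
  classical
  refine ⟨?_, ?_⟩
  · intro x y
    obtain ⟨g, hg⟩ := MulAction.exists_smul_eq G x y
    exact ⟨g, g.2, hg⟩
  · intro B hB h
    have h1 : MulAction.IsBlock G (B : Set α) := by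
      rw [MulAction.isBlock_iff_smul_eq_or_disjoint]
      intro g
      rcases h g g.2 with h2 | h2
      · left
        have h3 : ((g : Perm α) • B : Set α) = B := by
          rw [← Finset.coe_smul_finset, h2]
        exact h3
      · right
        have h3 : Disjoint ((g : Perm α) • (B : Set α)) (B : Set α) := by
          rw [← Finset.coe_smul_finset, Finset.disjoint_coe]
          exact h2
        exact h3
    rcases MulAction.IsPreprimitive.isTrivialBlock_of_isBlock h1 with h2 | h2
    · exfalso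
      obtain ⟨a, ha, b, hb, hab⟩ := Finset.one_lt_card.1 hB
      exact hab (h2 ha hb)
    · exact_mod_cast h2

theorem Prim.alt_of_threeCycle (hG : Prim G) {g : Perm α} (hg : g ∈ G) (h3 : g.IsThreeCycle) :
    alternatingGroup α ≤ G :=
  Equiv.Perm.alternatingGroup_le_of_isPreprimitive_of_isThreeCycle_mem hG.isPreprimitive h3 hg

/-- permutations whose supports meet in one point. -/
theorem threeCycle_of_inter {a b : Perm α} {p : α} (hap : a p ≠ p) (hbp : b p ≠ p)
    (h : ∀ z, a z ≠ z → b z ≠ z → z = p) : (a * b * a⁻¹ * b⁻¹).IsThreeCycle := by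
  have ha : ∀ z, b z ≠ z → z ≠ p → a z = z := fun z h1 h2 => by
    by_contra h3
    exact h2 (h z h3 h1)
  have hb : ∀ z, a z ≠ z → z ≠ p → b z = z := fun z h1 h2 => by
    by_contra h3
    exact h2 (h z h1 h3)
  have hai : ∀ z, a z = z → a⁻¹ z = z := fun z h => by rw [Perm.inv_eq_iff_eq, h]
  have hbi : ∀ z, b z = z → b⁻¹ z = z := fun z h => by rw [Perm.inv_eq_iff_eq, h]
  have hapb : b (a p) = a p := hb _ (fun h => hap (a.injective h)) hap
  have hbpa : a (b p) = b p := ha _ (fun h => hbp (b.injective h)) hbp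
  have hne : b p ≠ a p := by
    intro h1
    rw [h1] at hbpa
    exact hap (a.injective hbpa)
  have key : a * b * a⁻¹ * b⁻¹ = swap p (b p) * swap p (a p) := by
    ext z
    rw [Perm.mul_apply, Perm.mul_apply, Perm.mul_apply, Perm.mul_apply]
    by_cases hzp : z = p
    · subst hzp
      rw [swap_apply_left, swap_apply_of_ne_of_ne hap hne.symm]
      have h1 : b (b⁻¹ z) ≠ b⁻¹ z := by
        rw [ap_inv]
        intro h1
        apply hbp
        conv_lhs => rw [h1]
        rw [ap_inv]
      have h2 : b⁻¹ z ≠ z := fun h2 => hbp (by conv_lhs => rw [← h2]; rw [ap_inv])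
      rw [hai _ (ha _ h1 h2), ap_inv]
    by_cases hza : z = a p
    · subst hza
      rw [swap_apply_right, swap_apply_left, hbi _ hapb, inv_ap, hbpa]
    by_cases hzb : z = b p
    · subst hzb
      rw [swap_apply_of_ne_of_ne hbp hne, swap_apply_right, inv_ap]
      have h1 : a (a⁻¹ p) ≠ a⁻¹ p := by
        rw [ap_inv]
        intro h1
        apply hap
        conv_lhs => rw [h1]
        rw [ap_inv]
      have h2 : a⁻¹ p ≠ p := fun h2 => hap (by conv_lhs => rw [← h2]; rw [ap_inv])
      rw [hb _ h1 h2, ap_inv]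
    rw [swap_apply_of_ne_of_ne hzp hza, swap_apply_of_ne_of_ne hzp hzb]
    by_cases h1 : b z = z
    · rw [hbi z h1]
      by_cases h2 : a z = z
      · rw [hai z h2, h1, h2]
      · have h3 : a (a⁻¹ z) ≠ a⁻¹ z := by
          rw [ap_inv]
          intro h3
          apply h2
          conv_lhs => rw [h3]
          rw [ap_inv]
        have h4 : a⁻¹ z ≠ p := fun h4 => hza (by rw [← h4, ap_inv])
        rw [hb _ h3 h4, ap_inv]
    · have h3 : b (b⁻¹ z) ≠ b⁻¹ z := by
        rw [ap_inv]
        intro h3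
        apply h1
        conv_lhs => rw [h3]
        rw [ap_inv]
      have h4 : b⁻¹ z ≠ p := fun h4 => hzb (by rw [← h4, ap_inv])
      rw [hai _ (ha _ h3 h4), ap_inv, ha z h1 hzp]
  rw [key]
  exact Perm.isThreeCycle_swap_mul_swap_same hbp.symm hap.symm hne

/-- the point stabilizer is primitive. -/
theorem prim_res_erase (hG : Prim G) {Γ : Finset α} (hJ : Jor G Γ) (h1 : 1 < Γ.card)
    (hn : 2 * Γ.card < Fintype.card α) (a : α) : Prim (res G (univ.erase a)) := by
  classical
  have h2 := hG.two hJ h1 (by omega)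
  have herase := hG.jor_erase hJ h1 (by omega) a
  have hfix : ∀ g : Perm α, g a = a → g • (univ.erase a) = univ.erase a := by
    intro g hg
    ext x
    rw [mem_sm, mem_erase, mem_erase, ne_eq, Perm.inv_eq_iff_eq, hg]
    simp
  refine ⟨?_, ?_⟩
  · intro x y
    obtain ⟨g, hg, h3, h4⟩ := herase x x.2 y y.2
    obtain ⟨σ, hσ, h5⟩ := exists_res hg (hfix g (h4 a (by simp)))
    exact ⟨σ, hσ, Subtype.ext (by rw [h5, h3])⟩
  · intro B hB hblk
    set B' : Finset α := B.map (Function.Embedding.subtype _) with hB'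
    have hmem : ∀ x : α, x ∈ B' ↔ ∃ h : x ∈ univ.erase a, (⟨x, h⟩ : {x // x ∈ univ.erase a}) ∈ B := by
      intro x
      rw [hB', mem_map]
      constructor
      · rintro ⟨y, hy, rfl⟩
        exact ⟨y.2, hy⟩
      · rintro ⟨h, hx⟩
        exact ⟨_, hx, rfl⟩
    have h3 : B' = univ.erase a := by
      apply stab_block h2 hJ h1 hn
      · intro h
        obtain ⟨h', -⟩ := (hmem a).1 h
        simp at h'
      · rw [hB', card_map]
        exact hB
      · intro g hg hga
        obtain ⟨σ, hσ, h5⟩ := exists_res hg (hfix g hga)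
        have h6 : g • B' = (σ • B).map (Function.Embedding.subtype _) := by
          ext x
          rw [mem_sm, hmem, mem_map]
          constructor
          · rintro ⟨h, hx⟩
            refine ⟨σ ⟨_, h⟩, ap_mem.2 hx, ?_⟩
            change ((σ ⟨_, h⟩ : {x // x ∈ univ.erase a}) : α) = x
            rw [h5, ap_inv]
          · rintro ⟨y, hy, rfl⟩
            rw [mem_sm] at hy
            have h7 : (g⁻¹ (y : α)) = (σ⁻¹ y : {x // x ∈ univ.erase a}) := by
              rw [Perm.inv_eq_iff_eq, ← h5, ap_inv]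
            have h8 : g⁻¹ (y : α) ∈ univ.erase a := by
              rw [h7]
              exact (σ⁻¹ y).2
            refine ⟨h8, ?_⟩
            have h9 : (⟨g⁻¹ (y : α), h8⟩ : {x // x ∈ univ.erase a}) = σ⁻¹ y := Subtype.ext h7
            exact h9 ▸ hy
        rcases hblk σ hσ with h7 | h7
        · left
          rw [h6, h7]
        · right
          rw [h6, hB', Finset.disjoint_map]
          exact h7
    ext x
    simp only [mem_univ, iff_true]
    have h4 : (x : α) ∈ B' := by
      rw [h3]
      exact x.2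
    obtain ⟨_, h5⟩ := (hmem x).1 h4
    exact h5

end

end Cfsg.Agent.H74.Marg
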