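import Mathlib
import Cfsg.Agent.H74.Marg3

/-!
# Jordan sets of size less than half: the extremal case
-/

set_option autoImplicit false

namespace Cfsg.Agent.H74.Marg

open Equiv Finset
open scoped Pointwise

universe u

variable {α : Type u} [Fintype α] [DecidableEq α] {G : Subgroup (Perm α)}

theorem smul_eq_of_fix {k : Perm α} {U : Finset α} (h : ∀ z, z ∉ U → k z = z) : k • U = U := by
  ext x
  rw [mem_sm]
  constructor
  · intro hx
    by_contra h1
    have h2 : k⁻¹ x = x := by rw [Perm.inv_eq_iff_eq, h x h1]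
    rw [h2] at hx
    exact h1 hx
  · intro hx
    by_contra h1
    have h2 := h _ h1
    rw [ap_inv] at h2
    rw [← h2] at h1
    exact h1 hx

/-- overlapping Jordan sets of the same size are conjugate. -/
theorem conj_of_inter {A B : Finset α} (hA : Jor G A) (hB : Jor G B) (hcard : A.card = B.card) {c : α}
    (hcA : c ∈ A) (hcB : c ∈ B) : ∃ k ∈ G, k • A = B ∧ ∀ z, z ∉ A ∪ B → k z = z := by
  classical
  obtain ⟨k, hk, hmax⟩ := (univ.filter (fun k : Perm α => k ∈ G ∧ ∀ z, z ∉ A ∪ B → k z = z)).exists_max_image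
    (fun k => (k • A ∩ B).card) ⟨1, by
      simp only [mem_filter, mem_univ, true_and]
      exact ⟨G.one_mem, fun z _ => rfl⟩⟩
  simp only [mem_filter, mem_univ, true_and] at hk hmax
  obtain ⟨hkG, hkfix⟩ := hk
  refine ⟨k, hkG, ?_, hkfix⟩
  by_contra hne
  have hkU := smul_eq_of_fix hkfix
  have hsub : k • A ⊆ A ∪ B := by
    rw [← hkU]
    exact Finset.smul_finset_subset_smul_finset subset_union_left
  obtain ⟨c', hc'⟩ : (k • A ∩ B).Nonempty := by
    rw [← Finset.card_pos]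
    have := hmax 1 ⟨G.one_mem, fun z _ => rfl⟩
    rw [one_smul] at this
    have h2 : 0 < (A ∩ B).card := Finset.card_pos.2 ⟨c, mem_inter.2 ⟨hcA, hcB⟩⟩
    omega
  rw [mem_inter] at hc'
  have hU : Jor G (k • A ∪ B) := (hA.smul hkG).union hB hc'.1 hc'.2
  obtain ⟨w, hwB, hwA⟩ : ∃ w ∈ B, w ∉ k • A := by
    by_contra h
    push Not at h
    exact hne (Finset.eq_of_subset_of_card_le h (by rw [card_sm, hcard])).symm
  obtain ⟨v, hvA, hvB⟩ : ∃ v ∈ k • A, v ∉ B := by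
    by_contra h
    push Not at h
    exact hne (Finset.eq_of_subset_of_card_le h (by rw [card_sm, hcard]))
  obtain ⟨k', hk', h1, h2⟩ := hU w (mem_union_right _ hwB) v (mem_union_left _ hvA)
  have hk'U := smul_eq_of_fix h2
  have h3 := hmax (k' * k) ⟨G.mul_mem hk' hkG, fun z hz => by
    rw [Perm.mul_apply, hkfix z hz]
    apply h2
    intro h
    rcases mem_union.1 h with h | h
    · exact hz (hsub h)
    · exact hz (mem_union_right _ h)⟩
  have h4 : (B \ (k' • k • A)).card ≤ ((B \ (k • A)).erase w).card := by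
    apply Finset.card_le_card_of_injOn (fun x => k'⁻¹ x)
    · intro x hx
      rw [mem_coe, mem_sdiff, mem_sm (g := k')] at hx
      rw [mem_coe, mem_erase, mem_sdiff]
      refine ⟨?_, ?_, hx.2⟩
      · intro h
        rw [Perm.inv_eq_iff_eq, h1] at h
        exact hvB (h ▸ hx.1)
      · have h5 : k'⁻¹ x ∈ k • A ∪ B := by
          rw [← mem_sm, hk'U]
          exact mem_union_right _ hx.1
        exact (mem_union.1 h5).resolve_left hx.2
    · intro x _ y _ h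
      exact k'⁻¹.injective h
  rw [card_erase_of_mem (mem_sdiff.2 ⟨hwB, hwA⟩)] at h4
  have h5 : 0 < (B \ (k • A)).card := Finset.card_pos.2 ⟨w, mem_sdiff.2 ⟨hwB, hwA⟩⟩
  have h6 := Finset.card_sdiff_add_card_inter B (k • A)
  have h7 := Finset.card_sdiff_add_card_inter B (k' • k • A)
  rw [mul_smul, inter_comm, inter_comm (k • A)] at h3
  omega

theorem exists_inter {A B : Finset α} {c d : α} (hcd : c ≠ d) (hcA : c ∉ A) (hdA : d ∉ A) (hcB : c ∉ B)
    (hdB : d ∉ B) (hn : Fintype.card α + 1 ≤ A.card + B.card + 2) : ∃ x, x ∈ A ∧ x ∈ B := by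
  by_contra h
  push Not at h
  have h1 : Disjoint A B := Finset.disjoint_left.2 h
  have h2 := Finset.card_union_of_disjoint h1
  have h3 : A ∪ B ⊆ (univ.erase c).erase d := by
    intro x hx
    rw [mem_erase, mem_erase]
    refine ⟨?_, ?_, mem_univ _⟩
    · rintro rfl
      rcases mem_union.1 hx with h | h
      · exact hdA h
      · exact hdB h
    · rintro rfl
      rcases mem_union.1 hx with h | h
      · exact hcA h
      · exact hcB h
  have h4 := Finset.card_le_card h3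
  have h5 : 1 < Fintype.card α := Fintype.one_lt_card_iff.2 ⟨c, d, hcd⟩
  rw [card_erase_of_mem (mem_erase.2 ⟨hcd.symm, mem_univ _⟩), card_erase_of_mem (mem_univ _), Finset.card_univ] at h4
  omega

theorem two_compl (h2 : Two G) {Γ : Finset α} (hJ : Jor G Γ) (hm : 0 < Γ.card)
    (hn : Fintype.card α = 2 * Γ.card + 1) : Two (res G Γᶜ) := by
  classical
  apply two_res
  intro a ha b hb c hc d hd hab hcd
  rw [mem_compl] at ha hb hc hd
  obtain ⟨g, hg, h3, h4⟩ := h2 a b c d hab hcd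
  have hc' : c ∉ g • Γ := by rw [← h3]; exact fun h => ha (ap_mem.1 h)
  have hd' : d ∉ g • Γ := by rw [← h4]; exact fun h => hb (ap_mem.1 h)
  obtain ⟨x, hx1, hx2⟩ := exists_inter hcd hc' hd' hc hd (by rw [card_sm]; omega)
  obtain ⟨k, hk, h5, h6⟩ := conj_of_inter (hJ.smul hg) hJ (card_sm g Γ) hx1 hx2
  have hcu : c ∉ g • Γ ∪ Γ := fun h => (mem_union.1 h).elim hc' hc
  have hdu : d ∉ g • Γ ∪ Γ := fun h => (mem_union.1 h).elim hd' hd
  refine ⟨k * g, G.mul_mem hk hg, ?_, ?_, ?_⟩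
  · rw [sm_compl, mul_smul, h5]
  · rw [Perm.mul_apply, h3, h6 c hcu]
  · rw [Perm.mul_apply, h4, h6 d hdu]

/-- the data of an extremal pair. -/
structure Ext (G : Subgroup (Perm α)) (Γ : Finset α) (g0 : Perm α) (t : ℕ) : Prop where
  prim : Prim G
  two : Two G
  jor : Jor G Γ
  one : 1 < Γ.card
  card : Fintype.card α = 2 * Γ.card + 1
  mem : g0 ∈ G
  ne : g0 • Γ ≠ Γ
  inter : (g0 • Γ ∩ Γ).card = t
  pos : 0 < t
  max : ∀ g ∈ G, g • Γ ≠ Γ → (g • Γ ∩ Γ).card ≤ t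

variable {Γ : Finset α} {g0 : Perm α} {t : ℕ}

theorem exists_ext (hG : Prim G) (hJ : Jor G Γ) (h1 : 1 < Γ.card) (hn : Fintype.card α = 2 * Γ.card + 1) :
    ∃ g0 t, Ext G Γ g0 t := by
  classical
  obtain ⟨g, hg, hg1, c, hc1, hc2⟩ := hG.exists_move h1 (by omega)
  obtain ⟨g0, hg0, hmax⟩ := (univ.filter (fun k : Perm α => k ∈ G ∧ k • Γ ≠ Γ)).exists_max_image
    (fun k => (k • Γ ∩ Γ).card) ⟨g, by
      simp only [mem_filter, mem_univ, true_and]
      exact ⟨hg, hg1⟩⟩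
  simp only [mem_filter, mem_univ, true_and] at hg0 hmax
  refine ⟨g0, _, hG, hG.two hJ h1 (by omega), hJ, h1, hn, hg0.1, hg0.2, rfl, ?_, fun g hg hg' => hmax g ⟨hg, hg'⟩⟩
  have h2 := hmax g ⟨hg, hg1⟩
  have h3 : 0 < (g • Γ ∩ Γ).card := Finset.card_pos.2 ⟨c, mem_inter.2 ⟨hc1, hc2⟩⟩
  omega

theorem Ext.max' (E : Ext G Γ g0 t) {g h : Perm α} (hg : g ∈ G) (hh : h ∈ G)
    (hlt : t < (g • Γ ∩ h • Γ).card) : g • Γ = h • Γ := by
  by_contra hne
  have h1 := E.max (h⁻¹ * g) (G.mul_mem (G.inv_mem hh) hg) (by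
    intro h1
    apply hne
    rw [mul_smul, inv_smul_eq_iff] at h1
    exact h1)
  have h2 : (h⁻¹ * g) • Γ ∩ Γ = h⁻¹ • (g • Γ ∩ h • Γ) := by
    rw [Finset.smul_finset_inter, inv_smul_smul, mul_smul]
  rw [h2, card_sm] at h1
  omega

theorem Ext.lt (E : Ext G Γ g0 t) : t < Γ.card := by
  by_contra h
  apply E.ne
  have h1 : (g0 • Γ ∩ Γ) = Γ := Finset.eq_of_subset_of_card_le inter_subset_right (by rw [E.inter]; omega)
  have h2 : Γ ⊆ g0 • Γ := fun x hx => by
    rw [← h1] at hx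
    exact (mem_inter.1 hx).1
  exact (Finset.eq_of_subset_of_card_le h2 (card_sm g0 Γ).le).symm

theorem Ext.jorU (E : Ext G Γ g0 t) : Jor G (g0 • Γ ∪ Γ) := by
  obtain ⟨c, hc⟩ : (g0 • Γ ∩ Γ).Nonempty := by
    rw [← Finset.card_pos, E.inter]; exact E.pos
  rw [mem_inter] at hc
  exact (E.jor.smul E.mem).union E.jor hc.1 hc.2

theorem Ext.cardU (E : Ext G Γ g0 t) : (g0 • Γ ∪ Γ).card + t = 2 * Γ.card := by
  have := Finset.card_union_add_card_inter (g0 • Γ) Γ
  rw [E.inter, card_sm] at this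
  omega

theorem Ext.cardD (E : Ext G Γ g0 t) : (g0 • Γ \ Γ).card + t = Γ.card := by
  have := Finset.card_sdiff_add_card_inter (g0 • Γ) Γ
  rw [E.inter, card_sm] at this
  exact this

theorem Ext.D_eq (_E : Ext G Γ g0 t) : g0 • Γ \ Γ = (g0 • Γ ∪ Γ) \ Γ := by
  ext x
  simp only [mem_sdiff, mem_union]
  tauto

/-- the block property. -/
theorem Ext.block (E : Ext G Γ g0 t) {k : Perm α} (hk : k ∈ G) (hfix : ∀ z, z ∉ g0 • Γ ∪ Γ → k z = z) {x : α}
    (hx : x ∈ g0 • Γ \ Γ) (hkx : k x ∈ g0 • Γ \ Γ) : k • Γ = Γ ∧ k • (g0 • Γ \ Γ) = g0 • Γ \ Γ := by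
  have hU := smul_eq_of_fix hfix
  have h1 : k • Γ = Γ := by
    by_contra hne
    have h2 := E.max k hk hne
    have h3 : k • Γ ∪ Γ ⊆ g0 • Γ ∪ Γ := by
      apply union_subset
      · rw [← hU]
        exact Finset.smul_finset_subset_smul_finset subset_union_right
      · exact subset_union_right
    have h4 := Finset.card_union_add_card_inter (k • Γ) Γ
    have h5 := E.cardU
    rw [card_sm] at h4
    have h6 : k • Γ ∪ Γ = g0 • Γ ∪ Γ := Finset.eq_of_subset_of_card_le h3 (by omega)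
    rw [mem_sdiff] at hx hkx
    have h7 : k x ∈ k • Γ ∪ Γ := by
      rw [h6]
      exact mem_union_left _ hkx.1
    rcases mem_union.1 h7 with h | h
    · exact hx.2 (ap_mem.1 h)
    · exact hkx.2 h
  refine ⟨h1, ?_⟩
  rw [E.D_eq, Finset.smul_finset_sdiff, h1, hU]

theorem Ext.exists_fix (E : Ext G Γ g0 t) {x y : α} (hx : x ∈ g0 • Γ ∪ Γ) (hy : y ∈ g0 • Γ ∪ Γ) :
    ∃ k ∈ G, k x = y ∧ ∀ z, z ∉ g0 • Γ ∪ Γ → k z = z := E.jorU x hx y hy

theorem Ext.two_mul_le (E : Ext G Γ g0 t) : 2 * (g0 • Γ \ Γ).card ≤ Γ.card := by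
  have hc := E.cardD
  have hlt := E.lt
  have hpos := E.pos
  obtain ⟨x0, hx0⟩ : (g0 • Γ \ Γ).Nonempty := by rw [← Finset.card_pos]; omega
  have hx0U : x0 ∈ g0 • Γ ∪ Γ := mem_union_left _ (mem_sdiff.1 hx0).1
  have key : ∀ y ∈ Γ, ∃ k ∈ G, k x0 = y ∧ (∀ z, z ∉ g0 • Γ ∪ Γ → k z = z) ∧ k • (g0 • Γ \ Γ) ⊆ Γ := by
    intro y hy
    obtain ⟨k, hk, h1, h2⟩ := E.exists_fix hx0U (mem_union_right _ hy)
    refine ⟨k, hk, h1, h2, ?_⟩
    intro z hz
    by_contra hzΓ
    rw [mem_sm] at hz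
    have hU := smul_eq_of_fix h2
    have hzU : z ∈ g0 • Γ ∪ Γ := by
      rw [← hU, mem_sm]
      exact mem_union_left _ (mem_sdiff.1 hz).1
    have h3 : k (k⁻¹ z) ∈ g0 • Γ \ Γ := by
      rw [ap_inv, mem_sdiff]
      exact ⟨(mem_union.1 hzU).resolve_right hzΓ, hzΓ⟩
    have h4 := (E.block hk h2 hz h3).2
    have h5 := ap_mem' h4 hx0
    rw [h1, mem_sdiff] at h5
    exact h5.2 hy
  obtain ⟨y, hy⟩ : Γ.Nonempty := by rw [← Finset.card_pos]; omega
  obtain ⟨k1, hk1, h1, h2, h3⟩ := key y hy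
  obtain ⟨y2, hy2, hy2'⟩ : ∃ y2 ∈ Γ, y2 ∉ k1 • (g0 • Γ \ Γ) := by
    by_contra h
    push Not at h
    have := Finset.card_le_card (s := Γ) h
    rw [card_sm] at this
    omega
  obtain ⟨k2, hk2, h4, h5, h6⟩ := key y2 hy2
  have hdis : Disjoint (k1 • (g0 • Γ \ Γ)) (k2 • (g0 • Γ \ Γ)) := by
    rw [Finset.disjoint_left]
    intro z hz1 hz2
    rw [mem_sm] at hz1 hz2
    have h7 := (E.block (k := k1⁻¹ * k2) (G.mul_mem (G.inv_mem hk1) hk2) (by
      intro z hz
      rw [Perm.mul_apply, h5 z hz, Perm.inv_eq_iff_eq, h2 z hz]) hz2 (by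
      rw [Perm.mul_apply, ap_inv]
      exact hz1)).2
    rw [mul_smul, inv_smul_eq_iff] at h7
    apply hy2'
    rw [← h7, ← h4]
    exact ap_mem.2 hx0
  have h8 := Finset.card_le_card (union_subset h3 h6)
  rw [Finset.card_union_of_disjoint hdis, card_sm, card_sm] at h8
  omega

theorem Ext.jorD (E : Ext G Γ g0 t) : Jor (res G Γᶜ) ((g0 • Γ \ Γ).subtype (· ∈ Γᶜ)) := by
  apply jor_res
  intro x hx y hy
  obtain ⟨k, hk, h1, h2⟩ := E.exists_fix (mem_union_left _ (mem_sdiff.1 hx).1)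
    (mem_union_left _ (mem_sdiff.1 hy).1)
  have h3 := (E.block hk h2 hx (by rw [h1]; exact hy)).1
  refine ⟨k, hk, by rw [sm_compl, h3], h1, ?_⟩
  intro z hz hzD
  apply h2
  rw [mem_compl] at hz
  rw [mem_sdiff] at hzD
  intro h
  rcases mem_union.1 h with h | h
  · exact hzD ⟨h, hz⟩
  · exact hz h

end Cfsg.Agent.H74.Marg
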