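import Mathlib
import Cfsg.Agent.H74.Marg4

/-!
# Jordan sets of size less than half: Marggraf's theorem
-/

set_option autoImplicit false

namespace Cfsg.Agent.H74.Marg

open Equiv Finset
open scoped Pointwise

universe u

section

variable {α : Type u} [Fintype α] [DecidableEq α] {G : Subgroup (Perm α)}
  {Γ : Finset α} {g0 : Perm α} {t : ℕ}

theorem Ext.step1 (_E : Ext G Γ g0 t) (halt : alternatingGroup {x // x ∈ Γᶜ} ≤ res G Γᶜ) {x0 w x : α}
    (hx0 : x0 ∈ g0 • Γ \ Γ) (hw : w ∈ g0 • Γ \ Γ) (hwx : w ≠ x0)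
    (hx : x = x0 ∨ x ∉ g0 • Γ ∪ Γ) : ∃ g ∈ G, g • Γ = Γ ∧
      ∀ z, z ∉ Γ → (z ∈ g • (g0 • Γ \ Γ) ↔ z = x ∨ (z ∈ g0 • Γ \ Γ ∧ z ≠ x0)) := by
  classical
  rcases hx with rfl | hx
  · refine ⟨1, G.one_mem, one_smul _ _, ?_⟩
    intro z _
    rw [one_smul]
    constructor
    · intro h
      by_cases h1 : z = x
      · exact Or.inl h1
      · exact Or.inr ⟨h, h1⟩
    · rintro (h | h)
      · rw [h]; exact hx0
      · exact h.1
  · have hxΓ : x ∉ Γ := fun h => hx (mem_union_right _ h)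
    have hxD : x ∉ g0 • Γ \ Γ := fun h => hx (mem_union_left _ (mem_sdiff.1 h).1)
    have hx0Γ := (mem_sdiff.1 hx0).2
    have hwΓ := (mem_sdiff.1 hw).2
    have hxx0 : x ≠ x0 := fun h => hxD (h ▸ hx0)
    have hxw : x ≠ w := fun h => hxD (h ▸ hw)
    set X : {x // x ∈ Γᶜ} := ⟨x, mem_compl.2 hxΓ⟩ with hX
    set X0 : {x // x ∈ Γᶜ} := ⟨x0, mem_compl.2 hx0Γ⟩ with hX0
    set W : {x // x ∈ Γᶜ} := ⟨w, mem_compl.2 hwΓ⟩ with hW
    have n1 : X0 ≠ X := fun h => hxx0 (congrArg Subtype.val h).symm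
    have n2 : X0 ≠ W := fun h => hwx (congrArg Subtype.val h).symm
    have n3 : X ≠ W := fun h => hxw (congrArg Subtype.val h)
    obtain ⟨g, hg, hgs⟩ := halt (Equiv.Perm.IsThreeCycle.mem_alternatingGroup
      (Perm.isThreeCycle_swap_mul_swap_same n1 n2 n3))
    have hgc := smul_of_res hgs
    have hgΓ : g • Γ = Γ := by
      have h1 := congrArg compl hgc
      rw [← sm_compl, compl_compl] at h1
      exact h1
    have g1 : g w = x := by
      have h1 := hgs W
      rw [Perm.mul_apply, swap_apply_right, swap_apply_left] at h1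
      exact h1
    have g2 : g x0 = w := by
      have h1 := hgs X0
      rw [Perm.mul_apply, swap_apply_left, swap_apply_of_ne_of_ne n2.symm n3.symm] at h1
      exact h1
    have g3 : g x = x0 := by
      have h1 := hgs X
      rw [Perm.mul_apply, swap_apply_of_ne_of_ne n1.symm n3, swap_apply_right] at h1
      exact h1
    have g4 : ∀ z, z ∉ Γ → z ≠ x → z ≠ x0 → z ≠ w → g z = z := by
      intro z hz h1 h2 h3
      have h4 := hgs ⟨z, mem_compl.2 hz⟩
      have e1 : (⟨z, mem_compl.2 hz⟩ : {x // x ∈ Γᶜ}) ≠ X0 := fun h => h2 (congrArg Subtype.val h)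
      have e2 : (⟨z, mem_compl.2 hz⟩ : {x // x ∈ Γᶜ}) ≠ W := fun h => h3 (congrArg Subtype.val h)
      have e3 : (⟨z, mem_compl.2 hz⟩ : {x // x ∈ Γᶜ}) ≠ X := fun h => h1 (congrArg Subtype.val h)
      rw [Perm.mul_apply, swap_apply_of_ne_of_ne e1 e2, swap_apply_of_ne_of_ne e1 e3] at h4
      exact h4
    refine ⟨g, hg, hgΓ, ?_⟩
    intro z hz
    by_cases h1 : z = x
    · have h2 : z ∈ g • (g0 • Γ \ Γ) := by rw [h1, ← g1]; exact ap_mem.2 hw
      exact ⟨fun _ => Or.inl h1, fun _ => h2⟩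
    by_cases h2 : z = w
    · have h3 : z ∈ g • (g0 • Γ \ Γ) := by rw [h2, ← g2]; exact ap_mem.2 hx0
      exact ⟨fun _ => Or.inr ⟨h2 ▸ hw, h2 ▸ hwx⟩, fun _ => h3⟩
    by_cases h3 : z = x0
    · have h4 : z ∉ g • (g0 • Γ \ Γ) := by rw [h3, ← g3]; exact fun h => hxD (ap_mem.1 h)
      exact ⟨fun h => absurd h h4, fun h => h.elim (fun h => absurd h h1) (fun h => absurd h3 h.2)⟩
    · have h4 := g4 z hz h1 h3 h2
      have h5 : z ∈ g • (g0 • Γ \ Γ) ↔ z ∈ g0 • Γ \ Γ := by
        conv_lhs => rw [← h4]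
        exact ap_mem
      rw [h5]
      constructor
      · intro h; exact Or.inr ⟨h, h3⟩
      · rintro (h | h)
        · exact absurd h h1
        · exact h.1

theorem Ext.step2 (E : Ext G Γ g0 t) (halt : alternatingGroup {x // x ∈ Γᶜ} ≤ res G Γᶜ) {x0 w x p : α}
    (hx0 : x0 ∈ g0 • Γ \ Γ) (hw : w ∈ g0 • Γ \ Γ) (hwx : w ≠ x0)
    (hx : x = x0 ∨ x ∉ g0 • Γ ∪ Γ) (hp : p ∈ Γ) : ∃ h ∈ G, p ∉ h • Γ ∧ (h • Γ ∩ Γ).card = t ∧
      ∀ z, z ∉ Γ → (z ∈ h • Γ ↔ z = x ∨ (z ∈ g0 • Γ \ Γ ∧ z ≠ x0)) := by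
  classical
  obtain ⟨g, hg, hgΓ, hgD⟩ := E.step1 halt hx0 hw hwx hx
  have hgU : g • (g0 • Γ ∪ Γ) = g • g0 • Γ ∪ Γ := by
    rw [Finset.smul_finset_union, hgΓ]
  have hJ : Jor G (g • g0 • Γ ∪ Γ) := by
    rw [← hgU]
    exact E.jorU.smul hg
  obtain ⟨q, hq, hq'⟩ : ∃ q ∈ Γ, q ∉ g • g0 • Γ := by
    by_contra h
    push Not at h
    have h1 : Γ = g • g0 • Γ := Finset.eq_of_subset_of_card_le h (by rw [card_sm, card_sm])
    apply E.ne
    have h2 : g • g0 • Γ = g • Γ := by rw [← h1, hgΓ]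
    exact smul_left_cancel g h2
  obtain ⟨k, hk, h1, h2⟩ := hJ q (mem_union_right _ hq) p (mem_union_right _ hp)
  have hkU := smul_eq_of_fix h2
  have hpn : p ∉ (k * (g * g0)) • Γ := by
    rw [mul_smul, mul_smul, ← h1]
    exact fun h => hq' (ap_mem.1 h)
  have hmem : k * (g * g0) ∈ G := G.mul_mem hk (G.mul_mem hg E.mem)
  have hne : (k * (g * g0)) • Γ ≠ Γ := fun h => hpn (by rw [h]; exact hp)
  have hmax := E.max _ hmem hne
  have hsub : (k * (g * g0)) • Γ \ Γ ⊆ g • (g0 • Γ \ Γ) := by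
    intro z hz
    rw [mem_sdiff, mul_smul, mul_smul] at hz
    have h3 : z ∈ g • g0 • Γ ∪ Γ := by
      rw [← hkU]
      exact Finset.smul_finset_subset_smul_finset subset_union_left hz.1
    rw [Finset.smul_finset_sdiff, hgΓ, mem_sdiff]
    exact ⟨(mem_union.1 h3).resolve_right hz.2, hz.2⟩
  have h4 := Finset.card_sdiff_add_card_inter ((k * (g * g0)) • Γ) Γ
  have h5 := E.cardD
  have h6 := Finset.card_le_card hsub
  rw [card_sm] at h4 h6
  have heq : (k * (g * g0)) • Γ \ Γ = g • (g0 • Γ \ Γ) :=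
    Finset.eq_of_subset_of_card_le hsub (by rw [card_sm]; omega)
  refine ⟨k * (g * g0), hmem, hpn, by omega, ?_⟩
  intro z hz
  rw [← hgD z hz, ← heq, mem_sdiff]
  exact ⟨fun h => ⟨h, hz⟩, fun h => h.1⟩

theorem Ext.not_two_le (E : Ext G Γ g0 t) (hc : 2 ≤ (g0 • Γ \ Γ).card)
    (halt : alternatingGroup {x // x ∈ Γᶜ} ≤ res G Γᶜ) : False := by
  classical
  obtain ⟨x0, hx0, w, hw, hwx⟩ := Finset.one_lt_card.1 hc
  obtain ⟨p, hp⟩ : Γ.Nonempty := by rw [← Finset.card_pos]; have := E.one; omega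
  have hcD := E.cardD
  have hcU := E.cardU
  set D := g0 • Γ \ Γ with hD
  set M := insert x0 (g0 • Γ ∪ Γ)ᶜ with hM
  have hx0U : x0 ∉ (g0 • Γ ∪ Γ)ᶜ := by
    rw [mem_compl, not_not]
    exact mem_union_left _ (mem_sdiff.1 hx0).1
  have hMc : M.card = t + 2 := by
    rw [hM, card_insert_of_notMem hx0U, card_compl, E.card]
    omega
  have hMD : ∀ z ∈ M, z ∈ D → z = x0 := by
    intro z hz hzD
    rcases mem_insert.1 hz with h | h
    · exact h
    · exfalso
      rw [mem_compl] at h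
      exact h (mem_union_left _ (mem_sdiff.1 hzD).1)
  have hMΓ : ∀ z ∈ M, z ∉ Γ := by
    intro z hz hzΓ
    rcases mem_insert.1 hz with h | h
    · exact (mem_sdiff.1 hx0).2 (h ▸ hzΓ)
    · rw [mem_compl] at h
      exact h (mem_union_right _ hzΓ)
  have key : ∀ x, x ∈ M → ∃ h ∈ G, p ∉ h • Γ ∧ (h • Γ ∩ Γ).card = t ∧
      ∀ z, z ∉ Γ → (z ∈ h • Γ ↔ z = x ∨ (z ∈ D ∧ z ≠ x0)) := by
    intro x hx
    apply E.step2 halt hx0 hw hwx.symm _ hp
    rcases mem_insert.1 hx with h | h
    · exact Or.inl h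
    · rw [mem_compl] at h
      exact Or.inr h
  choose! f hfG hfp hft hfz using key
  have hdis : ∀ x ∈ M, ∀ y ∈ M, x ≠ y → Disjoint ((Γ \ f x • Γ).erase p) ((Γ \ f y • Γ).erase p) := by
    intro x hx y hy hxy
    rw [Finset.disjoint_left]
    intro q hq hq'
    rw [mem_erase, mem_sdiff] at hq hq'
    have hN : Disjoint (f x • Γ ∪ f y • Γ) (insert p (insert q ((M.erase x).erase y))) := by
      rw [Finset.disjoint_left]
      intro z hz hz'
      have hz1 : z ∉ f x • Γ := by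
        rcases mem_insert.1 hz' with rfl | h
        · exact hfp x hx
        rcases mem_insert.1 h with rfl | h
        · exact hq.2.2
        rw [mem_erase, mem_erase] at h
        rw [hfz x hx z (hMΓ z h.2.2)]
        rintro (h' | h')
        · exact h.2.1 h'
        · exact h'.2 (hMD z h.2.2 h'.1)
      have hz2 : z ∉ f y • Γ := by
        rcases mem_insert.1 hz' with rfl | h
        · exact hfp y hy
        rcases mem_insert.1 h with rfl | h
        · exact hq'.2.2
        rw [mem_erase, mem_erase] at h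
        rw [hfz y hy z (hMΓ z h.2.2)]
        rintro (h' | h')
        · exact h.1 h'
        · exact h'.2 (hMD z h.2.2 h'.1)
      exact (mem_union.1 hz).elim hz1 hz2
    have h1 := Finset.card_union_of_disjoint hN
    have h2 := Finset.card_le_univ ((f x • Γ ∪ f y • Γ) ∪ (insert p (insert q ((M.erase x).erase y))))
    have hqM : q ∉ (M.erase x).erase y := by
      rw [mem_erase, mem_erase]
      exact fun h => hMΓ q h.2.2 hq.2.1
    have hpM : p ∉ insert q ((M.erase x).erase y) := by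
      rw [mem_insert, mem_erase, mem_erase]
      rintro (h | h)
      · exact hq.1 h.symm
      · exact hMΓ p h.2.2 hp
    rw [card_insert_of_notMem hpM, card_insert_of_notMem hqM,
      card_erase_of_mem (mem_erase.2 ⟨hxy.symm, hy⟩), card_erase_of_mem hx, hMc] at h1
    have h3 := Finset.card_union_add_card_inter (f x • Γ) (f y • Γ)
    rw [card_sm, card_sm] at h3
    have hcard := E.card
    have h4 := E.max' (hfG x hx) (hfG y hy) (by omega)
    have h5 : x ∈ f x • Γ := (hfz x hx x (hMΓ x hx)).2 (Or.inl rfl)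
    rw [h4, hfz y hy x (hMΓ x hx)] at h5
    rcases h5 with h | h
    · exact hxy h
    · exact h.2 (hMD x hx h.1)
  have h1 := Finset.card_biUnion hdis
  have h2 : M.biUnion (fun x => (Γ \ f x • Γ).erase p) ⊆ Γ.erase p := by
    intro z hz
    rw [mem_biUnion] at hz
    obtain ⟨x, _, hz⟩ := hz
    rw [mem_erase, mem_sdiff] at hz
    exact mem_erase.2 ⟨hz.1, hz.2.1⟩
  have h3 := Finset.card_le_card h2
  have h4 : ∀ x ∈ M, ((Γ \ f x • Γ).erase p).card = D.card - 1 := by
    intro x hx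
    rw [card_erase_of_mem (mem_sdiff.2 ⟨hp, hfp x hx⟩)]
    have h5 := Finset.card_sdiff_add_card_inter Γ (f x • Γ)
    rw [inter_comm, hft x hx] at h5
    omega
  rw [h1, Finset.sum_congr rfl h4, Finset.sum_const, smul_eq_mul, hMc, card_erase_of_mem hp] at h3
  obtain ⟨c, hc'⟩ : ∃ c, D.card = c + 2 := ⟨D.card - 2, by omega⟩
  rw [← hcD, hc'] at h3
  have h5 : c + 2 - 1 = c + 1 := rfl
  rw [h5] at h3
  have h6 : c + 2 + t - 1 = c + 1 + t := by omega
  rw [h6] at h3
  nlinarith [Nat.zero_le (t * c)]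

theorem Ext.exchange (E : Ext G Γ g0 t) (hc : (g0 • Γ \ Γ).card = 1) {x y : α} (hx : x ∉ Γ) (hy : y ∈ Γ) :
    ∃ h ∈ G, h • Γ = insert x (Γ.erase y) := by
  classical
  obtain ⟨x0, hD⟩ := Finset.card_eq_one.1 hc
  have hx0 : x0 ∈ g0 • Γ \ Γ := by rw [hD]; exact mem_singleton_self _
  have hU : g0 • Γ ∪ Γ = insert x0 Γ := by
    ext z
    rw [mem_union, mem_insert]
    constructor
    · rintro (h | h)
      · by_cases h1 : z ∈ Γ
        · exact Or.inr h1
        · left
          have : z ∈ g0 • Γ \ Γ := mem_sdiff.2 ⟨h, h1⟩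
          rw [hD] at this
          exact mem_singleton.1 this
      · exact Or.inr h
    · rintro (h | h)
      · left
        rw [h]
        exact (mem_sdiff.1 hx0).1
      · exact Or.inr h
  have hx0Γ := (mem_sdiff.1 hx0).2
  obtain ⟨g, hg, hgΓ, hgx⟩ : ∃ g ∈ G, g • Γ = Γ ∧ g x0 = x := by
    by_cases h : x = x0
    · exact ⟨1, G.one_mem, one_smul _ _, h.symm⟩
    · have h2 := two_compl E.two E.jor (by have := E.one; omega) E.card
      obtain ⟨σ, ⟨g, hg, hgs⟩, h3, -⟩ := h2 ⟨x0, mem_compl.2 hx0Γ⟩ ⟨x, mem_compl.2 hx⟩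
        ⟨x, mem_compl.2 hx⟩ ⟨x0, mem_compl.2 hx0Γ⟩ (fun h' => h (congrArg Subtype.val h').symm)
        (fun h' => h (congrArg Subtype.val h'))
      have hgc := smul_of_res hgs
      have hgΓ : g • Γ = Γ := by
        have h1 := congrArg compl hgc
        rw [← sm_compl, compl_compl] at h1
        exact h1
      refine ⟨g, hg, hgΓ, ?_⟩
      have h4 := hgs ⟨x0, mem_compl.2 hx0Γ⟩
      rw [h3] at h4
      exact h4
  have hJ : Jor G (insert x Γ) := by
    have h1 := E.jorU.smul hg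
    have h2 : g • (g0 • Γ ∪ Γ) = insert x Γ := by
      rw [hU, Finset.smul_finset_insert, hgΓ, Perm.smul_def, hgx]
    rwa [h2] at h1
  obtain ⟨k, hk, h1, h2⟩ := hJ x (mem_insert_self _ _) y (mem_insert_of_mem hy)
  have hkU := smul_eq_of_fix h2
  refine ⟨k, hk, ?_⟩
  have hxy : x ≠ y := fun h => hx (h ▸ hy)
  ext z
  rw [mem_insert, mem_erase]
  constructor
  · intro hz
    have h3 : z ∈ insert x Γ := by
      rw [← hkU]
      exact Finset.smul_finset_subset_smul_finset (subset_insert _ _) hz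
    have h4 : z ≠ y := by
      rintro rfl
      rw [← h1] at hz
      exact hx (ap_mem.1 hz)
    rcases mem_insert.1 h3 with h | h
    · exact Or.inl h
    · exact Or.inr ⟨h4, h⟩
  · intro hz
    have h3 : z ∈ k • insert x Γ := by
      rw [hkU, mem_insert]
      exact hz.imp_right (fun h => h.2)
    have h4 : z ≠ y := by
      rcases hz with h | h
      · rw [h]; exact hxy
      · exact h.1
    rw [mem_sm, mem_insert] at h3
    rw [mem_sm]
    apply h3.resolve_left
    intro h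
    rw [Perm.inv_eq_iff_eq, h1] at h
    exact h4 h

theorem Ext.threeCycle (E : Ext G Γ g0 t) (hc : (g0 • Γ \ Γ).card = 1) : ∃ g ∈ G, g.IsThreeCycle := by
  classical
  have hone := E.one
  have hcard := E.card
  have key : ∀ j, j < Γ.card → ∃ h ∈ G, (h • Γ ∩ Γ).card = Γ.card - j := by
    intro j
    induction j with
    | zero =>
      intro _
      exact ⟨1, G.one_mem, by rw [one_smul, inter_self]; rfl⟩
    | succ j ih =>
      intro hj
      obtain ⟨h, hh, h1⟩ := ih (by omega)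
      obtain ⟨y, hy⟩ : (h • Γ ∩ Γ).Nonempty := by rw [← Finset.card_pos]; omega
      obtain ⟨x, hx⟩ : ∃ x, x ∉ h • Γ ∪ Γ := by
        by_contra hc
        push Not at hc
        have h2 : h • Γ ∪ Γ = univ := by
          ext x
          simp only [hc x, mem_univ]
        have h3 := Finset.card_union_add_card_inter (h • Γ) Γ
        rw [h2, Finset.card_univ, card_sm] at h3
        omega
      rw [mem_union, not_or] at hx
      rw [mem_inter] at hy
      obtain ⟨k, hk, h2⟩ := E.exchange hc (x := h⁻¹ x) (y := h⁻¹ y) (fun h3 => hx.1 (mem_sm.2 h3)) (mem_sm.1 hy.1)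
      refine ⟨h * k, G.mul_mem hh hk, ?_⟩
      have h3 : (h * k) • Γ ∩ Γ = (h • Γ ∩ Γ).erase y := by
        ext z
        rw [mem_inter, mul_smul, h2, mem_erase, mem_inter, mem_sm, mem_insert, mem_erase, mem_sm]
        constructor
        · rintro ⟨h3, h4⟩
          rcases h3 with h3 | h3
          · exfalso
            have : z = x := h⁻¹.injective h3
            exact hx.2 (this ▸ h4)
          · exact ⟨fun h5 => h3.1 (by rw [h5]), h3.2, h4⟩
        · rintro ⟨h3, h4, h5⟩
          exact ⟨Or.inr ⟨fun h6 => h3 (h⁻¹.injective h6), h4⟩, h5⟩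
      rw [h3, card_erase_of_mem (mem_inter.2 hy)]
      omega
  obtain ⟨h, hh, h1⟩ := key (Γ.card - 1) (by omega)
  rw [show Γ.card - (Γ.card - 1) = 1 by omega] at h1
  obtain ⟨p, hp⟩ := Finset.card_eq_one.1 h1
  have hp' : p ∈ h • Γ ∩ Γ := by rw [hp]; exact mem_singleton_self _
  rw [mem_inter] at hp'
  obtain ⟨q, hq, hqp⟩ := Finset.exists_mem_ne (s := Γ) (by omega) p
  obtain ⟨r, hr, hrp⟩ := Finset.exists_mem_ne (s := h • Γ) (by rw [card_sm]; omega) p
  obtain ⟨a, ha, ha1, ha2⟩ := E.jor p hp'.2 q hq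
  obtain ⟨b, hb, hb1, hb2⟩ := (E.jor.smul hh) p hp'.1 r hr
  refine ⟨a * b * a⁻¹ * b⁻¹, G.mul_mem (G.mul_mem (G.mul_mem ha hb) (G.inv_mem ha)) (G.inv_mem hb), ?_⟩
  apply threeCycle_of_inter (p := p)
  · rw [ha1]; exact hqp
  · rw [hb1]; exact hrp
  · intro z h2 h3
    have h4 : z ∈ Γ := by
      by_contra h4
      exact h2 (ha2 z h4)
    have h5 : z ∈ h • Γ := by
      by_contra h5
      exact h3 (hb2 z h5)
    have h6 : z ∈ h • Γ ∩ Γ := mem_inter.2 ⟨h5, h4⟩
    rw [hp] at h6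
    exact mem_singleton.1 h6

end

/-- **Marggraf's theorem** -/
theorem alt_of_jor (n : ℕ) : ∀ (α : Type u) [Fintype α] [DecidableEq α] (G : Subgroup (Perm α)) (Γ : Finset α),
    Fintype.card α = n → Prim G → Jor G Γ → 1 < Γ.card → 2 * Γ.card < n → alternatingGroup α ≤ G := by
  classical
  induction n using Nat.strong_induction_on with
  | _ n ih =>
  intro α _ _ G Γ hn hG hJ h1 h2
  by_cases h3 : 2 * Γ.card + 1 < n
  · -- a point stabilizer
    obtain ⟨a, ha⟩ : ∃ a, a ∉ Γ := by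
      by_contra h
      push Not at h
      have : Γ = univ := by
        ext x
        simp only [h x, mem_univ]
      rw [this, Finset.card_univ] at h2
      omega
    have hcardS : Fintype.card ↥(univ.erase a : Finset α) = n - 1 := by
      rw [Fintype.card_coe, card_erase_of_mem (mem_univ a), Finset.card_univ, hn]
    have hsub : Γ ⊆ univ.erase a := fun x hx => mem_erase.2 ⟨fun h => ha (h ▸ hx), mem_univ _⟩
    have halt := ih (n - 1) (by omega) ↥(univ.erase a : Finset α) (res G (univ.erase a))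
      (Γ.subtype (· ∈ univ.erase a)) hcardS (prim_res_erase hG hJ h1 (by omega) a) (by
        apply jor_res
        intro x hx y hy
        obtain ⟨g, hg, h4, h5⟩ := hJ x hx y hy
        refine ⟨g, hg, ?_, h4, fun z _ hz => h5 z hz⟩
        ext z
        rw [mem_sm, mem_erase, mem_erase, ne_eq, Perm.inv_eq_iff_eq, h5 a ha]
        simp) (by rw [card_sub hsub]; exact h1) (by rw [card_sub hsub]; omega)
    obtain ⟨x1, x2, x3, h12, h13, h23⟩ : ∃ x1 x2 x3 : ↥(univ.erase a : Finset α), x1 ≠ x2 ∧ x1 ≠ x3 ∧ x2 ≠ x3 := by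
      have : 2 < Fintype.card ↥(univ.erase a : Finset α) := by omega
      obtain ⟨x1, x2, x3, h12, h13, h23⟩ := Fintype.two_lt_card_iff.1 this
      exact ⟨x1, x2, x3, h12, h13, h23⟩
    obtain ⟨g, hg, hgs⟩ := halt (Equiv.Perm.IsThreeCycle.mem_alternatingGroup
      (Perm.isThreeCycle_swap_mul_swap_same h12 h13 h23))
    have hga : g a = a := by
      have h4 := smul_of_res hgs
      by_contra h5
      have h6 : g a ∈ univ.erase a := mem_erase.2 ⟨h5, mem_univ _⟩
      rw [← h4] at h6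
      have h7 := ap_mem.1 h6
      simp at h7
    apply hG.alt_of_threeCycle hg
    have e12 : (x1 : α) ≠ x2 := fun h => h12 (Subtype.ext h)
    have e13 : (x1 : α) ≠ x3 := fun h => h13 (Subtype.ext h)
    have e23 : (x2 : α) ≠ x3 := fun h => h23 (Subtype.ext h)
    have hgeq : g = swap (x1 : α) x2 * swap (x1 : α) x3 := by
      ext z
      by_cases hz : z = a
      · have a1 : a ≠ x1 := fun h => by have := x1.2; rw [← h] at this; simp at this
        have a2 : a ≠ x2 := fun h => by have := x2.2; rw [← h] at this; simp at this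
        have a3 : a ≠ x3 := fun h => by have := x3.2; rw [← h] at this; simp at this
        rw [hz, hga, Perm.mul_apply, swap_apply_of_ne_of_ne a1 a3, swap_apply_of_ne_of_ne a1 a2]
      · have h4 := hgs ⟨z, mem_erase.2 ⟨hz, mem_univ _⟩⟩
        rw [Perm.mul_apply] at h4
        have h5 : ∀ (u v w : ↥(univ.erase a : Finset α)), ((swap u v w : ↥(univ.erase a : Finset α)) : α) =
            swap (u : α) v w := by
          intro u v w
          rw [swap_apply_def, swap_apply_def]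
          simp only [Subtype.ext_iff]
          split_ifs <;> rfl
        rw [h5, h5] at h4
        rw [Perm.mul_apply]
        exact h4
    rw [hgeq]
    exact Perm.isThreeCycle_swap_mul_swap_same e12 e13 e23
  · have hn' : Fintype.card α = 2 * Γ.card + 1 := by omega
    obtain ⟨g0, t, E⟩ := exists_ext hG hJ h1 hn'
    have hc := E.cardD
    have hlt := E.lt
    by_cases h4 : (g0 • Γ \ Γ).card = 1
    · obtain ⟨g, hg, h5⟩ := E.threeCycle h4
      exact hG.alt_of_threeCycle hg h5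
    · exfalso
      have hcardS : Fintype.card ↥(Γᶜ : Finset α) = Γ.card + 1 := by
        rw [Fintype.card_coe, card_compl]
        omega
      have hsub : g0 • Γ \ Γ ⊆ Γᶜ := fun x hx => mem_compl.2 (mem_sdiff.1 hx).2
      have h5 := E.two_mul_le
      apply E.not_two_le (by omega)
      exact ih (Γ.card + 1) (by omega) ↥(Γᶜ : Finset α) (res G Γᶜ) ((g0 • Γ \ Γ).subtype (· ∈ Γᶜ)) hcardS
        ((two_compl E.two E.jor (by omega) hn').prim (by omega)) E.jorD (by rw [card_sub hsub]; omega)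
        (by rw [card_sub hsub]; omega)

end Cfsg.Agent.H74.Marg
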