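import Mathlib
import Cfsg.Agent.H74.Marg5

/-!
# Quasiprimitive groups with a small Jordan set
-/

set_option autoImplicit false

namespace Cfsg.Agent.H74.Marg

open Equiv Finset MulAction
open scoped Pointwise

universe u v w

/-- three-cycles generate: the part fixing a point. -/
theorem alt_le_of_threeCycle {S : Type u} [Fintype S] [DecidableEq S] (K : Subgroup (Perm S))
    (hK : ∀ τ : Perm S, τ ∈ alternatingGroup S → ∀ f ∈ K, τ * f * τ⁻¹ ∈ K) {a b c : S} (hab : a ≠ b) (hac : a ≠ c)
    (hbc : b ≠ c) (h : swap a b * swap a c ∈ K) : alternatingGroup S ≤ K := by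
  rw [← Equiv.Perm.closure_three_cycles_eq_alternating, Subgroup.closure_le]
  intro f hf
  have h1 : (swap a b * swap a c).IsThreeCycle := Perm.isThreeCycle_swap_mul_swap_same hab hac hbc
  have hf' : f.IsThreeCycle := hf
  have h2 : IsConj (swap a b * swap a c) f := by
    rw [Equiv.Perm.isConj_iff_cycleType_eq]
    exact h1.trans hf'.symm
  obtain ⟨τ, hτ⟩ := isConj_iff.1 h2
  rcases Int.units_eq_one_or (Perm.sign τ) with h3 | h3
  · rw [← hτ]
    exact hK τ (Equiv.Perm.mem_alternatingGroup.2 h3) _ h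
  · have h4 : (τ * swap b c) * (swap a b * swap a c) * (τ * swap b c)⁻¹ = f⁻¹ := by
      have h5 : swap b c * (swap a b * swap a c) * (swap b c)⁻¹ = (swap a b * swap a c)⁻¹ := by
        rw [mul_inv_rev, swap_inv, swap_inv, swap_inv]
        have e1 : swap b c * swap a b * swap b c = swap a c := by
          have := swap_apply_apply (swap b c) a b
          rw [swap_apply_of_ne_of_ne hab hac, swap_apply_left, swap_inv] at this
          exact this.symm
        have e2 : swap b c * swap a c * swap b c = swap a b := by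
          have := swap_apply_apply (swap b c) a c
          rw [swap_apply_of_ne_of_ne hab hac, swap_apply_right, swap_inv] at this
          exact this.symm
        calc swap b c * (swap a b * swap a c) * swap b c
            = (swap b c * swap a b * swap b c) * (swap b c * swap a c * swap b c) := by
              simp only [mul_assoc, swap_mul_self_mul]
          _ = swap a c * swap a b := by rw [e1, e2]
      calc (τ * swap b c) * (swap a b * swap a c) * (τ * swap b c)⁻¹
          = τ * (swap b c * (swap a b * swap a c) * (swap b c)⁻¹) * τ⁻¹ := by group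
        _ = τ * (swap a b * swap a c)⁻¹ * τ⁻¹ := by rw [h5]
        _ = (τ * (swap a b * swap a c) * τ⁻¹)⁻¹ := by group
        _ = f⁻¹ := by rw [hτ]
    have h5 := hK (τ * swap b c) (by
      rw [Equiv.Perm.mem_alternatingGroup, Perm.sign_mul, h3, Perm.sign_swap hbc]
      rfl) _ h
    rw [h4] at h5
    exact (Subgroup.inv_mem_iff K).1 h5

section

variable {G : Type u} {Ω : Type v} {Λ : Type w} [Group G] [MulAction G Ω] [FaithfulSMul G Ω] [Fintype Ω]
  [DecidableEq Ω] [MulAction G Λ] [Fintype Λ] [DecidableEq Λ]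

theorem quasi (hqp : ∀ N : Subgroup G, N.Normal → N ≠ ⊥ → IsPretransitive ↥N Ω)
    (hprim : IsPreprimitive G Λ) (hΛ : 1 < Fintype.card Λ) (π : Ω → Λ) (hπ : ∀ (g : G) (ω : Ω), π (g • ω) = g • π ω)
    {Γ : Finset Ω} (hΓ1 : 1 < Γ.card) (hΓ2 : 2 * Γ.card < Fintype.card Ω)
    (hJ : ∀ x ∈ Γ, ∀ y ∈ Γ, ∃ h : G, h • x = y ∧ ∀ z, z ∉ Γ → h • z = z) :
    ∀ σ : Perm Ω, Perm.sign σ = 1 → ∃ x : G, (MulAction.toPerm x : Perm Ω) = σ := by
  classical
  obtain ⟨x, hx, y, hy, hxy⟩ := Finset.one_lt_card.1 hΓ1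
  have hsurj : Function.Surjective π := by
    intro l
    obtain ⟨g, hg⟩ := exists_smul_eq G (π x) l
    exact ⟨g • x, by rw [hπ, hg]⟩
  -- the kernel
  have hker : ∀ g : G, (∀ l : Λ, g • l = l) → g = 1 := by
    by_contra hc
    push Not at hc
    obtain ⟨g, hg, hg1⟩ := hc
    have hN : (MulAction.toPermHom G Λ).ker ≠ ⊥ := by
      intro h
      apply hg1
      have : g ∈ (MulAction.toPermHom G Λ).ker := by
        rw [MonoidHom.mem_ker]
        ext l
        exact hg l
      rw [h] at this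
      exact this
    have hT := hqp _ inferInstance hN
    obtain ⟨l1, l2, hl⟩ := Fintype.one_lt_card_iff.1 hΛ
    apply hl
    obtain ⟨w1, rfl⟩ := hsurj l1
    obtain ⟨w2, rfl⟩ := hsurj l2
    obtain ⟨k, hk⟩ := exists_smul_eq (MulAction.toPermHom G Λ).ker w1 w2
    have h1 : (k : G) • w1 = w2 := hk
    rw [← h1, hπ]
    have h2 := k.2
    rw [MonoidHom.mem_ker] at h2
    have h3 := congrArg (fun σ : Perm Λ => σ (π w1)) h2
    exact h3.symm
  set Ĝ : Subgroup (Perm Λ) := (MulAction.toPermHom G Λ).range with hĜ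
  have hmemG : ∀ g : G, MulAction.toPermHom G Λ g ∈ Ĝ := fun g => ⟨g, rfl⟩
  have hpG : Prim Ĝ := by
    apply Prim.of_isPreprimitive
    have h1 : IsPretransitive Ĝ Λ := by
      constructor
      intro l1 l2
      obtain ⟨g, hg⟩ := exists_smul_eq G l1 l2
      exact ⟨⟨_, hmemG g⟩, hg⟩
    refine { isTrivialBlock_of_isBlock := ?_ }
    intro B hB
    apply hprim.isTrivialBlock_of_isBlock
    rw [isBlock_iff_smul_eq_or_disjoint] at hB ⊢
    intro g
    exact hB ⟨_, hmemG g⟩
  set Γ' : Finset Λ := Γ.image π with hΓ'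
  have hJ' : Jor Ĝ Γ' := by
    intro l1 hl1 l2 hl2
    obtain ⟨z1, hz1, rfl⟩ := mem_image.1 hl1
    obtain ⟨z2, hz2, rfl⟩ := mem_image.1 hl2
    obtain ⟨h, h1, h2⟩ := hJ z1 hz1 z2 hz2
    refine ⟨_, hmemG h, ?_, ?_⟩
    · change h • π z1 = π z2
      rw [← hπ, h1]
    · intro l hl
      obtain ⟨z, rfl⟩ := hsurj l
      change h • π z = π z
      rw [← hπ, h2 z (fun h => hl (mem_image_of_mem π h))]
  have hΓ'1 : 1 < Γ'.card := by
    by_contra hc
    obtain ⟨h, h1, h2⟩ := hJ x hx y hy
    apply hxy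
    have h3 : h = 1 := by
      apply hker
      intro l
      obtain ⟨z, rfl⟩ := hsurj l
      by_cases hz : z ∈ Γ
      · have h3 : h • z ∈ Γ := by
          by_contra h3
          have h4 := h2 _ h3
          have h5 : h • z = z := by
            have := MulAction.injective h h4
            exact this
          exact h3 (h5.symm ▸ hz)
        rw [← hπ]
        exact Finset.card_le_one.1 (not_lt.1 hc) _ (mem_image_of_mem π h3) _ (mem_image_of_mem π hz)
      · rw [← hπ, h2 z hz]
    rw [h3, one_smul] at h1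
    exact h1
  have hfib : ∀ z, π z ∈ Γ' → z ∈ Γ := by
    intro z hz
    by_contra hzΓ
    obtain ⟨x', hx', hx''⟩ := mem_image.1 hz
    obtain ⟨l, hl, hl'⟩ := Finset.exists_mem_ne hΓ'1 (π z)
    obtain ⟨y', hy', rfl⟩ := mem_image.1 hl
    obtain ⟨h, h1, h2⟩ := hJ x' hx' y' hy'
    apply hl'
    rw [← h1, hπ, hx'', ← hπ, h2 z hzΓ]
  -- the fibres
  obtain ⟨k, hk⟩ : ∃ k, k = (univ.filter (fun z => π z = π x)).card := ⟨_, rfl⟩
  have hfibc : ∀ l : Λ, (univ.filter (fun z => π z = l)).card = k := by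
    intro l
    obtain ⟨g, hg⟩ := exists_smul_eq G (π x) l
    rw [hk]
    symm
    apply Finset.card_bij (fun z _ => g • z)
    · intro z hz
      rw [mem_filter] at hz ⊢
      exact ⟨mem_univ _, by rw [hπ, hz.2, hg]⟩
    · intro z _ z' _ h
      exact MulAction.injective g h
    · intro z hz
      rw [mem_filter] at hz
      refine ⟨g⁻¹ • z, ?_, smul_inv_smul g z⟩
      rw [mem_filter]
      exact ⟨mem_univ _, by rw [hπ, hz.2, ← hg, inv_smul_smul]⟩
  have hΩc : Fintype.card Ω = Fintype.card Λ * k := by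
    rw [← Finset.card_univ, Finset.card_eq_sum_card_fiberwise (t := (univ : Finset Λ)) (f := π)
      (fun _ _ => mem_coe.2 (mem_univ _)), Finset.sum_congr rfl (fun l _ => hfibc l), Finset.sum_const, smul_eq_mul,
      Finset.card_univ]
  have hΓc : Γ.card = Γ'.card * k := by
    rw [Finset.card_eq_sum_card_fiberwise (s := Γ) (t := Γ') (f := π) (fun z hz => mem_image_of_mem π hz)]
    have h1 : ∀ l ∈ Γ', (Γ.filter (fun z => π z = l)).card = k := by
      intro l hl
      rw [← hfibc l]
      congr 1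
      ext z
      rw [mem_filter, mem_filter]
      constructor
      · intro h; exact ⟨mem_univ _, h.2⟩
      · intro h; exact ⟨hfib z (by rw [h.2]; exact hl), h.2⟩
    rw [Finset.sum_congr rfl h1, Finset.sum_const, smul_eq_mul]
  have hkpos : 0 < k := by
    rw [hk]
    exact Finset.card_pos.2 ⟨x, by simp⟩
  have hΓ'2 : 2 * Γ'.card < Fintype.card Λ := by
    rw [hΩc, hΓc] at hΓ2
    nlinarith
  have halt := alt_of_jor (Fintype.card Λ) Λ Ĝ Γ' rfl hpG hJ' hΓ'1 hΓ'2
  have hlift : ∀ σ : Perm Λ, Perm.sign σ = 1 → ∃ g : G, ∀ l : Λ, g • l = σ l := by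
    intro σ hσ
    obtain ⟨g, hg⟩ := halt (Equiv.Perm.mem_alternatingGroup.2 hσ)
    exact ⟨g, fun l => congrArg (fun τ : Perm Λ => τ l) hg⟩
  by_cases hinj : Function.Injective π
  · -- primitive
    intro σ hσ
    set e : Ω ≃ Λ := Equiv.ofBijective π ⟨hinj, hsurj⟩ with he
    obtain ⟨g, hg⟩ := hlift (e.permCongr σ) (by rw [Perm.sign_permCongr, hσ])
    refine ⟨g, ?_⟩
    ext ω
    apply hinj
    rw [MulAction.toPerm_apply, hπ, hg, Equiv.permCongr_apply]
    have h1 : e.symm (π ω) = ω := e.symm_apply_apply ω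
    rw [h1]
    rfl
  · -- imprimitive
    exfalso
    have hk2 : 1 < k := by
      rw [Function.Injective] at hinj
      push Not at hinj
      obtain ⟨z1, z2, h1, h2⟩ := hinj
      rw [← hfibc (π z1)]
      exact Finset.one_lt_card.2 ⟨z1, by simp, z2, by simp [h1], h2⟩
    obtain ⟨z0, hz0⟩ : ∃ z, z ∉ Γ := by
      by_contra h
      push Not at h
      have : Γ = univ := by
        ext z
        simp only [h z, mem_univ]
      rw [this, Finset.card_univ] at hΓ2
      omega
    obtain ⟨l0, hl0⟩ : ∃ l, l = π z0 := ⟨_, rfl⟩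
    have hl0' : l0 ∉ Γ' := fun h => hz0 (hfib z0 (hl0 ▸ h))
    obtain ⟨b, hb, hbz⟩ := Finset.exists_mem_ne (s := univ.filter (fun z => π z = l0)) (by rw [hfibc]; exact hk2) z0
    rw [mem_filter] at hb
    -- the even subgroup
    set A : Subgroup G := (Perm.sign.comp (MulAction.toPermHom G Λ)).ker with hA
    have hmA : ∀ g : G, g ∈ A ↔ Perm.sign (MulAction.toPermHom G Λ g) = 1 := fun g => Iff.rfl
    -- elements outside Γ'
    have hout : 3 ≤ (univ \ Γ').card := by
      rw [Finset.card_sdiff_of_subset (Finset.subset_univ _), Finset.card_univ]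
      omega
    have hout' : 1 < ((univ \ Γ').erase l0).card := by
      rw [card_erase_of_mem (mem_sdiff.2 ⟨mem_univ _, hl0'⟩)]
      omega
    obtain ⟨b3, hb3, b4, hb4, hb34⟩ := Finset.one_lt_card.1 hout'
    rw [mem_erase, mem_sdiff] at hb3 hb4
    obtain ⟨b1, hb1, b2, hb2, hb12⟩ := Finset.one_lt_card.1 hΓ'1
    have n13 : b1 ≠ b3 := fun h => hb3.2.2 (h ▸ hb1)
    have n14 : b1 ≠ b4 := fun h => hb4.2.2 (h ▸ hb1)
    have n23 : b2 ≠ b3 := fun h => hb3.2.2 (h ▸ hb2)
    have n24 : b2 ≠ b4 := fun h => hb4.2.2 (h ▸ hb2)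
    have n10 : l0 ≠ b1 := fun h => hl0' (h ▸ hb1)
    have n20 : l0 ≠ b2 := fun h => hl0' (h ▸ hb2)
    have hAne : A ≠ ⊥ := by
      intro h
      obtain ⟨g, hg⟩ := hlift (swap b1 b2 * swap b1 b3) (by
        rw [Perm.sign_mul, Perm.sign_swap hb12, Perm.sign_swap n13]; rfl)
      have h1 : g ∈ A := by
        rw [hmA]
        have : MulAction.toPermHom G Λ g = swap b1 b2 * swap b1 b3 := by
          ext l
          exact hg l
        rw [this, Perm.sign_mul, Perm.sign_swap hb12, Perm.sign_swap n13]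
        rfl
      rw [h, Subgroup.mem_bot] at h1
      have h2 := hg b2
      rw [h1, one_smul, Perm.mul_apply, swap_apply_of_ne_of_ne hb12.symm n23, swap_apply_right] at h2
      exact hb12 h2.symm
    have hAT := hqp A inferInstance hAne
    obtain ⟨g, hg⟩ := exists_smul_eq A z0 b
    have hgb : (g : G) • z0 = b := hg
    have hgl : (g : G) • l0 = l0 := by
      rw [hl0, ← hπ, hgb, hb.2, hl0]
    -- the pointwise stabilizer of the fibre
    set K0 : Subgroup G := fixingSubgroup G {z : Ω | π z = l0} with hK0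
    have hmK : ∀ g : G, g ∈ K0 ↔ ∀ z, π z = l0 → g • z = z := by
      intro g
      rw [hK0, mem_fixingSubgroup_iff]
      rfl
    have hK0n : ∀ g : G, g • l0 = l0 → ∀ k ∈ K0, g * k * g⁻¹ ∈ K0 := by
      intro g hg k hk
      rw [hmK] at hk ⊢
      intro z hz
      have h1 : π (g⁻¹ • z) = l0 := by
        rw [hπ, hz, inv_smul_eq_iff, hg]
      rw [mul_smul, mul_smul, hk _ h1, smul_inv_smul]
    set K' : Subgroup (Perm {l // l ≠ l0}) := (K0.map (MulAction.toPermHom G Λ)).comap
      (Perm.ofSubtype : Perm {l // l ≠ l0} →* Perm Λ) with hK'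
    have hmK' : ∀ σ : Perm {l // l ≠ l0}, σ ∈ K' ↔ ∃ k ∈ K0, ∀ l, k • l = Perm.ofSubtype σ l := by
      intro σ
      rw [hK', Subgroup.mem_comap, Subgroup.mem_map]
      constructor
      · rintro ⟨k, hk, h⟩
        exact ⟨k, hk, fun l => congrArg (fun τ : Perm Λ => τ l) h⟩
      · rintro ⟨k, hk, h⟩
        exact ⟨k, hk, Equiv.ext h⟩
    have hfix0 : ∀ σ : Perm {l // l ≠ l0}, Perm.ofSubtype σ l0 = l0 := fun σ =>
      Perm.ofSubtype_apply_of_not_mem σ (by simp)
    have hK'n : ∀ τ : Perm {l // l ≠ l0}, τ ∈ alternatingGroup {l // l ≠ l0} → ∀ f ∈ K', τ * f * τ⁻¹ ∈ K' := by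
      intro τ hτ f hf
      rw [hmK'] at hf ⊢
      obtain ⟨k, hk, h1⟩ := hf
      obtain ⟨t, ht⟩ := hlift (Perm.ofSubtype τ) (by
        rw [Perm.sign_ofSubtype]
        exact Equiv.Perm.mem_alternatingGroup.1 hτ)
      refine ⟨t * k * t⁻¹, hK0n t (by rw [ht, hfix0]) k hk, ?_⟩
      intro l
      rw [mul_smul, mul_smul, ht, h1, map_mul, map_mul, Perm.mul_apply, Perm.mul_apply, map_inv]
      congr 2
      rw [inv_smul_eq_iff, ht, ap_inv]
    -- the starting three-cycle
    set B1 : {l // l ≠ l0} := ⟨b1, n10.symm⟩ with hB1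
    set B2 : {l // l ≠ l0} := ⟨b2, n20.symm⟩ with hB2
    set B3 : {l // l ≠ l0} := ⟨b3, hb3.1⟩ with hB3
    have N12 : B1 ≠ B2 := fun h => hb12 (congrArg Subtype.val h)
    have N13 : B1 ≠ B3 := fun h => n13 (congrArg Subtype.val h)
    have N23 : B2 ≠ B3 := fun h => n23 (congrArg Subtype.val h)
    have hstart : swap B3 B2 * swap B3 B1 ∈ K' := by
      rw [hmK']
      obtain ⟨x1, hx1, hx1'⟩ := mem_image.1 hb1
      obtain ⟨x2, hx2, hx2'⟩ := mem_image.1 hb2
      obtain ⟨h, h1, h2⟩ := hJ x1 hx1 x2 hx2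
      have hh : ∀ l, l ∉ Γ' → h • l = l := by
        intro l hl
        obtain ⟨z, rfl⟩ := hsurj l
        rw [← hπ, h2 z (fun h => hl (mem_image_of_mem π h))]
      have hh12 : h • b1 = b2 := by rw [← hx1', ← hπ, h1, hx2']
      have hhK : h ∈ K0 := by
        rw [hmK]
        intro z hz
        apply h2
        intro hz'
        apply hl0'
        rw [← hz]
        exact mem_image_of_mem π hz'
      obtain ⟨t, ht⟩ := hlift (swap b4 b3 * swap b4 b1) (by
        rw [Perm.sign_mul, Perm.sign_swap hb34.symm, Perm.sign_swap n14.symm]; rfl)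
      have ht0 : t • l0 = l0 := by
        rw [ht, Perm.mul_apply, swap_apply_of_ne_of_ne hb4.1.symm n10, swap_apply_of_ne_of_ne hb4.1.symm hb3.1.symm]
      have hhi : h⁻¹ ∈ K0 := K0.inv_mem hhK
      refine ⟨h * (t * h⁻¹ * t⁻¹), K0.mul_mem hhK (hK0n t ht0 _ hhi), ?_⟩
      have hhσ : MulAction.toPermHom G Λ h * swap b4 b3 * (MulAction.toPermHom G Λ h)⁻¹ = swap b4 b3 := by
        have := swap_apply_apply (MulAction.toPermHom G Λ h) b4 b3
        have e3 : (MulAction.toPermHom G Λ h) b3 = b3 := hh b3 hb3.2.2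
        have e4 : (MulAction.toPermHom G Λ h) b4 = b4 := hh b4 hb4.2.2
        rw [e3, e4] at this
        exact this.symm
      have hhσ' : MulAction.toPermHom G Λ h * swap b4 b1 * (MulAction.toPermHom G Λ h)⁻¹ = swap b4 b2 := by
        have := swap_apply_apply (MulAction.toPermHom G Λ h) b4 b1
        have e3 : (MulAction.toPermHom G Λ h) b1 = b2 := hh12
        have e4 : (MulAction.toPermHom G Λ h) b4 = b4 := hh b4 hb4.2.2
        rw [e3, e4] at this
        exact this.symm
      have htσ : MulAction.toPermHom G Λ t = swap b4 b3 * swap b4 b1 := by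
        ext l
        exact ht l
      have key : MulAction.toPermHom G Λ (h * (t * h⁻¹ * t⁻¹)) = swap b3 b2 * swap b3 b1 := by
        rw [map_mul, map_mul, map_mul, map_inv, map_inv, htσ]
        have e1 : MulAction.toPermHom G Λ h * (swap b4 b3 * swap b4 b1 * (MulAction.toPermHom G Λ h)⁻¹ *
            (swap b4 b3 * swap b4 b1)⁻¹) = swap b4 b3 * swap b4 b2 * (swap b4 b1 * swap b4 b3) := by
          calc MulAction.toPermHom G Λ h * (swap b4 b3 * swap b4 b1 * (MulAction.toPermHom G Λ h)⁻¹ *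
                (swap b4 b3 * swap b4 b1)⁻¹)
              = (MulAction.toPermHom G Λ h * swap b4 b3 * (MulAction.toPermHom G Λ h)⁻¹) *
                (MulAction.toPermHom G Λ h * swap b4 b1 * (MulAction.toPermHom G Λ h)⁻¹) *
                (swap b4 b3 * swap b4 b1)⁻¹ := by group
            _ = swap b4 b3 * swap b4 b2 * (swap b4 b1 * swap b4 b3) := by
              rw [hhσ, hhσ', mul_inv_rev, swap_inv, swap_inv]
        rw [e1]
        have f1 : swap b4 b3 * swap b4 b2 * swap b4 b3 = swap b3 b2 := by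
          have := swap_apply_apply (swap b4 b3) b4 b2
          rw [swap_apply_left, swap_apply_of_ne_of_ne n24 n23, swap_inv] at this
          exact this.symm
        have f2 : swap b4 b3 * swap b4 b1 * swap b4 b3 = swap b3 b1 := by
          have := swap_apply_apply (swap b4 b3) b4 b1
          rw [swap_apply_left, swap_apply_of_ne_of_ne n14 n13, swap_inv] at this
          exact this.symm
        rw [← f1, ← f2]
        simp only [mul_assoc, swap_mul_self_mul]
      intro l
      have h3 := congrArg (fun τ : Perm Λ => τ l) key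
      have h4 : (h * (t * h⁻¹ * t⁻¹)) • l = (swap b3 b2 * swap b3 b1) l := h3
      rw [h4, map_mul, Perm.ofSubtype_swap_eq, Perm.ofSubtype_swap_eq]
    have hfin := alt_le_of_threeCycle K' hK'n N23.symm N13.symm N12.symm hstart
    -- conclusion
    have hgs : ∀ l : Λ, l ≠ l0 ↔ (MulAction.toPermHom G Λ (g : G)) l ≠ l0 := by
      intro l
      have h1 : ∀ l : Λ, (g : G) • l = l0 ↔ l = l0 := by
        intro l
        constructor
        · intro h
          exact MulAction.injective (g : G) (h.trans hgl.symm)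
        · intro h
          rw [h, hgl]
      exact (not_congr (h1 l)).symm
    set σ : Perm {l // l ≠ l0} := (MulAction.toPermHom G Λ (g : G)).subtypePerm (fun l => (hgs l).symm) with hσ
    have hσo : Perm.ofSubtype σ = MulAction.toPermHom G Λ (g : G) := by
      apply Perm.ofSubtype_subtypePerm
      intro l hl
      rintro rfl
      exact hl hgl
    have hσe : σ ∈ alternatingGroup {l // l ≠ l0} := by
      rw [Equiv.Perm.mem_alternatingGroup, ← Perm.sign_ofSubtype, hσo]
      exact (hmA g).1 g.2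
    obtain ⟨k', hk', h1⟩ := (hmK' σ).1 (hfin hσe)
    rw [hσo] at h1
    have h2 : (k' : G) = g := by
      have h3 := hker (k'⁻¹ * g) (fun l => by
        rw [mul_smul, inv_smul_eq_iff]
        exact (h1 l).symm)
      exact inv_mul_eq_one.1 h3
    have h3 := (hmK k').1 hk' z0 hl0.symm
    rw [h2, hgb] at h3
    exact hbz h3

end

end Cfsg.Agent.H74.Marg
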